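import Cfsg.Prelude.Def_Solvable
import Cfsg.Agent.Lib.Cores.PCore
import Cfsg.Agent.S0033

/-!
# Local balance in almost simple groups: the group-theoretic core

`𝒢` is a group of automorphisms of `K` containing the inner ones and `β ∈ 𝒢` has prime order. If `p`
does not divide the number of fixed points of `β`, the `p'`-core of the centraliser of `β` is not
trivial (the fixed points are a non-trivial normal subgroup). It is trivial if the fixed points of a
lift of `β` to a central extension `E` of `K` give a subgroup of `K` without normal subgroups of order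
prime to `p` which no non-trivial `p'`-automorphism commuting with `β` centralises.
-/

set_option autoImplicit false
set_option linter.style.haveILetI false

universe u v

namespace CfsgLib.LocalBalance

variable {K : Type u} [Group K]

/-- The fixed points of an automorphism. -/
def fix (β : MulAut K) : Subgroup K := MonoidHom.eqLocus β.toMonoidHom (MonoidHom.id K)

theorem mem_fix {β : MulAut K} {k : K} : k ∈ fix β ↔ β k = k := Iff.rfl

theorem commute_of_mem {𝒢 : Subgroup (MulAut K)} {β φ : MulAut K}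
    (h : φ ∈ 𝒢 ⊓ Subgroup.centralizer {β}) : φ * β = β * φ :=
  Subgroup.mem_centralizer_singleton_iff.1 h.2

theorem conj_eq (φ : MulAut K) (k : K) : φ * MulAut.conj k * φ⁻¹ = MulAut.conj (φ k) :=
  MulEquiv.ext fun x => by simp [MulAut.conj_apply, map_mul]

theorem apply_mem_fix {β φ : MulAut K} (h : φ * β = β * φ) {k : K} (hk : k ∈ fix β) : φ k ∈ fix β := by
  show β (φ k) = φ k
  rw [← MulAut.mul_apply, ← h, MulAut.mul_apply, mem_fix.1 hk]

/-- Conjugation by a fixed point, in the centraliser of `β`. -/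
def innerFix {𝒢 : Subgroup (MulAut K)} (hinn : ∀ k : K, MulAut.conj k ∈ 𝒢) (β : MulAut K) :
    fix β →* ↥(𝒢 ⊓ Subgroup.centralizer {β}) :=
  ((MulAut.conj : K →* MulAut K).comp (fix β).subtype).codRestrict _ fun k =>
    ⟨hinn k, Subgroup.mem_centralizer_singleton_iff.2 (by
      have h := conj_eq β (k : K)
      rw [mem_fix.1 k.2, mul_inv_eq_iff_eq_mul] at h
      exact h.symm)⟩

theorem coe_innerFix {𝒢 : Subgroup (MulAut K)} (hinn : ∀ k : K, MulAut.conj k ∈ 𝒢) (β : MulAut K)
    (k : fix β) : (innerFix hinn β k : MulAut K) = MulAut.conj (k : K) := rfl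

theorem innerFix_range_normal {𝒢 : Subgroup (MulAut K)} (hinn : ∀ k : K, MulAut.conj k ∈ 𝒢)
    (β : MulAut K) : (innerFix hinn β).range.Normal :=
  ⟨by
    rintro _ ⟨k, rfl⟩ φ
    refine ⟨⟨(φ : MulAut K) k, apply_mem_fix (commute_of_mem φ.2) k.2⟩, Subtype.ext ?_⟩
    exact (conj_eq (φ : MulAut K) (k : K)).symm⟩

/-- If `p` does not divide the number of fixed points, the core is not trivial. -/
theorem core_ne_bot [Finite K] [IsSimpleGroup K] (hna : ¬ IsMulCommutative K)
    {𝒢 : Subgroup (MulAut K)} (hinn : ∀ k : K, MulAut.conj k ∈ 𝒢) {p : ℕ} {β : MulAut K} {ℓ : ℕ}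
    (hℓ : ℓ.Prime) (hord : orderOf β = ℓ) (hcop : Nat.Coprime p (Nat.card (fix β))) :
    Cfsg.pPrimeCore p ↥(𝒢 ⊓ Subgroup.centralizer {β}) ≠ ⊥ := by
  intro h
  have hcenter : Subgroup.center K = ⊥ :=
    (Subgroup.Normal.eq_bot_or_eq_top inferInstance).resolve_right fun htop =>
      hna ⟨⟨fun a b => Subgroup.mem_center_iff.1 (htop ▸ Subgroup.mem_top b : b ∈ Subgroup.center K) a⟩⟩
  haveI := innerFix_range_normal hinn β
  have hcop' : (Nat.card (innerFix hinn β).range).Coprime p :=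
    Nat.Coprime.coprime_dvd_left (Subgroup.card_range_dvd _) hcop.symm
  have hle : (innerFix hinn β).range ≤ ⊥ := h ▸ CfsgLib.Cores.le_pPrimeCore hcop'
  have hfpf : MonoidHom.FixedPointFree (β : K →* K) := by
    intro k hk
    have h1 : innerFix hinn β ⟨k, hk⟩ = 1 := hle ⟨_, rfl⟩
    have h2 : MulAut.conj k = 1 := by
      have := congrArg Subtype.val h1
      simpa [coe_innerFix] using this
    refine hcenter.le (Subgroup.mem_center_iff.2 fun x => ?_)
    have h3 := DFunLike.congr_fun h2 x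
    rw [MulAut.conj_apply, MulAut.one_apply, mul_inv_eq_iff_eq_mul] at h3
    exact h3.symm
  haveI := Cfsg.Agent.S0033.result β hfpf ℓ hℓ hord
  haveI : Nontrivial K := IsSimpleGroup.toNontrivial
  exact (Group.IsNilpotent.center_ne_bot (G := K)) hcenter

/-- A `p'`-automorphism commuting with `β` and centralising `L` is trivial; `L` has no normal subgroup
of order prime to `p` and is normal in the fixed points of `β`. -/
structure Good (p : ℕ) (β : MulAut K) : Prop where
  exists_sub : ∃ L : Subgroup K, L ≤ fix β ∧ (∀ c ∈ fix β, ∀ x ∈ L, c * x * c⁻¹ ∈ L) ∧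
    (∀ N : Subgroup K, N ≤ L → (∀ c ∈ L, ∀ x ∈ N, c * x * c⁻¹ ∈ N) → (Nat.card N).Coprime p →
      N = ⊥) ∧
    ∀ φ : MulAut K, φ * β = β * φ → (orderOf φ).Coprime p → (∀ x ∈ L, φ x = x) → φ = 1

theorem Good.conj {p : ℕ} {β : MulAut K} (h : Good p β) (α : MulAut K) : Good p (α * β * α⁻¹) := by
  obtain ⟨L, hLf, hLn, hcore, hrig⟩ := h.exists_sub
  refine ⟨L.map α.toMonoidHom, ?_, ?_, ?_, ?_⟩
  · rintro _ ⟨x, hx, rfl⟩
    show α (β (α⁻¹ (α x))) = α x
    rw [MulAut.inv_apply_self, mem_fix.1 (hLf hx)]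
  · rintro c hc _ ⟨x, hx, rfl⟩
    have hc' : α⁻¹ c ∈ fix β := by
      show β (α⁻¹ c) = α⁻¹ c
      have hc' : α (β (α⁻¹ c)) = c := hc
      have := congrArg (α⁻¹ : MulAut K) hc'
      rwa [MulAut.inv_apply_self] at this
    refine ⟨_, hLn _ hc' x hx, ?_⟩
    show α (α⁻¹ c * x * (α⁻¹ c)⁻¹) = c * α x * c⁻¹
    rw [map_mul, map_mul, map_inv, MulAut.apply_inv_self]
  · intro N hNle hNn hcop
    have hle : N.comap α.toMonoidHom ≤ L := fun x hx => by
      obtain ⟨y, hy, hyx⟩ := hNle hx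
      rwa [← α.injective (show α y = α x from hyx)]
    have h0 := hcore (N.comap α.toMonoidHom) hle (fun c hc x hx => by
      show α (c * x * c⁻¹) ∈ N
      rw [map_mul, map_mul, map_inv]
      exact hNn _ ⟨c, hc, rfl⟩ _ hx) (by
        rwa [Nat.card_congr (show ↥(N.comap α.toMonoidHom) ≃ N from
          { toFun := fun x => ⟨α x.1, x.2⟩
            invFun := fun y => ⟨α.symm y.1, by
              show α (α.symm y.1) ∈ N
              rw [MulEquiv.apply_symm_apply]; exact y.2⟩
            left_inv := fun x => Subtype.ext (α.symm_apply_apply _)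
            right_inv := fun y => Subtype.ext (α.apply_symm_apply _) })])
    refine eq_bot_iff.2 fun y hy => ?_
    have h1 : α.symm y ∈ N.comap α.toMonoidHom := by
      show α (α.symm y) ∈ N
      rw [MulEquiv.apply_symm_apply]; exact hy
    rw [h0, Subgroup.mem_bot] at h1
    rw [Subgroup.mem_bot, ← α.apply_symm_apply y, h1, map_one]
  · intro φ hφ hcop hfix
    have h1 : α⁻¹ * φ * α = 1 := by
      refine hrig _ ?_ ?_ fun x hx => ?_
      · calc α⁻¹ * φ * α * β = α⁻¹ * (φ * (α * β * α⁻¹)) * α := by group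
          _ = β * (α⁻¹ * φ * α) := by rw [hφ]; group
      · have : α⁻¹ * φ * α = MulAut.conj α⁻¹ φ := by simp
        rw [this]
        exact (MulEquiv.orderOf_eq (MulAut.conj α⁻¹) φ).symm ▸ hcop
      · rw [MulAut.mul_apply, MulAut.mul_apply, hfix (α x) ⟨x, hx, rfl⟩, MulAut.inv_apply_self]
    calc φ = α * (α⁻¹ * φ * α) * α⁻¹ := by group
      _ = 1 := by rw [h1]; group

theorem center_eq_bot [IsSimpleGroup K] (hna : ¬ IsMulCommutative K) : Subgroup.center K = ⊥ :=
  (Subgroup.Normal.eq_bot_or_eq_top inferInstance).resolve_right fun htop =>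
    hna ⟨⟨fun a b => Subgroup.mem_center_iff.1 (htop ▸ Subgroup.mem_top b : b ∈ Subgroup.center K) a⟩⟩

/-- The core of the centraliser of a good automorphism is trivial. -/
theorem core_eq_bot [Finite K] (hZ : Subgroup.center K = ⊥) {p : ℕ} {β : MulAut K} (hg : Good p β)
    {𝒢 : Subgroup (MulAut K)} (hinn : ∀ k : K, MulAut.conj k ∈ 𝒢) :
    Cfsg.pPrimeCore p ↥(𝒢 ⊓ Subgroup.centralizer {β}) = ⊥ := by
  obtain ⟨L, hLf, hLn, hcore, hrig⟩ := hg.exists_sub
  set X := Cfsg.pPrimeCore p ↥(𝒢 ⊓ Subgroup.centralizer {β}) with hX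
  have hn : X.Normal := by
    rw [hX]; infer_instance
  have hXcop : (Nat.card X).Coprime p := CfsgLib.Cores.card_pPrimeCore_coprime p
  let ι : L →* ↥(𝒢 ⊓ Subgroup.centralizer {β}) :=
    (innerFix hinn β).comp (Subgroup.inclusion hLf)
  have hinj : Function.Injective ι := by
    intro a b hab
    have h1 : MulAut.conj (a : K) = MulAut.conj (b : K) := congrArg Subtype.val hab
    have h2 : (b : K)⁻¹ * a ∈ Subgroup.center K := by
      refine Subgroup.mem_center_iff.2 fun x => ?_
      have := DFunLike.congr_fun h1 x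
      simp only [MulAut.conj_apply] at this
      calc x * ((b : K)⁻¹ * a) = (b : K)⁻¹ * ((b : K) * x * (b : K)⁻¹) * a := by group
        _ = (b : K)⁻¹ * a * x := by rw [← this]; group
    rw [hZ, Subgroup.mem_bot, inv_mul_eq_one] at h2
    exact Subtype.ext h2.symm
  have hN0 : (X.comap ι).map L.subtype = ⊥ := by
    refine hcore _ (Subgroup.map_subtype_le _) ?_ ?_
    · rintro c hc _ ⟨x, hx, rfl⟩
      refine ⟨⟨c, hc⟩ * x * ⟨c, hc⟩⁻¹, ?_, rfl⟩
      show ι _ ∈ X
      rw [map_mul, map_mul, map_inv]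
      exact hn.conj_mem _ hx _
    · rw [Nat.card_congr ((X.comap ι).equivMapOfInjective L.subtype Subtype.coe_injective).symm.toEquiv]
      exact hXcop.coprime_dvd_left (Subgroup.card_comap_dvd_of_injective _ ι hinj)
  have hcopX : ∀ φ ∈ X, (orderOf (φ : MulAut K)).Coprime p := fun φ hφ => by
    refine hXcop.coprime_dvd_left ?_
    rw [Subgroup.orderOf_coe, ← Subgroup.orderOf_mk φ hφ]
    exact orderOf_dvd_natCard _
  -- no inner automorphism by a fixed point lies in the core
  have hC : ∀ c (hc : c ∈ fix β), innerFix hinn β ⟨c, hc⟩ ∈ X → c = 1 := by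
    intro c hc hcX
    have h1 : MulAut.conj c = 1 := by
      refine hrig (MulAut.conj c) (commute_of_mem (innerFix hinn β ⟨c, hc⟩).2) (hcopX _ hcX)
        fun x hx => ?_
      have hy : c * x * c⁻¹ * x⁻¹ ∈ (X.comap ι).map L.subtype := by
        refine ⟨⟨_, L.mul_mem (hLn c hc x hx) (L.inv_mem hx)⟩, ?_, rfl⟩
        show innerFix hinn β _ ∈ X
        have e : (⟨c * x * c⁻¹ * x⁻¹, hLf (L.mul_mem (hLn c hc x hx) (L.inv_mem hx))⟩ : fix β) =
            ⟨c, hc⟩ * ((⟨x, hLf hx⟩ : fix β) * ⟨c, hc⟩⁻¹ * (⟨x, hLf hx⟩ : fix β)⁻¹) :=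
          Subtype.ext (by simp [mul_assoc])
        show innerFix hinn β ⟨c * x * c⁻¹ * x⁻¹, _⟩ ∈ X
        rw [e, map_mul, map_mul, map_mul, map_inv, map_inv]
        exact mul_mem hcX (hn.conj_mem _ (inv_mem hcX) _)
      rw [hN0, Subgroup.mem_bot, mul_inv_eq_one] at hy
      exact hy
    have h2 : c ∈ Subgroup.center K := Subgroup.mem_center_iff.2 fun x => by
      have h3 := DFunLike.congr_fun h1 x
      rw [MulAut.conj_apply, MulAut.one_apply, mul_inv_eq_iff_eq_mul] at h3
      exact h3.symm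
    rwa [hZ, Subgroup.mem_bot] at h2
  refine eq_bot_iff.2 fun φ hφ => Subgroup.mem_bot.2 (Subtype.ext ?_)
  refine hrig φ.1 (commute_of_mem φ.2) (hcopX φ hφ) fun x hx => ?_
  have hφx : φ.1 x ∈ fix β := apply_mem_fix (commute_of_mem φ.2) (hLf hx)
  refine mul_inv_eq_one.1 (hC _ ((fix β).mul_mem hφx ((fix β).inv_mem (hLf hx))) ?_)
  set i : ↥(𝒢 ⊓ Subgroup.centralizer {β}) := innerFix hinn β ⟨x, hLf hx⟩ with hi
  have e : innerFix hinn β ⟨φ.1 x * x⁻¹, (fix β).mul_mem hφx ((fix β).inv_mem (hLf hx))⟩ =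
      φ * (i * φ⁻¹ * i⁻¹) := by
    refine Subtype.ext ?_
    show MulAut.conj (φ.1 x * x⁻¹) = φ.1 * (MulAut.conj x * φ.1⁻¹ * (MulAut.conj x)⁻¹)
    rw [map_mul, map_inv, ← conj_eq]
    group
  rw [e]
  exact mul_mem hφ (hn.conj_mem _ (inv_mem hφ) _)

end CfsgLib.LocalBalance
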