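import Cfsg.Prelude.Def_Solvable
import Cfsg.Agent.Lib.Cores.PCore

/-!
# Groups without normal `p'`-subgroups modulo a central subgroup
-/

set_option autoImplicit false
set_option linter.style.haveILetI false

open Matrix

universe u v

namespace CfsgLib.LocalBalance

variable {H : Type u} [Group H]

/-- A normal subgroup whose image modulo `Z` has order prime to `p` lies in `Z`. -/
def Coreless (p : ℕ) (Z : Subgroup H) : Prop :=
  ∀ M : Subgroup H, M.Normal → (Z.relIndex M).Coprime p → M ≤ Z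

/-- The image of a homomorphism with coreless kernel has no `p'`-core. -/
theorem Coreless.range {K : Type v} [Group K] [Finite K] {p : ℕ} {f : H →* K} (h : Coreless p f.ker) :
    Cfsg.pPrimeCore p f.range = ⊥ := by
  set Q := Cfsg.pPrimeCore p f.range with hQ
  have hn : Q.Normal := by rw [hQ]; infer_instance
  haveI := hn
  have hmap : (Q.comap f.rangeRestrict).map f.rangeRestrict = Q :=
    Subgroup.map_comap_eq_self_of_surjective f.rangeRestrict_surjective Q
  have hle := h (Q.comap f.rangeRestrict) inferInstance (by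
    rw [← f.ker_rangeRestrict, Subgroup.relIndex_ker, hmap]
    exact CfsgLib.Cores.card_pPrimeCore_coprime p)
  rw [← hmap, eq_bot_iff]
  rintro _ ⟨x, hx, rfl⟩
  exact Subgroup.mem_bot.2 (Subtype.ext (MonoidHom.mem_ker.1 (hle hx)))

/-- A simple central quotient has no normal `p'`-subgroup when `p` divides its order. -/
theorem coreless_of_simple (Z : Subgroup H) [Z.Normal] [IsSimpleGroup (H ⧸ Z)] {p : ℕ} (hp : p.Prime)
    (hdvd : p ∣ Z.index) : Coreless p Z := by
  intro M hM hcop
  haveI := hM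
  haveI := Subgroup.Normal.map hM (QuotientGroup.mk' Z) (QuotientGroup.mk'_surjective Z)
  rcases Subgroup.Normal.eq_bot_or_eq_top (inferInstance : (M.map (QuotientGroup.mk' Z)).Normal) with h | h
  · rwa [Subgroup.map_eq_bot_iff, QuotientGroup.ker_mk'] at h
  · exfalso
    rw [← QuotientGroup.ker_mk' Z, Subgroup.relIndex_ker, h, Subgroup.card_top] at hcop
    exact hp.ne_one (Nat.dvd_one.1 (hcop.gcd_eq_one ▸ Nat.dvd_gcd hdvd dvd_rfl))

/-- An irreducible linear group in characteristic `r` whose order modulo `Z` involves only `p` and `r`. -/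
theorem coreless_of_irreducible [Finite H] {ι : Type} [Fintype ι] [DecidableEq ι] [Nonempty ι]
    {F₀ : Type v} [Field F₀] [Finite F₀] {r p : ℕ} [Fact r.Prime] [CharP F₀ r] (hp : p.Prime)
    (ρ : H →* Matrix ι ι F₀) (hinj : Function.Injective ρ)
    (hirr : ∀ W : Submodule F₀ (ι → F₀), (∀ g, ∀ v ∈ W, ρ g *ᵥ v ∈ W) → W ≠ ⊥ → W = ⊤)
    (Z : Subgroup H) (hZc : Z ≤ Subgroup.center H) (hZr : ¬ r ∣ Nat.card Z)
    (hprimes : ∀ ℓ : ℕ, ℓ.Prime → ℓ ∣ Z.index → ℓ = p ∨ ℓ = r) : Coreless p Z := by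
  intro M hM hcop
  haveI := hM
  haveI : Z.Normal := ⟨fun z hz g => by
    rwa [Subgroup.mem_center_iff.1 (hZc hz) g, mul_inv_cancel_right]⟩
  have hrl : ∀ ℓ : ℕ, ℓ.Prime → ℓ ∣ Z.relIndex M → ℓ = r := fun ℓ hℓ hd =>
    (hprimes ℓ hℓ (hd.trans (Subgroup.relIndex_dvd_index_of_normal Z M))).resolve_left fun h =>
      hp.ne_one (Nat.dvd_one.1 (hcop.gcd_eq_one ▸ Nat.dvd_gcd (h ▸ hd) dvd_rfl))
  let P : Sylow r M := default
  let C : Subgroup M := Z.subgroupOf M
  have hCr : ¬ r ∣ Nat.card C := fun h =>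
    hZr (h.trans (Subgroup.card_comap_dvd_of_injective Z M.subtype M.subtype_injective))
  have hPn : (P : Subgroup M).Normal := by
    rw [← Subgroup.normalizer_eq_top_iff, eq_top_iff]
    have hCle : C ≤ Subgroup.normalizer ((P : Subgroup M) : Set M) := by
      intro c hc
      rw [Subgroup.mem_normalizer_iff]
      intro x
      have hcx : c * x * c⁻¹ = x := Subtype.ext (by
        show (c : H) * (x : H) * (c : H)⁻¹ = x
        have h : (x : H) * (c : H) = (c : H) * (x : H) := Subgroup.mem_center_iff.1 (hZc hc) x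
        rw [← h, mul_inv_cancel_right])
      rw [hcx]
    refine le_trans ?_ (sup_le Subgroup.le_normalizer hCle)
    refine le_of_eq (Subgroup.eq_top_of_card_eq _ ?_).symm
    refine Nat.dvd_antisymm (Subgroup.card_subgroup_dvd_card _) ?_
    rw [← C.index_mul_card]
    refine Nat.Coprime.mul_dvd_of_dvd_of_dvd ?_ ?_ (Subgroup.card_dvd_of_le le_sup_right)
    · refine Nat.coprime_of_dvd fun k hk hk1 hk2 => hCr ?_
      exact hrl k hk hk1 ▸ hk2
    · refine dvd_trans ?_ (Subgroup.card_dvd_of_le le_sup_left)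
      have hd : C.index ∣ Nat.card M := Subgroup.index_dvd_card C
      rcases Nat.eq_zero_or_pos C.index with h0 | h0
      · exact absurd h0 Subgroup.FiniteIndex.index_ne_zero
      obtain ⟨k, hk⟩ : ∃ k, C.index = r ^ k :=
        ⟨C.index.primeFactorsList.length, Nat.eq_prime_pow_of_unique_prime_dvd h0.ne' fun {d} hd' hdd =>
          hrl d hd' hdd⟩
      rw [hk] at hd ⊢
      rw [P.card_eq_multiplicity]
      exact pow_dvd_pow r ((Fact.out : r.Prime).pow_dvd_iff_le_factorization Nat.card_pos.ne' |>.1 hd)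
  haveI := hPn
  haveI hch : (P : Subgroup M).Characteristic := Sylow.characteristic_of_normal P hPn
  set Q : Subgroup H := (P : Subgroup M).map M.subtype with hQ
  have hQn : Q.Normal := by rw [hQ]; infer_instance
  have hQp : IsPGroup r Q := P.isPGroup'.map _
  -- the fixed space of `Q`
  let W : Submodule F₀ (ι → F₀) :=
    { carrier := {v | ∀ g ∈ Q, ρ g *ᵥ v = v}
      add_mem' := fun {a b} ha hb g hg => by rw [Matrix.mulVec_add, ha g hg, hb g hg]
      zero_mem' := fun g _ => Matrix.mulVec_zero _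
      smul_mem' := fun c a ha g hg => by rw [Matrix.mulVec_smul, ha g hg] }
  have hWinv : ∀ g, ∀ v ∈ W, ρ g *ᵥ v ∈ W := by
    intro g v hv x hx
    have h1 := hv _ (hQn.conj_mem x hx g⁻¹)
    rw [inv_inv, map_mul, map_mul, ← Matrix.mulVec_mulVec, ← Matrix.mulVec_mulVec] at h1
    have h2 := congrArg (ρ g *ᵥ ·) h1
    simp only [Matrix.mulVec_mulVec, ← map_mul, ← mul_assoc, mul_inv_cancel, one_mul] at h2
    rw [Matrix.mulVec_mulVec, ← map_mul]
    exact h2
  let act : MulAction Q (ι → F₀) :=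
    { smul := fun g v => ρ (g : H) *ᵥ v
      one_smul := fun v => by show ρ ((1 : Q) : H) *ᵥ v = v; rw [OneMemClass.coe_one, map_one, Matrix.one_mulVec]
      mul_smul := fun a b v => by
        show ρ ((a * b : Q) : H) *ᵥ v = ρ (a : H) *ᵥ (ρ (b : H) *ᵥ v)
        rw [Subgroup.coe_mul, map_mul, Matrix.mulVec_mulVec] }
  have hW0 : W ≠ ⊥ := by
    obtain ⟨v, hv, hv0⟩ := hQp.exists_fixed_point_of_prime_dvd_card_of_fixed_point (ι → F₀) (by
      rw [Nat.card_fun]
      refine dvd_trans ?_ (dvd_pow_self _ (Nat.card_pos (α := ι)).ne')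
      haveI : Fintype F₀ := Fintype.ofFinite F₀
      obtain ⟨k, -, hk⟩ := FiniteField.card F₀ r
      rw [Nat.card_eq_fintype_card, hk]
      exact dvd_pow_self r k.pos.ne') (a := 0) (fun g => Matrix.mulVec_zero _)
    intro hbot
    refine hv0 ?_
    have : v ∈ W := fun g hg => hv ⟨g, hg⟩
    rw [hbot, Submodule.mem_bot] at this
    exact this.symm
  have hQ1 : Q = ⊥ := eq_bot_iff.2 fun g hg => Subgroup.mem_bot.2 (hinj (by
    rw [map_one]
    refine Matrix.ext_of_mulVec_single fun k => ?_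
    have hk : (Pi.single k 1 : ι → F₀) ∈ W := (hirr W hWinv hW0).symm ▸ Submodule.mem_top
    rw [hk g hg, Matrix.one_mulVec]))
  rw [hQ, Subgroup.map_eq_bot_iff_of_injective _ M.subtype_injective] at hQ1
  refine Subgroup.relIndex_eq_one.1 ?_
  by_contra hne
  obtain ⟨ℓ, hℓ, hd⟩ := Nat.exists_prime_and_dvd hne
  obtain rfl := hrl ℓ hℓ hd
  have := P.dvd_card_of_dvd_card (hd.trans (Subgroup.index_dvd_card C))
  rw [hQ1, Subgroup.card_bot, Nat.dvd_one] at this
  exact hℓ.ne_one this

end CfsgLib.LocalBalance
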