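import Cfsg.Agent.Lib.LocalBalance.Core
import Cfsg.Agent.Lib.LocalBalance.NoCore
import Cfsg.Agent.Lib.ReflectionsSpinor.FixedField

/-!
# Good automorphisms through a central extension, and Galois facts for finite fields
-/

set_option autoImplicit false
set_option linter.style.haveILetI false

universe u v w

namespace CfsgLib.LocalBalance

variable {E : Type u} [Group E] {K : Type v} [Group K] {H : Type w} [Group H]

/-- A lift of `β` to a central extension whose fixed points are the image of a coreless group. -/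
theorem Good.of_lift [Finite K] (π : E →* K) (hπ : Function.Surjective π)
    (hker : π.ker ≤ Subgroup.center E) {β : MulAut K} (β' : E →* E) (hcomp : ∀ s, β (π s) = π (β' s))
    {p : ℕ} (f : H →* E) (hf : ∀ x, β' (f x) = f x) (hf' : ∀ s, β' s = s → ∃ x, f x = s)
    (hcore : Coreless p (π.comp f).ker)
    (hrig : ∀ φ : MulAut K, φ * β = β * φ → (orderOf φ).Coprime p →
      (∀ x, φ (π (f x)) = π (f x)) → φ = 1) : Good p β := by
  refine ⟨(π.comp f).range, ?_, ?_, ?_, ?_⟩
  · rintro _ ⟨x, rfl⟩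
    show β (π (f x)) = π (f x)
    rw [hcomp, hf]
  · rintro c hc _ ⟨x, rfl⟩
    obtain ⟨t, rfl⟩ := hπ c
    have hz : t⁻¹ * β' t ∈ π.ker := by
      rw [MonoidHom.mem_ker, map_mul, map_inv, ← hcomp, mem_fix.1 hc, inv_mul_cancel]
    have hfix : β' (t * f x * t⁻¹) = t * f x * t⁻¹ := by
      have hzc : f x * (t⁻¹ * β' t) = t⁻¹ * β' t * f x := Subgroup.mem_center_iff.1 (hker hz) (f x)
      rw [map_mul, map_mul, map_inv, hf]
      calc β' t * f x * (β' t)⁻¹ = t * (t⁻¹ * β' t * f x) * (β' t)⁻¹ := by group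
        _ = _ := by rw [← hzc]; group
    obtain ⟨y, hy⟩ := hf' _ hfix
    exact ⟨y, by simp [hy]⟩
  · intro N hN hNn hcop
    have hn : (N.comap (π.comp f)).Normal := ⟨fun x hx g => by
      rw [Subgroup.mem_comap, map_mul, map_mul, map_inv]
      exact hNn _ ⟨g, rfl⟩ _ hx⟩
    have hmap : (N.comap (π.comp f)).map (π.comp f) = N := Subgroup.map_comap_eq_self hN
    have hle := hcore _ hn (by rwa [Subgroup.relIndex_ker, hmap])
    rw [← hmap, Subgroup.map_eq_bot_iff]
    exact hle
  · exact fun φ h1 h2 h3 => hrig φ h1 h2 fun x => h3 _ ⟨x, rfl⟩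

/-- If `p` divides the number of fixed points, it divides the order of the image of the fixed points of
the lift, provided the kernel gives an element of order `p` there in case `p` divides its order. -/
theorem dvd_index [Finite E] [Finite H] (π : E →* K) (hπ : Function.Surjective π)
    (hker : π.ker ≤ Subgroup.center E) {β : MulAut K} (β' : E →* E) (hcomp : ∀ s, β (π s) = π (β' s))
    {p : ℕ} (hp : p.Prime) (f : H →* E) (hf' : ∀ s, β' s = s → ∃ x, f x = s)
    (hdvd : p ∣ Nat.card (fix β))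
    (hz : p ∣ Nat.card π.ker → ∃ x, π (f x) ≠ 1 ∧ π (f x) ^ p = 1) :
    p ∣ (π.comp f).ker.index := by
  haveI : Fact p.Prime := ⟨hp⟩
  haveI : Finite K := Finite.of_surjective π hπ
  have key : (∃ x, π (f x) ≠ 1 ∧ π (f x) ^ p = 1) → p ∣ (π.comp f).ker.index := by
    rintro ⟨x, h1, h2⟩
    rw [Subgroup.index_ker]
    have h : orderOf ((π.comp f).rangeRestrict x) = p := orderOf_eq_prime (Subtype.ext h2)
      fun h => h1 (congrArg Subtype.val h)
    exact h ▸ orderOf_dvd_natCard _
  refine key ?_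
  by_cases hd : p ∣ Nat.card π.ker
  · exact hz hd
  obtain ⟨k, hk⟩ := exists_prime_orderOf_dvd_card' p hdvd
  obtain ⟨s, hs⟩ := hπ k.1
  have hkp : (k : K) ^ p = 1 := by
    rw [← hk, ← SubgroupClass.coe_pow, pow_orderOf_eq_one, OneMemClass.coe_one]
  have hk1 : (k : K) ≠ 1 := fun h => by
    have : k = 1 := Subtype.ext h
    rw [this, orderOf_one] at hk
    exact hp.ne_one hk.symm
  set m := Nat.card π.ker
  have hzk : s⁻¹ * β' s ∈ π.ker := by
    rw [MonoidHom.mem_ker, map_mul, map_inv, ← hcomp, hs, mem_fix.1 k.2, inv_mul_cancel]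
  have hpowker : ∀ z ∈ π.ker, z ^ m = 1 := fun z hz =>
    orderOf_dvd_iff_pow_eq_one.1 (Subgroup.orderOf_dvd_natCard π.ker hz)
  have hfix : β' (s ^ m) = s ^ m := by
    have hc : Commute s (s⁻¹ * β' s) := Subgroup.mem_center_iff.1 (hker hzk) s
    rw [map_pow, show β' s = s * (s⁻¹ * β' s) by group, hc.mul_pow, hpowker _ hzk, mul_one]
  obtain ⟨x, hx⟩ := hf' _ hfix
  refine ⟨x, ?_, ?_⟩
  · rw [hx, map_pow, hs]
    intro h1
    refine hd ?_
    have h2 : orderOf (k : K) = p := orderOf_eq_prime hkp hk1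
    exact h2 ▸ orderOf_dvd_of_pow_eq_one h1
  · rw [hx, map_pow, hs, ← pow_mul, mul_comm, pow_mul, hkp, one_pow]

section Field

open CfsgLib.ReflectionsSpinor

variable {F : Type u} [Field F] [Finite F]

/-- An automorphism fixing the fixed field of an automorphism of order `p` has order dividing `p`. -/
theorem pow_eq_one_of_fix {σ τ : F ≃+* F} {p : ℕ} (hσ : orderOf σ = p)
    (hτ : ∀ x, σ x = x → τ x = x) : τ ^ p = 1 := by
  set K := fixedField σ
  let τ' : F ≃ₐ[K] F := AlgEquiv.ofRingEquiv (f := τ) fun x => hτ (x : F) x.2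
  have hcard : Nat.card (F ≃ₐ[K] F) = p := by
    rw [IsGalois.card_aut_eq_finrank]
    have h1 := card_eq_fixedField_pow σ hσ
    rw [Module.natCard_eq_pow_finrank (K := K) (V := F)] at h1
    exact Nat.pow_right_injective (Finite.one_lt_card (α := K)) h1
  have h2 : τ' ^ p = 1 := hcard ▸ pow_card_eq_one'
  refine RingEquiv.ext fun x => ?_
  have h3 := congrArg (fun e : F ≃ₐ[K] F => e x) h2
  have h4 : ∀ k, (τ' ^ k) x = (τ ^ k) x := by
    intro k
    induction k with
    | zero => rfl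
    | succ k ih => rw [pow_succ', pow_succ']; show τ' ((τ' ^ k) x) = τ ((τ ^ k) x); rw [ih]; rfl
  simp only [h4] at h3
  exact h3

/-- An automorphism of order dividing `p` fixes the `p`-th roots of unity. -/
theorem fix_root_of_unity {σ : F ≃+* F} {p : ℕ} (hp : p.Prime) (hσ : σ ^ p = 1) {z : F}
    (hz : z ^ p = 1) : σ z = z := by
  haveI : Fact p.Prime := ⟨hp⟩
  by_cases hz1 : z = 1
  · rw [hz1, map_one]
  haveI : NeZero p := ⟨hp.ne_zero⟩
  have hprim : IsPrimitiveRoot z p := IsPrimitiveRoot.iff_orderOf.2 (orderOf_eq_prime hz hz1)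
  obtain ⟨k, hkp, hk⟩ := hprim.eq_pow_of_pow_eq_one (show σ z ^ p = 1 by rw [← map_pow, hz, map_one])
  have hiter : ∀ j : ℕ, (σ ^ j) z = z ^ k ^ j := by
    intro j
    induction j with
    | zero => rw [pow_zero, pow_zero, pow_one]; rfl
    | succ j ih =>
      rw [pow_succ']
      show σ ((σ ^ j) z) = _
      rw [ih, map_pow, ← hk, ← pow_mul, pow_succ' k]
  have h1 : z ^ k ^ p = z ^ 1 := by rw [← hiter, hσ, pow_one]; rfl
  have hfin : IsOfFinOrder z := isOfFinOrder_iff_pow_eq_one.2 ⟨p, hp.pos, hz⟩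
  rw [hfin.pow_eq_pow_iff_modEq, ← hprim.eq_orderOf] at h1
  have h3 : k ≡ 1 [MOD p] := by
    rw [← ZMod.natCast_eq_natCast_iff] at h1 ⊢
    rwa [Nat.cast_pow, ZMod.pow_card] at h1
  conv_rhs => rw [← pow_one z]
  rw [← hk, hfin.pow_eq_pow_iff_modEq, ← hprim.eq_orderOf]
  exact h3

end Field

end CfsgLib.LocalBalance
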