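import Cfsg.Agent.Lib.LocalBalance.LinearGraph

/-!
# Failure of local balance in almost simple groups with socle `PSL_n(F)`
-/

set_option autoImplicit false
set_option linter.unusedSectionVars false
set_option linter.style.haveILetI false

open Matrix
open CfsgLib.ReflectionsSpinor CfsgLib.ReflectionsSpinor.PSL

universe u

namespace CfsgLib.LocalBalance

variable {n : ℕ} {F : Type u} [Field F] [Finite F]

local notation "M" => Matrix (Fin n) (Fin n) F
local notation "PSLn" => Matrix.ProjectiveSpecialLinearGroup (Fin n) F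

theorem not_isMulCommutative_psl (hn : 2 ≤ n) : ¬ IsMulCommutative PSLn := by
  intro h
  let k₀ : Fin n := ⟨0, by omega⟩
  let l₀ : Fin n := ⟨1, by omega⟩
  have hkl : k₀ ≠ l₀ := by simp [k₀, l₀, Fin.ext_iff]
  set s : Matrix.SpecialLinearGroup (Fin n) F := SpecialLinearGroup.transvection hkl (1 : F) with hs
  have h1 : MulAut.conj (cl s) = 1 := MulEquiv.ext fun x => by
    rw [MulAut.conj_apply, h.is_comm.comm (cl s) x, mul_inv_cancel_right, MulAut.one_apply]
  rw [inner_eq_semiAut, semiAut_eq_one_iff hn] at h1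
  obtain ⟨c, hc⟩ := (Cfsg.Geo.mem_scalars_iff _).1 h1.2
  have := congrFun (congrFun hc k₀) l₀
  change Matrix.transvection k₀ l₀ (1 : F) k₀ l₀ = _ at this
  simp [Matrix.transvection, hkl] at this

theorem isField_iff (hn : 2 ≤ n) {β : MulAut PSLn} :
    (∃ γ φ : MulAut PSLn, Cfsg.IsInnerDiagonalAutPSL γ ∧ Cfsg.IsFieldAutPSL φ ∧ β = φ.trans γ) ↔
      ∃ (g : GL (Fin n) F) (σ : F ≃+* F), β = semiAut g σ := by
  constructor
  · rintro ⟨γ, φ, hγ, ⟨σ, hσ⟩, rfl⟩
    obtain ⟨g, rfl⟩ := isInnerDiagonal_iff.1 hγ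
    obtain rfl := isStdFieldAut_iff.1 hσ
    refine ⟨g, σ, ?_⟩
    show semiAut g 1 * semiAut 1 σ = _
    rw [semiAut_mul, map_one, mul_one, one_mul]
  · rintro ⟨g, σ, rfl⟩
    refine ⟨semiAut g 1, semiAut 1 σ, isInnerDiagonal_iff.2 ⟨g, rfl⟩, ⟨σ, isStdFieldAut_iff.2 rfl⟩, ?_⟩
    show _ = semiAut g 1 * semiAut 1 σ
    rw [semiAut_mul, map_one, mul_one, one_mul]

/-- Graph and graph-field automorphisms of prime order are good involutions. -/
theorem good_of_graph {r : ℕ} [Fact r.Prime] [CharP F r] (hn : 3 ≤ n) {p : ℕ} (hp : p.Prime) (hpr : p ≠ r)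
    {g : GL (Fin n) F} {σ : F ≃+* F} (hord : orderOf (semiAut g σ * invTr : MulAut PSLn) = p) :
    p = 2 ∧ Good p (semiAut g σ * invTr : MulAut PSLn) := by
  set β : MulAut PSLn := semiAut g σ * invTr with hβ
  have hβp : β ^ p = 1 := hord ▸ pow_orderOf_eq_one β
  have hp2 : p = 2 := by
    by_contra h
    obtain ⟨k, hk⟩ := hp.odd_of_ne_two h
    rw [hk, pow_succ, pow_mul] at hβp
    rw [hβ, gfAut_sq (by omega), semiAut_pow, ← mul_assoc, semiAut_mul] at hβp
    exact semiAut_ne_semiAut_mul_invTr hn 1 _ 1 _ (semiAut_one.trans hβp.symm)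
  subst hp2
  refine ⟨rfl, ?_⟩
  by_cases hσ : σ = 1
  swap
  · obtain ⟨hσ2, d, -, hd⟩ := isConjUnder_gf_of_sq_eq_one (by omega) g hσ hβp
    rw [hβ, hd]
    exact (good_gf hn hpr hσ hσ2).conj d
  subst hσ
  have h2 : (2 : F) ≠ 0 := fun e => by
    have h0 : ((2 : ℕ) : F) = 0 := by push_cast; exact e
    exact hpr ((Nat.prime_dvd_prime_iff_eq Fact.out Nat.prime_two).1 ((CharP.cast_eq_zero_iff F r 2).1 h0)).symm
  obtain ⟨A, hA, hAs⟩ := exists_gr hn β
    ⟨hn, semiAut g 1, invTr, isInnerDiagonal_iff.2 ⟨g, rfl⟩, isInverseTranspose_iff.2 rfl, rfl⟩ hord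
  rw [hA]
  rcases hAs with hsym | halt
  · obtain ⟨k, rfl⟩ : ∃ k, n = k + 1 := ⟨n - 1, by omega⟩
    obtain ⟨α, hα⟩ := CfsgLib.ReflectionsSpinor.exists_nonsquare h2
    obtain ⟨P, d, hd, hP⟩ := exists_congr_diagonal h2 α hα A hsym
    have hd0 : d ≠ 0 := by
      rcases hd with rfl | rfl
      · exact one_ne_zero
      · exact fun h => hα (h ▸ IsSquare.zero)
    have hu : IsUnit (diagForm k d) := by
      rw [Matrix.isUnit_iff_isUnit_det, diagForm, det_diag_last]
      exact isUnit_iff_ne_zero.2 hd0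
    obtain ⟨e, -, he⟩ := (isConjUnder_gr_iff (by omega) hu.unit A).2 ⟨P, 1, by
      rw [Units.val_one, one_smul, IsUnit.unit_spec]; exact hP⟩
    rw [he]
    exact (good_gr_orth (by omega) h2 hu.unit hd0 (IsUnit.unit_spec hu)).conj e
  · have hdiag : ∀ a, (A : M) a a = 0 := fun a => by
      have := congrFun (congrFun halt a) a
      rw [Matrix.transpose_apply, Matrix.neg_apply] at this
      exact (mul_eq_zero.1 (show (2 : F) * (A : M) a a = 0 by linear_combination this)).resolve_left h2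
    obtain ⟨m, hm⟩ : Even n := by
      by_contra hodd
      rw [Nat.not_even_iff_odd] at hodd
      have h1 := congrArg Matrix.det halt
      rw [Matrix.det_transpose, Matrix.det_neg, Fintype.card_fin, hodd.neg_one_pow] at h1
      have hA0 : (A : M).det ≠ 0 := ((Matrix.isUnit_iff_isUnit_det _).1 A.isUnit).ne_zero
      exact hA0 ((mul_eq_zero.1 (show (2 : F) * (A : M).det = 0 by linear_combination h1)).resolve_left h2)
    let e : Fin m ⊕ Fin m ≃ Fin n := finSumFinEquiv.trans (finCongr hm.symm)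
    have hu : IsUnit (Matrix.reindex e e (Matrix.J (Fin m) F)) := by
      rw [Matrix.isUnit_iff_isUnit_det, Matrix.det_reindex_self]
      exact Matrix.isUnit_det_J _ _
    obtain ⟨w, -, hw⟩ := (isConjUnder_gr_iff (by omega) hu.unit A).2
      (ScalCong.symm (by rw [IsUnit.unit_spec]; exact scalCong_J e A halt hdiag))
    rw [hw]
    exact (good_gr_symp (by omega) h2 e hu.unit (IsUnit.unit_spec hu)).conj w

/-- Failure of local balance for socle `PSL_n(F)`. -/
theorem linear_criterion {r : ℕ} [Fact r.Prime] [CharP F r] (hn : 2 ≤ n) [IsSimpleGroup PSLn]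
    (𝒢 : Subgroup (MulAut PSLn)) (hinn : ∀ k : PSLn, MulAut.conj k ∈ 𝒢) {p : ℕ} [Fact p.Prime] (hpr : p ≠ r)
    (β : MulAut PSLn) (hord : orderOf β = p) (hnot : ¬ Cfsg.IsInnerDiagonalAutPSL β) :
    Cfsg.pPrimeCore p ↥(𝒢 ⊓ Subgroup.centralizer {β}) ≠ ⊥ ↔
      ((∃ γ φ : MulAut PSLn, Cfsg.IsInnerDiagonalAutPSL γ ∧ Cfsg.IsFieldAutPSL φ ∧ β = φ.trans γ) ∧
        Nat.Coprime p (Nat.card (fix β))) := by
  have hp : p.Prime := Fact.out
  have hna := not_isMulCommutative_psl (F := F) hn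
  rw [isField_iff hn]
  obtain ⟨g, σ, hg | ⟨h3, hg⟩⟩ := exists_semiAut hn β
  · refine ⟨fun hne => ⟨⟨g, σ, hg⟩, ?_⟩, fun h => core_ne_bot hna hinn hp hord h.2⟩
    rw [hp.coprime_iff_not_dvd]
    intro hdvd
    subst hg
    have hσ1 : σ ≠ 1 := fun h => hnot (isInnerDiagonal_iff.2 ⟨g, by rw [h]⟩)
    have hpow : semiAut g σ ^ p = 1 := hord ▸ pow_orderOf_eq_one _
    have hσp : orderOf σ = p := by
      have h1 := hpow
      rw [semiAut_pow, semiAut_eq_one_iff hn] at h1
      exact orderOf_eq_prime h1.1 hσ1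
    obtain ⟨d, -, hd⟩ := isConjUnder_of_pow_eq_one hn g hσp hpow
    rw [hd, card_fix_conj] at hdvd
    refine hne ?_
    rw [hd]
    exact core_eq_bot (center_eq_bot hna) ((good_field hn hp hpr hσp hdvd).conj d) hinn
  · subst hg
    refine ⟨fun hne => (hne (core_eq_bot (center_eq_bot hna) (good_of_graph h3 hp hpr hord).2 hinn)).elim, ?_⟩
    rintro ⟨⟨g', σ', he⟩, -⟩
    exact absurd he.symm (semiAut_ne_semiAut_mul_invTr h3 g' g σ' σ)

end CfsgLib.LocalBalance
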