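import Mathlib.LinearAlgebra.Matrix.GeneralLinearGroup.Defs
import Mathlib.LinearAlgebra.Matrix.NonsingularInverse
import Mathlib.LinearAlgebra.Matrix.SchurComplement
import Mathlib.LinearAlgebra.SymplecticGroup
import Mathlib.Tactic

/-!
# Rigidity of classical matrix groups

If a matrix `h` over `F` satisfies `h X^j ∈ F (X^i h)` for all `X` in a classical group `S` over `F₀`
(`i, j : F₀ → F`), then `h` is scalar and `j = i`.
-/

set_option autoImplicit false
set_option linter.unusedSectionVars false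
set_option linter.unusedSimpArgs false
set_option linter.style.haveILetI false

open Matrix

universe u v

namespace CfsgLib.LocalBalance

variable {F₀ : Type v} [Field F₀] {F : Type u} [Field F] {ι : Type} [Fintype ι] [DecidableEq ι]

/-- `h` intertwines `X^j` and `X^i` up to the scalar `c`. -/
def Inter (i j : F₀ →+* F) (h : Matrix ι ι F) (X : Matrix ι ι F₀) (c : F) : Prop :=
  h * X.map j = c • (X.map i * h)

/-- Only scalars intertwine all of `S`. -/
def Rigid (i : F₀ →+* F) (S : Set (Matrix ι ι F₀)) : Prop :=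
  ∀ (h : Matrix ι ι F) (j : F₀ →+* F), IsUnit h → (∀ X ∈ S, ∃ c : F, Inter i j h X c) →
    (∃ a : F, h = a • (1 : Matrix ι ι F)) ∧ j = i

variable {i j : F₀ →+* F} {h : Matrix ι ι F}

theorem Inter.mul {X Y : Matrix ι ι F₀} {c d : F} (hX : Inter i j h X c) (hY : Inter i j h Y d) :
    Inter i j h (X * Y) (c * d) := by
  unfold Inter at *
  rw [Matrix.map_mul, Matrix.map_mul, ← Matrix.mul_assoc, hX, Matrix.smul_mul, Matrix.mul_assoc, hY,
    Matrix.mul_smul, smul_smul, Matrix.mul_assoc]

theorem Inter.unique [Nonempty ι] (hh : IsUnit h) {X : Matrix ι ι F₀} (hX : IsUnit X) {c d : F}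
    (hc : Inter i j h X c) (hd : Inter i j h X d) : c = d := by
  have h1 : IsUnit (X.map i * h) := (hX.map i.mapMatrix).mul hh
  by_contra hne
  have h2 : (c - d) • (X.map i * h) = 0 := by rw [sub_smul, ← hc, ← hd, sub_self]
  rcases smul_eq_zero.1 h2 with h3 | h3
  · exact hne (sub_eq_zero.1 h3)
  · exact h1.ne_zero h3

theorem Inter.conj {W W' X : Matrix ι ι F₀} {c d d' : F} (hWW : W * W' = 1) [Nonempty ι] (hh : IsUnit h)
    (hW : Inter i j h W d) (hW' : Inter i j h W' d') (hX : Inter i j h X c) :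
    Inter i j h (W * X * W') c := by
  have h1 := hW.mul hW'
  rw [hWW] at h1
  have hd : d * d' = 1 := h1.unique hh isUnit_one (by simp [Inter, Matrix.map_one])
  have h2 := (hW.mul hX).mul hW'
  rwa [mul_right_comm, hd, one_mul] at h2

/-- A scalar intertwining a unipotent element with square zero is `1`. -/
theorem Inter.eq_one_of_sq_zero [Nonempty ι] (hh : IsUnit h) {N : Matrix ι ι F₀} (hN : N * N = 0)
    {c : F} (hc : Inter i j h (1 + N) c) : c = 1 := by
  unfold Inter at hc
  rw [Matrix.map_add _ (map_add j), Matrix.map_add _ (map_add i), Matrix.map_one _ (map_zero j) (map_one j),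
    Matrix.map_one _ (map_zero i) (map_one i), Matrix.mul_add, Matrix.mul_one, Matrix.add_mul, Matrix.one_mul,
    smul_add] at hc
  have hNi : N.map i * N.map i = 0 := by rw [← Matrix.map_mul, hN, Matrix.map_zero _ (map_zero i)]
  have hNj : N.map j * N.map j = 0 := by rw [← Matrix.map_mul, hN, Matrix.map_zero _ (map_zero j)]
  have e : h * N.map j = (c - 1) • h + c • (N.map i * h) := by
    rw [sub_smul, one_smul]; rw [← sub_eq_iff_eq_add'] at hc; rw [← hc]; abel
  have e2 : ((c - 1) * (c - 1)) • h + (2 * ((c - 1) * c)) • (N.map i * h) = 0 := by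
    have h0 : h * N.map j * N.map j = 0 := by rw [Matrix.mul_assoc, hNj, Matrix.mul_zero]
    rw [e, Matrix.add_mul, Matrix.smul_mul, Matrix.smul_mul, Matrix.mul_assoc, e, Matrix.mul_add,
      Matrix.mul_smul, Matrix.mul_smul, ← Matrix.mul_assoc, hNi, Matrix.zero_mul, smul_zero, add_zero,
      smul_add, smul_smul, smul_smul, smul_smul, mul_comm c (c - 1), add_assoc, ← add_smul, ← two_mul] at h0
    exact h0
  by_contra hne
  have h3 : N.map i * (((c - 1) * (c - 1)) • h + (2 * ((c - 1) * c)) • (N.map i * h)) = 0 := by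
    rw [e2, Matrix.mul_zero]
  rw [Matrix.mul_add, Matrix.mul_smul, Matrix.mul_smul, ← Matrix.mul_assoc, hNi, Matrix.zero_mul,
    smul_zero, add_zero] at h3
  have hc1 : (c - 1) * (c - 1) ≠ 0 := mul_ne_zero (sub_ne_zero.2 hne) (sub_ne_zero.2 hne)
  rw [smul_eq_zero, or_iff_right hc1] at h3
  rw [h3, smul_zero, add_zero, smul_eq_zero, or_iff_right hc1] at e2
  exact hh.ne_zero e2

/-- Transvections `1 + a E_kl`. -/
theorem Inter.single_eq [Nonempty ι] (hh : IsUnit h) {k l : ι} (hkl : k ≠ l) {a : F₀} {c : F}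
    (hc : Inter i j h (1 + Matrix.single k l a) c) :
    h * Matrix.single k l (j a) = Matrix.single k l (i a) * h := by
  obtain rfl := hc.eq_one_of_sq_zero hh (Matrix.single_mul_single_of_ne (c := a) k l k hkl.symm a)
  unfold Inter at hc
  rw [one_smul, Matrix.map_add _ (map_add j), Matrix.map_add _ (map_add i), Matrix.map_one _ (map_zero j) (map_one j),
    Matrix.map_one _ (map_zero i) (map_one i), Matrix.mul_add, Matrix.mul_one, Matrix.add_mul, Matrix.one_mul,
    add_right_inj, Matrix.map_single, Matrix.map_single] at hc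
  exact hc

theorem entries_of_single {k l : ι} {a : F₀}
    (hc : h * Matrix.single k l (j a) = Matrix.single k l (i a) * h) :
    h k k * j a = i a * h l l ∧ (∀ b, b ≠ k → h b k * j a = 0) := by
  refine ⟨?_, fun b hb => ?_⟩
  · have := congrFun (congrFun hc k) l
    simpa [Matrix.mul_apply, Matrix.single_apply] using this
  · have := congrFun (congrFun hc b) l
    simpa [Matrix.mul_apply, Matrix.single_apply, hb.symm, hb] using this

theorem eq_smul_one_of_diag {a : F} (h1 : ∀ b k, b ≠ k → h b k = 0) (h2 : ∀ k, h k k = a) :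
    h = a • (1 : Matrix ι ι F) := by
  ext b k
  rcases eq_or_ne b k with rfl | hne
  · simp [h2 b]
  · simp [h1 b k hne, Matrix.one_apply_ne hne]

theorem diag_ne_zero (hh : IsUnit h) (h1 : ∀ b k, b ≠ k → h b k = 0) (k : ι) : h k k ≠ 0 := by
  intro h0
  have hd : h.det = 0 := Matrix.det_eq_zero_of_column_eq_zero k fun b => by
    rcases eq_or_ne b k with rfl | hne
    · exact h0
    · exact h1 b k hne
  exact ((Matrix.isUnit_iff_isUnit_det _).1 hh).ne_zero hd

/-- `SL` is rigid; it is enough to have the transvections. -/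
theorem rigid_of_transvections [Nontrivial ι] (i : F₀ →+* F) (S : Set (Matrix ι ι F₀))
    (hS : ∀ (k l : ι), k ≠ l → ∀ a : F₀, 1 + Matrix.single k l a ∈ S) : Rigid i S := by
  intro h j hh hX
  haveI : Nonempty ι := inferInstance
  have key : ∀ (k l : ι), k ≠ l → ∀ a : F₀, h k k * j a = i a * h l l ∧ ∀ b, b ≠ k → h b k * j a = 0 :=
    fun k l hkl a => by
      obtain ⟨c, hc⟩ := hX _ (hS k l hkl a)
      exact entries_of_single (hc.single_eq hh hkl)
  have h1 : ∀ b k, b ≠ k → h b k = 0 := fun b k hbk => by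
    have := (key k b hbk.symm 1).2 b hbk
    rwa [map_one, mul_one] at this
  have h2 : ∀ k l, h k k = h l l := fun k l => by
    rcases eq_or_ne k l with rfl | hne
    · rfl
    · simpa using (key k l hne 1).1
  obtain ⟨k, l, hkl⟩ := exists_pair_ne ι
  refine ⟨⟨h k k, eq_smul_one_of_diag h1 fun m => h2 m k⟩, RingHom.ext fun a => ?_⟩
  have := (key k l hkl a).1
  rw [h2 l k, mul_comm (i a)] at this
  exact mul_left_cancel₀ (diag_ne_zero hh h1 k) this

/-- `diag (.., u at k, .., u⁻¹ at l, ..)`. -/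
def torus (u : F₀) (k l : ι) : Matrix ι ι F₀ :=
  Matrix.diagonal fun m => if m = k then u else if m = l then u⁻¹ else 1

/-- `e_k ↦ -e_l`, `e_l ↦ e_k`. -/
def swap (k l : ι) : Matrix ι ι F₀ := fun a b =>
  if a = k ∧ b = l then 1 else if a = l ∧ b = k then -1 else if a = b ∧ a ≠ k ∧ a ≠ l then 1 else 0

theorem torus_mul (u : F₀) (hu : u ≠ 0) {k l m : ι} (hkl : k ≠ l) (hlm : l ≠ m) (hkm : k ≠ m) :
    torus u k l * torus u l m = torus u k m := by
  rw [torus, torus, torus, Matrix.diagonal_mul_diagonal]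
  congr 1
  funext x
  by_cases hx : x = k
  · simp [hx, hkl, hkm]
  by_cases hx' : x = l
  · simp [hx', hkl.symm, hlm, inv_mul_cancel₀ hu]
  by_cases hx'' : x = m
  · simp [hx'', hkm.symm, hlm.symm]
  simp [hx, hx', hx'']

theorem swap_mul_swap {k l : ι} (hkl : k ≠ l) : swap k l * swap l k = (1 : Matrix ι ι F₀) := by
  ext a b
  rw [Matrix.mul_apply]
  by_cases ha : a = k
  · rw [Finset.sum_eq_single l]
    · subst ha
      by_cases hb : b = a
      · subst hb; simp [swap, hkl, hkl.symm]
      · simp [swap, hkl, hkl.symm, hb, Ne.symm hb, Matrix.one_apply_ne (Ne.symm hb)]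
    · intro x _ hx
      simp [swap, ha, hkl, hx]
    · simp
  by_cases ha' : a = l
  · rw [Finset.sum_eq_single k]
    · subst ha'
      by_cases hb : b = a
      · subst hb; simp [swap, hkl, hkl.symm]
      · simp [swap, hkl, hkl.symm, hb, Ne.symm hb, Matrix.one_apply_ne (Ne.symm hb)]
    · intro x _ hx
      simp [swap, ha', hkl.symm, hx]
    · simp
  · rw [Finset.sum_eq_single a]
    · by_cases hb : b = a
      · subst hb; simp [swap, ha, ha']
      · simp [swap, ha, ha', Matrix.one_apply_ne (Ne.symm hb), Ne.symm hb]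
    · intro x _ hx
      simp [swap, ha, ha', Ne.symm hx]
    · simp

theorem swap_conj_diagonal (d : ι → F₀) {k l : ι} (hkl : k ≠ l) :
    swap k l * Matrix.diagonal d * swap l k = Matrix.diagonal (d ∘ Equiv.swap k l) := by
  ext a b
  rw [Matrix.mul_apply]
  by_cases ha : a = k
  · rw [Finset.sum_eq_single l]
    · subst ha
      by_cases hb : b = a
      · subst hb; simp [swap, hkl, hkl.symm]
      · simp [swap, hkl, hkl.symm, hb, Ne.symm hb]
    · intro x _ hx
      simp [swap, Matrix.mul_diagonal, ha, hkl, hx]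
    · simp
  by_cases ha' : a = l
  · rw [Finset.sum_eq_single k]
    · subst ha'
      by_cases hb : b = a
      · subst hb; simp [swap, hkl, hkl.symm]
      · simp [swap, hkl, hkl.symm, hb, Ne.symm hb]
    · intro x _ hx
      simp [swap, Matrix.mul_diagonal, ha', hkl.symm, hx]
    · simp
  · rw [Finset.sum_eq_single a]
    · by_cases hb : b = a
      · subst hb; simp [swap, ha, ha', Equiv.swap_apply_of_ne_of_ne ha ha']
      · simp [swap, ha, ha', Ne.symm hb]
    · intro x _ hx
      simp [swap, Matrix.mul_diagonal, ha, ha', Ne.symm hx]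
    · simp

theorem swap_conj_torus (u : F₀) {k l m : ι} (hkl : k ≠ l) (hlm : l ≠ m) (hkm : k ≠ m) :
    swap l m * torus u k l * swap m l = torus u k m := by
  rw [torus, swap_conj_diagonal _ hlm, torus]
  congr 1
  funext x
  simp only [Function.comp_apply, Equiv.swap_apply_def]
  grind

theorem swap_conj_torus' (u : F₀) {k l m : ι} (hkl : k ≠ l) (hlm : l ≠ m) (hkm : k ≠ m) :
    swap k l * torus u l m * swap l k = torus u k m := by
  rw [torus, swap_conj_diagonal _ hkl, torus]
  congr 1
  funext x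
  simp only [Function.comp_apply, Equiv.swap_apply_def]
  grind

theorem isUnit_torus {u : F₀} (hu : u ≠ 0) (k l : ι) : IsUnit (torus u k l) := by
  rw [Matrix.isUnit_iff_isUnit_det, torus, Matrix.det_diagonal, isUnit_iff_ne_zero, Finset.prod_ne_zero_iff]
  intro x _
  split_ifs <;> simp [hu]

/-- The scalar of a torus element among three coordinates is `1`. -/
theorem Inter.torus_eq_one (hh : IsUnit h) {u : F₀} (hu : u ≠ 0) {k l m : ι} (hkl : k ≠ l) (hlm : l ≠ m)
    (hkm : k ≠ m) {c c' e e' f f' : F} (h1 : Inter i j h (torus u k l) c)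
    (h2 : Inter i j h (torus u l m) c') (hw : Inter i j h (swap l m) e) (hw' : Inter i j h (swap m l) e')
    (hv : Inter i j h (swap k l) f) (hv' : Inter i j h (swap l k) f') : c = 1 := by
  haveI : Nonempty ι := ⟨k⟩
  have hkm' : Inter i j h (torus u k m) c := swap_conj_torus u hkl hlm hkm ▸
    Inter.conj (swap_mul_swap hlm) hh hw hw' h1
  have hkm2 : Inter i j h (torus u k m) c' := swap_conj_torus' u hkl hlm hkm ▸
    Inter.conj (swap_mul_swap hkl) hh hv hv' h2
  have hprod := torus_mul u hu hkl hlm hkm ▸ h1.mul h2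
  have hU : IsUnit (torus u k m) := isUnit_torus hu k m
  have e1 := hkm'.unique hh hU hkm2
  have e2 := hprod.unique hh hU hkm'
  rw [← e1] at e2
  have hc0 : c ≠ 0 := by
    rintro rfl
    rw [zero_mul] at e2
    unfold Inter at h1
    rw [zero_smul] at h1
    exact (hh.mul ((isUnit_torus hu k l).map j.mapMatrix)).ne_zero h1
  exact (mul_eq_left₀ hc0).1 e2

/-- An element whose scalar is `1` forces an entry to vanish. -/
theorem Inter.entry_zero {d : ι → F₀} (hc : Inter i j h (Matrix.diagonal d) 1) {a b : ι}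
    (hne : j (d b) ≠ i (d a)) : h a b = 0 := by
  unfold Inter at hc
  rw [one_smul, Matrix.diagonal_map (map_zero j), Matrix.diagonal_map (map_zero i)] at hc
  have := congrFun (congrFun hc a) b
  rw [Matrix.mul_diagonal, Matrix.diagonal_mul] at this
  have h2 : h a b * (j (d b) - i (d a)) = 0 := by rw [mul_sub, this]; ring
  exact (mul_eq_zero.1 h2).resolve_right (sub_ne_zero.2 hne)

/-- Comparison of entries when `h` is diagonal. -/
theorem Inter.entry_diag (hd : ∀ b k, b ≠ k → h b k = 0) {X : Matrix ι ι F₀} {c : F}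
    (hc : Inter i j h X c) (a b : ι) : h a a * j (X a b) = c * (i (X a b) * h b b) := by
  have := congrFun (congrFun (show h * X.map j = c • (X.map i * h) from hc) a) b
  rw [Matrix.smul_apply, Matrix.mul_apply, Matrix.mul_apply,
    Finset.sum_eq_single a (fun x _ hx => by rw [hd a x hx.symm, zero_mul]) (by simp),
    Finset.sum_eq_single b (fun x _ hx => by rw [hd x b hx, mul_zero]) (by simp)] at this
  simpa [smul_eq_mul] using this

theorem det_torus {u : F₀} (hu : u ≠ 0) {k l : ι} (hkl : k ≠ l) : (torus u k l).det = 1 := by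
  rw [torus, Matrix.det_diagonal, ← Finset.prod_erase_mul _ _ (Finset.mem_univ k),
    ← Finset.prod_erase_mul _ _ (Finset.mem_erase.2 ⟨hkl.symm, Finset.mem_univ l⟩)]
  rw [Finset.prod_eq_one (fun x hx => by
    simp only [Finset.mem_erase] at hx
    simp [hx.1, hx.2.1])]
  simp [hkl.symm, inv_mul_cancel₀ hu]

theorem torus_symm (u : F₀) {k l : ι} (hkl : k ≠ l) : torus u⁻¹ k l = torus u l k := by
  rw [torus, torus]
  congr 1
  funext x
  by_cases hx : x = k
  · simp [hx, hkl]
  · simp [hx]

/-- The coordinates in `T` are separated by torus elements and joined by swaps. -/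
theorem diag_of_torus (hh : IsUnit h) {S : Set (Matrix ι ι F₀)} (hX : ∀ X ∈ S, ∃ c : F, Inter i j h X c)
    (T : Set ι) (hT : ∀ k l : ι, ∃ m ∈ T, m ≠ k ∧ m ≠ l) {u : F₀} (hu : u ≠ 0) (hu1 : u ≠ 1)
    (htor : ∀ k ∈ T, ∀ l ∈ T, k ≠ l → torus u k l ∈ S)
    (hswap : ∀ k ∈ T, ∀ l ∈ T, k ≠ l → swap k l ∈ S) :
    (∀ a b, a ≠ b → a ∈ T ∨ b ∈ T → h a b = 0) ∧
      ∀ k ∈ T, ∀ l ∈ T, k ≠ l → (∀ b c, b ≠ c → h b c = 0) → h k k = h l l := by
  have hc : ∀ k ∈ T, ∀ l ∈ T, k ≠ l → Inter i j h (torus u k l) 1 := by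
    intro k hk l hl hkl
    obtain ⟨m, hm, hmk, hml⟩ := hT k l
    obtain ⟨c, h1⟩ := hX _ (htor k hk l hl hkl)
    obtain ⟨c', h2⟩ := hX _ (htor l hl m hm hml.symm)
    obtain ⟨e, he⟩ := hX _ (hswap l hl m hm hml.symm)
    obtain ⟨e', he'⟩ := hX _ (hswap m hm l hl hml)
    obtain ⟨f, hf⟩ := hX _ (hswap k hk l hl hkl)
    obtain ⟨f', hf'⟩ := hX _ (hswap l hl k hk hkl.symm)
    exact Inter.torus_eq_one hh hu hkl hml.symm hmk.symm h1 h2 he he' hf hf' ▸ h1
  refine ⟨fun a b hab hmem => ?_, fun k hk l hl hkl hd => ?_⟩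
  · obtain ⟨m, hm, hma, hmb⟩ := hT a b
    rcases hmem with ha | hb
    · refine (hc a ha m hm hma.symm).entry_zero ?_
      simp [hab.symm, hmb.symm, (map_ne_one_iff i i.injective).2 hu1, Ne.symm]
    · refine (hc b hb m hm hmb.symm).entry_zero ?_
      simp [hab, hma.symm, (map_ne_one_iff j j.injective).2 hu1]
  · obtain ⟨m, hm, hmk, hml⟩ := hT k l
    obtain ⟨c, hs⟩ := hX _ (hswap k hk l hl hkl)
    have hm1 := hs.entry_diag hd m m
    have hk1 := hs.entry_diag hd k l
    simp [swap, hmk, hml] at hm1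
    simp [swap] at hk1
    have hc1 : c = 1 := by
      have h0 : (c - 1) * h m m = 0 := by rw [sub_mul, one_mul, ← hm1, sub_self]
      exact sub_eq_zero.1 ((mul_eq_zero.1 h0).resolve_right (diag_ne_zero hh hd m))
    rw [hk1, hc1, one_mul]

theorem torus_unitary {σ : F₀ →+* F₀} {u : F₀} (hu : u * σ u = 1) (k l : ι) :
    (torus u k l)ᵀ * (torus u k l).map σ = 1 := by
  rw [torus, Matrix.diagonal_transpose, Matrix.diagonal_map (map_zero σ), Matrix.diagonal_mul_diagonal,
    ← Matrix.diagonal_one]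
  congr 1
  funext x
  split_ifs <;> simp [hu, map_inv₀, ← mul_inv]

theorem transpose_swap {k l : ι} (hkl : k ≠ l) : (swap k l : Matrix ι ι F₀)ᵀ = swap l k := by
  ext a b
  simp only [Matrix.transpose_apply, swap]
  grind

theorem map_swap (σ : F₀ →+* F₀) (k l : ι) : (swap k l : Matrix ι ι F₀).map σ = swap k l := by
  ext a b
  simp only [Matrix.map_apply, swap]
  split_ifs <;> simp

theorem swap_unitary (σ : F₀ →+* F₀) {k l : ι} (hkl : k ≠ l) :
    (swap k l : Matrix ι ι F₀)ᵀ * (swap k l).map σ = 1 := by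
  rw [transpose_swap hkl, map_swap, swap_mul_swap hkl.symm]

/-- `1` outside `k, l`, with block `!![p, q; r, s]` on them. -/
def blockTwo (k l : ι) (p q r s : F₀) : Matrix ι ι F₀ := fun a b =>
  if a = k ∧ b = k then p else if a = k ∧ b = l then q else if a = l ∧ b = k then r
  else if a = l ∧ b = l then s else if a = b ∧ a ≠ k ∧ a ≠ l then 1 else 0

theorem blockTwo_mul {k l : ι} (hkl : k ≠ l) (p q r s p' q' r' s' : F₀) :
    blockTwo k l p q r s * blockTwo k l p' q' r' s' =
      blockTwo k l (p * p' + q * r') (p * q' + q * s') (r * p' + s * r') (r * q' + s * s') := by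
  ext a b
  rw [Matrix.mul_apply]
  by_cases ha : a = k
  · rw [← Finset.sum_subset (Finset.subset_univ {k, l}) fun x _ hx => by
      simp only [Finset.mem_insert, Finset.mem_singleton, not_or] at hx
      simp [blockTwo, ha, hx.1, hx.2, hkl, Ne.symm hx.1], Finset.sum_pair hkl]
    subst ha
    simp only [blockTwo]
    grind
  by_cases ha' : a = l
  · rw [← Finset.sum_subset (Finset.subset_univ {k, l}) fun x _ hx => by
      simp only [Finset.mem_insert, Finset.mem_singleton, not_or] at hx
      simp [blockTwo, ha', hx.1, hx.2, hkl, hkl.symm, Ne.symm hx.2], Finset.sum_pair hkl]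
    subst ha'
    simp only [blockTwo]
    grind
  · rw [Finset.sum_eq_single a]
    · simp only [blockTwo]
      grind
    · intro x _ hx
      simp [blockTwo, ha, ha', Ne.symm hx]
    · simp

theorem blockTwo_one {k l : ι} (hkl : k ≠ l) : blockTwo k l (1 : F₀) 0 0 1 = 1 := by
  ext a b
  simp only [blockTwo, Matrix.one_apply]
  grind

theorem transpose_blockTwo {k l : ι} (hkl : k ≠ l) (p q r s : F₀) :
    (blockTwo k l p q r s)ᵀ = blockTwo k l p r q s := by
  ext a b
  simp only [Matrix.transpose_apply, blockTwo]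
  grind

theorem map_blockTwo (σ : F₀ →+* F₀) (k l : ι) (p q r s : F₀) :
    (blockTwo k l p q r s).map σ = blockTwo k l (σ p) (σ q) (σ r) (σ s) := by
  ext a b
  simp only [Matrix.map_apply, blockTwo]
  split_ifs <;> simp

theorem det_blockTwo {k l : ι} (hkl : k ≠ l) (p q r s : F₀) :
    (blockTwo k l p q r s).det = p * s - q * r := by
  let U : Matrix ι (Fin 2) F₀ := Matrix.of fun a c => if a = ![k, l] c then 1 else 0
  let V : Matrix (Fin 2) ι F₀ := Matrix.of fun c b =>
    if b = k then ![p - 1, r] c else if b = l then ![q, s - 1] c else 0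
  have e : blockTwo k l p q r s = 1 + U * V := by
    ext a b
    simp only [Matrix.add_apply, Matrix.one_apply, Matrix.mul_apply, Fin.sum_univ_two, U, V, blockTwo,
      Matrix.of_apply, Matrix.cons_val_zero, Matrix.cons_val_one]
    grind
  rw [e, Matrix.det_one_add_mul_comm, Matrix.det_fin_two]
  have eV : ∀ c c' : Fin 2, (V * U) c c' = V c (![k, l] c') := fun c c' => by
    simp only [Matrix.mul_apply, U, Matrix.of_apply, mul_ite, mul_one, mul_zero]
    simp
  rw [Matrix.add_apply, Matrix.add_apply, Matrix.add_apply, Matrix.add_apply, eV, eV, eV, eV]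
  simp [V, hkl.symm]

theorem swap_eq_blockTwo {k l : ι} (hkl : k ≠ l) : (swap k l : Matrix ι ι F₀) = blockTwo k l 0 1 (-1) 0 := by
  ext a b
  simp only [swap, blockTwo]
  grind

theorem det_swap {k l : ι} (hkl : k ≠ l) : (swap k l : Matrix ι ι F₀).det = 1 := by
  rw [swap_eq_blockTwo hkl, det_blockTwo hkl]; ring

end CfsgLib.LocalBalance
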