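import Cfsg.Agent.Lib.LocalBalance.NoCore
import Cfsg.Agent.Lib.LocalBalance.Rigid
import Cfsg.Agent.Lib.ClassicalLinear.Simple
import Cfsg.Agent.Lib.ClassicalLinear.Card
import Cfsg.Agent.Lib.ClassicalLinear.SympSimple
import Cfsg.Agent.Lib.ReflectionsSpinor.PSUFieldAut
import Cfsg.Agent.S0282

/-!
# `SL`, `SU` and `Sp` have no normal `p'`-subgroups modulo the centre
-/

set_option autoImplicit false
set_option linter.unusedSectionVars false
set_option linter.style.haveILetI false

open Matrix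
open CfsgLib.ClassicalForms

universe u

namespace CfsgLib.LocalBalance

variable {F : Type u} [Field F] [Finite F]

theorem not_dvd_card_of_scalar {n r : ℕ} [Fact r.Prime] [CharP F r] [NeZero n] {H : Type*} [Group H]
    [Finite H] (ρ : H →* Matrix (Fin n) (Fin n) F) (hinj : Function.Injective ρ) (Z : Subgroup H)
    (hZ : ∀ z ∈ Z, ∃ a : F, ρ z = a • 1) : ¬ r ∣ Nat.card Z := by
  intro hd
  obtain ⟨z, hz⟩ := exists_prime_orderOf_dvd_card' r hd
  obtain ⟨a, ha⟩ := hZ z z.2
  have hzr : (z : H) ^ r = 1 := by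
    rw [← SubgroupClass.coe_pow, ← hz, pow_orderOf_eq_one, OneMemClass.coe_one]
  have har : a ^ r = 1 := by
    have h1 := congrArg ρ hzr
    rw [map_pow, ha, map_one, smul_pow, one_pow] at h1
    simpa using congrFun (congrFun h1 0) 0
  have ha1 : a = 1 := by
    have : (a - 1) ^ r = 0 := by rw [sub_pow_char, one_pow, har, sub_self]
    exact sub_eq_zero.1 (eq_zero_of_pow_eq_zero this)
  have hz1 : z = 1 := Subtype.ext (hinj (by rw [ha, ha1, one_smul, OneMemClass.coe_one, map_one]))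
  rw [hz1, orderOf_one] at hz
  exact (Fact.out : r.Prime).ne_one hz.symm

theorem two_three_primes {m p r : ℕ} (hdvd : p ∣ m) (hp : p.Prime) (hr : r = 2 ∨ r = 3) (hpr : p ≠ r)
    (hm : ∀ ℓ : ℕ, ℓ.Prime → ℓ ∣ m → ℓ = 2 ∨ ℓ = 3) :
    ∀ ℓ : ℕ, ℓ.Prime → ℓ ∣ m → ℓ = p ∨ ℓ = r := fun ℓ hℓ hd => by
  rcases hm ℓ hℓ hd with h | h <;> rcases hm p hp hdvd with h' | h' <;> omega

/-- `SL_n` has no normal `p'`-subgroup modulo the centre if `p` divides the order of `PSL_n`. -/
theorem coreless_sl {n r : ℕ} [Fact r.Prime] [CharP F r] (hn : 2 ≤ n) {p : ℕ} (hp : p.Prime) (hpr : p ≠ r)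
    (hdvd : p ∣ (Subgroup.center (Matrix.SpecialLinearGroup (Fin n) F)).index) :
    Coreless p (Subgroup.center (Matrix.SpecialLinearGroup (Fin n) F)) := by
  haveI : NeZero n := ⟨by omega⟩
  by_cases hbig : n = 2 → 4 ≤ Nat.card F
  · haveI := CfsgLib.ClassicalLinear.isSimpleGroup_psl_fin (F := F) hn hbig
    exact coreless_of_simple _ hp hdvd
  push Not at hbig
  obtain ⟨rfl, hlt⟩ := hbig
  haveI : Fintype F := Fintype.ofFinite F
  have hq : Nat.card F = 2 ∨ Nat.card F = 3 := by
    have := Finite.one_lt_card (α := F)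
    omega
  have hr : r = 2 ∨ r = 3 := by
    obtain ⟨k, hrp, hk⟩ := FiniteField.card F r
    rw [← Nat.card_eq_fintype_card] at hk
    have hd : r ∣ Nat.card F := hk ▸ dvd_pow_self r k.pos.ne'
    rcases hq with h | h <;> rw [h] at hd
    · exact Or.inl ((Nat.prime_dvd_prime_iff_eq hrp Nat.prime_two).1 hd)
    · exact Or.inr ((Nat.prime_dvd_prime_iff_eq hrp Nat.prime_three).1 hd)
  let ρ : Matrix.SpecialLinearGroup (Fin 2) F →* Matrix (Fin 2) (Fin 2) F :=
    { toFun := fun s => (s : Matrix (Fin 2) (Fin 2) F)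
      map_one' := rfl
      map_mul' := fun _ _ => rfl }
  refine coreless_of_irreducible (r := r) hp ρ Subtype.val_injective ?_ _ le_rfl
    (not_dvd_card_of_scalar (r := r) ρ Subtype.val_injective _ fun z hz => ?_) ?_
  · intro W hW hW0
    obtain ⟨v, hv, hv0⟩ := (Submodule.ne_bot_iff _).1 hW0
    obtain ⟨j, hj⟩ : ∃ j, v j ≠ 0 := Function.ne_iff.1 hv0
    have hoff : ∀ k, k ≠ j → (Pi.single k 1 : Fin 2 → F) ∈ W := by
      intro k hk
      have h1 := W.sub_mem (hW (Matrix.SpecialLinearGroup.transvection hk 1) v hv) hv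
      have e : ρ (Matrix.SpecialLinearGroup.transvection hk 1) *ᵥ v - v = v j • Pi.single k 1 := by
        show Matrix.transvection k j (1 : F) *ᵥ v - v = _
        rw [Matrix.transvection, Matrix.add_mulVec, Matrix.one_mulVec, add_sub_cancel_left, Matrix.single_mulVec]
        ext a
        simp [Pi.single_apply, Function.update_apply]
      rw [e] at h1
      have := W.smul_mem (v j)⁻¹ h1
      rwa [inv_smul_smul₀ hj] at this
    have hall : ∀ k, (Pi.single k 1 : Fin 2 → F) ∈ W := by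
      intro k
      rcases eq_or_ne k j with rfl | hk
      · have hv' : v k • Pi.single k (1 : F) ∈ W := by
          have : v k • Pi.single k (1 : F) = v - ∑ a ∈ Finset.univ.erase k, v a • Pi.single a (1 : F) := by
            rw [eq_sub_iff_add_eq, Finset.add_sum_erase Finset.univ (fun a => v a • Pi.single a (1 : F))
              (Finset.mem_univ k)]
            ext a
            simp [Finset.sum_apply, Pi.single_apply]
          rw [this]
          exact W.sub_mem hv (Submodule.sum_mem _ fun a ha => W.smul_mem _ (hoff a (Finset.mem_erase.1 ha).1))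
        have := W.smul_mem (v k)⁻¹ hv'
        rwa [inv_smul_smul₀ hj] at this
      · exact hoff k hk
    rw [eq_top_iff]
    intro u _
    rw [show u = ∑ a, u a • Pi.single a (1 : F) by
      ext a; simp [Finset.sum_apply, Pi.single_apply]]
    exact Submodule.sum_mem _ fun a _ => W.smul_mem _ (hall a)
  · exact (CfsgLib.ReflectionsSpinor.PSL.mem_center_iff_smul).1 hz
  · refine two_three_primes hdvd hp hr hpr fun ℓ hℓ hd => ?_
    have hdcard := hd.trans (Subgroup.index_dvd_card _)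
    have hc := CfsgLib.ClassicalLinear.card_SL (ι := Fin 2) (F := F)
    have hd' := hdcard.trans (Dvd.intro_left _ hc)
    rw [Fintype.card_fin, Fin.prod_univ_two] at hd'
    have hle : ∀ m : ℕ, m ∣ 48 → ℓ ∣ m → ℓ = 2 ∨ ℓ = 3 := fun m hm hlm => by
      have h48 : ℓ ∣ 2 ^ 4 * 3 := hlm.trans hm
      rcases hℓ.dvd_mul.1 h48 with h | h
      · exact Or.inl ((Nat.prime_dvd_prime_iff_eq hℓ Nat.prime_two).1 (hℓ.dvd_of_dvd_pow h))
      · exact Or.inr ((Nat.prime_dvd_prime_iff_eq hℓ Nat.prime_three).1 h)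
    rw [← Nat.card_eq_fintype_card] at hd'
    rcases hq with h | h <;> rw [h] at hd' <;> exact hle _ (by norm_num) hd'

theorem mem_su_iff {n q : ℕ} (c : Conj F q) (s : Matrix.SpecialLinearGroup (Fin n) F) :
    s ∈ Cfsg.SU n F q ↔
      (s : Matrix (Fin n) (Fin n) F)ᵀ * (s : Matrix (Fin n) (Fin n) F).map c.σ = 1 :=
  CfsgLib.ReflectionsSpinor.PSUAut.mem_GU_conj_iff c s.toGL

theorem center_su {n q : ℕ} (hF : Nat.card F = q ^ 2) (hn : 2 ≤ n) :
    Subgroup.center (Cfsg.SU n F q) =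
      (Subgroup.center (Matrix.SpecialLinearGroup (Fin n) F)).subgroupOf (Cfsg.SU n F q) := by
  refine le_antisymm (fun s hs => ?_) (fun s hs => Subgroup.mem_center_iff.2 fun t =>
    Subtype.ext (Subgroup.mem_center_iff.1 (Subgroup.mem_subgroupOf.1 hs) t.1))
  obtain ⟨a, ha⟩ := exists_scalar_of_commute_su hF hn (suToGU s) fun t ht => by
    have h1 : suOfGU t ht * s = s * suOfGU t ht := Subgroup.mem_center_iff.1 hs _
    have h2 := congrArg suToGU h1
    rw [map_mul, map_mul, suToGU_suOfGU] at h2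
    exact h2.symm
  rw [Subgroup.mem_subgroupOf, CfsgLib.ReflectionsSpinor.PSL.mem_center_iff_smul]
  refine ⟨a, Matrix.ext_of_mulVec_single fun k => ?_⟩
  rw [Matrix.smul_mulVec, Matrix.one_mulVec]
  exact ha _

/-- `SU_n` has no normal `p'`-subgroup modulo the centre if `p` divides the order of `PSU_n`. -/
theorem coreless_su {n r q : ℕ} [Fact r.Prime] [CharP F r] (hF : Nat.card F = q ^ 2) (hn : 3 ≤ n) {p : ℕ}
    (hp : p.Prime) (hpr : p ≠ r) (hdvd : p ∣ (Subgroup.center (Cfsg.SU n F q)).index) :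
    Coreless p (Subgroup.center (Cfsg.SU n F q)) := by
  haveI : Fintype F := Fintype.ofFinite F
  haveI : NeZero n := ⟨by omega⟩
  by_cases hs : n = 3 ∧ q = 2
  swap
  · haveI : IsSimpleGroup (Cfsg.SU n F q ⧸ Subgroup.center (Cfsg.SU n F q)) :=
      CfsgLib.ClassicalForms.isSimpleGroup_psu (by rw [← Nat.card_eq_fintype_card, hF]) hn hs
    exact coreless_of_simple _ hp hdvd
  obtain ⟨rfl, rfl⟩ := hs
  obtain ⟨c⟩ := exists_conj hF
  have hcard : Fintype.card F = 4 := by rw [← Nat.card_eq_fintype_card, hF]; norm_num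
  have hr : r = 2 := by
    obtain ⟨k, hrp, hk⟩ := FiniteField.card F r
    have hd : r ∣ 2 ^ 2 := by rw [show (2 : ℕ) ^ 2 = Fintype.card F by rw [hcard]; norm_num, hk]; exact dvd_pow_self r k.pos.ne'
    exact (Nat.prime_dvd_prime_iff_eq hrp Nat.prime_two).1 (hrp.dvd_of_dvd_pow hd)
  let ρ : Cfsg.SU 3 F 2 →* Matrix (Fin 3) (Fin 3) F :=
    { toFun := fun s => (s.1 : Matrix (Fin 3) (Fin 3) F)
      map_one' := rfl
      map_mul' := fun _ _ => rfl }
  have hρ : Function.Injective ρ := fun s t h => Subtype.ext (Subtype.ext h)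
  refine coreless_of_irreducible (r := r) hp ρ hρ ?_ _ le_rfl
    (not_dvd_card_of_scalar (r := r) ρ hρ _ fun z hz => ?_) ?_
  · intro W hW hW0
    obtain ⟨u, hu, hu1, hu2⟩ := exists_norm_one_ne hF c
    have hu0 : u ≠ 0 := left_ne_zero_of_mul_eq_one hu
    obtain ⟨v, hv, hv0⟩ := (Submodule.ne_bot_iff _).1 hW0
    obtain ⟨j, hj⟩ : ∃ j, v j ≠ 0 := Function.ne_iff.1 hv0
    have hT : ∀ k l : Fin 3, k ≠ l → ∀ w ∈ W, torus u k l *ᵥ w ∈ W := fun k l hkl w hw =>
      hW ⟨⟨torus u k l, det_torus hu0 hkl⟩, (mem_su_iff c _).2 (torus_unitary hu k l)⟩ w hw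
    obtain ⟨l, hl⟩ := exists_ne j
    set T := torus u j l
    have h1 : T *ᵥ v - v ∈ W := W.sub_mem (hT j l hl.symm v hv) hv
    have h2 := W.sub_mem (hT j l hl.symm _ h1) (W.smul_mem u⁻¹ h1)
    have e : T *ᵥ (T *ᵥ v - v) - u⁻¹ • (T *ᵥ v - v) = ((u - 1) * (u - u⁻¹) * v j) • Pi.single j 1 := by
      ext a
      simp only [T, torus, Matrix.mulVec_diagonal, Pi.sub_apply, Pi.smul_apply, smul_eq_mul]
      rcases eq_or_ne a j with rfl | ha
      · simp; ring
      rcases eq_or_ne a l with rfl | ha'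
      · simp [ha]
      · simp [ha, ha']
    rw [e] at h2
    have hc : (u - 1) * (u - u⁻¹) * v j ≠ 0 :=
      mul_ne_zero (mul_ne_zero (sub_ne_zero.2 hu1) (sub_ne_zero.2 fun h => hu2 (by
        nth_rw 1 [h]; exact inv_mul_cancel₀ hu0))) hj
    have hjW : (Pi.single j 1 : Fin 3 → F) ∈ W := by
      have := W.smul_mem ((u - 1) * (u - u⁻¹) * v j)⁻¹ h2
      rwa [inv_smul_smul₀ hc] at this
    have hall : ∀ k, (Pi.single k 1 : Fin 3 → F) ∈ W := by
      intro k
      rcases eq_or_ne k j with rfl | hk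
      · exact hjW
      have h3 := hW ⟨⟨swap k j, det_swap hk⟩, (mem_su_iff c _).2 (swap_unitary c.σ hk)⟩ _ hjW
      have e2 : (swap k j : Matrix (Fin 3) (Fin 3) F) *ᵥ Pi.single j 1 = Pi.single k 1 := by
        rw [Matrix.mulVec_single_one]
        ext a
        rcases eq_or_ne a k with rfl | ha
        · simp [swap]
        · rcases eq_or_ne a j with rfl | haj <;> simp [swap, ha, hk.symm, *]
      rw [← e2]; exact h3
    rw [eq_top_iff]
    intro w _
    rw [show w = ∑ a, w a • Pi.single a (1 : F) by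
      ext a; simp [Finset.sum_apply, Pi.single_apply]]
    exact Submodule.sum_mem _ fun a _ => W.smul_mem _ (hall a)
  · rw [center_su hF (by omega), Subgroup.mem_subgroupOf] at hz
    exact (CfsgLib.ReflectionsSpinor.PSL.mem_center_iff_smul).1 hz
  · refine two_three_primes hdvd hp (Or.inl hr) hpr fun ℓ hℓ hd => ?_
    have h72 : (Subgroup.center (Cfsg.SU 3 F 2)).index = 72 := (Cfsg.Agent.S0282.result hcard).1
    rw [h72] at hd
    have h' : ℓ ∣ 2 ^ 3 * 3 ^ 2 := hd
    rcases hℓ.dvd_mul.1 h' with h | h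
    · exact Or.inl ((Nat.prime_dvd_prime_iff_eq hℓ Nat.prime_two).1 (hℓ.dvd_of_dvd_pow h))
    · exact Or.inr ((Nat.prime_dvd_prime_iff_eq hℓ Nat.prime_three).1 (hℓ.dvd_of_dvd_pow h))

/-- In odd characteristic `Sp_2m` has no odd normal subgroup modulo the centre. -/
theorem coreless_sp {m : ℕ} (hm : 2 ≤ m) (h2 : (2 : F) ≠ 0) :
    Coreless 2 (Subgroup.center (Matrix.symplecticGroup (Fin m) F)) := by
  haveI : IsSimpleGroup (Matrix.symplecticGroup (Fin m) F ⧸ Subgroup.center (Matrix.symplecticGroup (Fin m) F)) :=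
    CfsgLib.ClassicalLinear.isSimpleGroup_psp hm (Or.inr (Or.inl h2))
  refine coreless_of_simple _ Nat.prime_two ?_
  let k₀ : Fin m := ⟨0, by omega⟩
  let k₁ : Fin m := ⟨1, by omega⟩
  let D : Matrix (Fin m) (Fin m) F := Matrix.diagonal fun k => if k = k₀ then -1 else 1
  have hDD : D * D = 1 := by
    rw [Matrix.diagonal_mul_diagonal, ← Matrix.diagonal_one]
    congr 1; funext k; split_ifs <;> simp
  let t : Matrix.symplecticGroup (Fin m) F := ⟨Matrix.fromBlocks D 0 0 D, by
    rw [SymplecticGroup.mem_iff]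
    have hDt : Dᵀ = D := Matrix.diagonal_transpose _
    simp [Matrix.J, Matrix.fromBlocks_transpose, Matrix.fromBlocks_multiply, hDt, hDD]⟩
  have ht : t * t = 1 := Subtype.ext (by
    show Matrix.fromBlocks D 0 0 D * Matrix.fromBlocks D 0 0 D = 1
    simp [Matrix.fromBlocks_multiply, hDD])
  have htc : t ∉ Subgroup.center (Matrix.symplecticGroup (Fin m) F) := by
    rw [CfsgLib.ClassicalLinear.mem_center_sp_iff (by omega)]
    have hne : (-1 : F) ≠ 1 := fun h => h2 (by linear_combination -h)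
    rintro (h | h)
    · have := congrFun (congrFun h (Sum.inl k₀)) (Sum.inl k₀)
      simp [t, D] at this
      exact hne this
    · have := congrFun (congrFun h (Sum.inl k₁)) (Sum.inl k₁)
      simp [t, D, k₀, k₁, Fin.ext_iff] at this
      exact hne this.symm
  rw [Subgroup.index_eq_card]
  have ho : orderOf (QuotientGroup.mk' (Subgroup.center (Matrix.symplecticGroup (Fin m) F)) t) = 2 :=
    orderOf_eq_prime (by rw [sq, ← map_mul, ht, map_one]) (fun h => htc ((QuotientGroup.eq_one_iff _).1 h))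
  exact ho ▸ orderOf_dvd_natCard _

end CfsgLib.LocalBalance
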