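import Cfsg.Agent.Lib.LocalBalance.NoCore
import Cfsg.Agent.Lib.ReflectionsSpinor.GraphBasic

/-!
# The special orthogonal group has no odd normal subgroup modulo scalars

An odd normal subgroup is invariant under the reflections. Commutators with reflections give products
of two reflections, and these give products of two commuting reflections, that is involutions.
-/

set_option autoImplicit false
set_option linter.unusedSectionVars false
set_option linter.style.haveILetI false

open Matrix

universe u

namespace CfsgLib.LocalBalance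

variable {F : Type u} [Field F] {ι : Type} [Fintype ι] [DecidableEq ι]

/-- The matrices of determinant one preserving the bilinear form `A`. -/
def isomSL (A : Matrix ι ι F) : Subgroup (Matrix.SpecialLinearGroup ι F) where
  carrier := {X | (X : Matrix ι ι F)ᵀ * A * (X : Matrix ι ι F) = A}
  one_mem' := by simp
  mul_mem' {a b} ha hb := by
    simp only [Set.mem_setOf_eq, Matrix.SpecialLinearGroup.coe_mul, Matrix.transpose_mul] at *
    calc (b : Matrix ι ι F)ᵀ * (a : Matrix ι ι F)ᵀ * A * ((a : Matrix ι ι F) * (b : Matrix ι ι F))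
        = (b : Matrix ι ι F)ᵀ * ((a : Matrix ι ι F)ᵀ * A * (a : Matrix ι ι F)) * (b : Matrix ι ι F) := by
          simp only [Matrix.mul_assoc]
      _ = A := by rw [ha, hb]
  inv_mem' {a} ha := by
    simp only [Set.mem_setOf_eq] at *
    have h1 : (a : Matrix ι ι F) * ((a⁻¹ : Matrix.SpecialLinearGroup ι F) : Matrix ι ι F) = 1 := by
      rw [← Matrix.SpecialLinearGroup.coe_mul, mul_inv_cancel, Matrix.SpecialLinearGroup.coe_one]
    conv_lhs => rw [← ha]
    simp only [← Matrix.mul_assoc, ← Matrix.transpose_mul, h1, Matrix.transpose_one, Matrix.one_mul]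
    rw [Matrix.mul_assoc, h1, Matrix.mul_one]

theorem mem_isomSL {A : Matrix ι ι F} {X : Matrix.SpecialLinearGroup ι F} :
    X ∈ isomSL A ↔ (X : Matrix ι ι F)ᵀ * A * (X : Matrix ι ι F) = A := Iff.rfl

/-- The diagonal bilinear form. -/
def dotD (d : ι → F) (u v : ι → F) : F := u ⬝ᵥ Matrix.diagonal d *ᵥ v

theorem dotD_comm (d u v : ι → F) : dotD d u v = dotD d v u := by
  simp only [dotD, dotProduct, Matrix.mulVec_diagonal]
  exact Finset.sum_congr rfl fun _ _ => by ring

theorem dotD_single (d v : ι → F) (k : ι) (a : F) : dotD d (Pi.single k a) v = a * (d k * v k) := by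
  rw [dotD, single_dotProduct, Matrix.mulVec_diagonal]

/-- The reflection in `w`. -/
noncomputable def refl (d w : ι → F) : Matrix ι ι F :=
  1 - (2 / dotD d w w) • Matrix.vecMulVec w (Matrix.diagonal d *ᵥ w)

theorem refl_mulVec (d w v : ι → F) :
    refl d w *ᵥ v = v - (2 / dotD d w w * dotD d v w) • w := by
  rw [refl, Matrix.sub_mulVec, Matrix.one_mulVec, Matrix.smul_mulVec, Matrix.vecMulVec_mulVec]
  congr 1
  ext k
  simp [dotD, dotProduct_comm (Matrix.diagonal d *ᵥ w) v]
  ring

theorem dotD_sub_left (d u u' v : ι → F) : dotD d (u - u') v = dotD d u v - dotD d u' v :=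
  sub_dotProduct _ _ _

theorem dotD_add_left (d u u' v : ι → F) : dotD d (u + u') v = dotD d u v + dotD d u' v :=
  add_dotProduct _ _ _

theorem dotD_smul_left (d : ι → F) (a : F) (u v : ι → F) : dotD d (a • u) v = a * dotD d u v := by
  rw [dotD, smul_dotProduct, smul_eq_mul]; rfl

theorem dotD_sub_right (d u u' v : ι → F) : dotD d v (u - u') = dotD d v u - dotD d v u' := by
  rw [dotD_comm, dotD_sub_left, dotD_comm d u, dotD_comm d u']

theorem dotD_add_right (d u u' v : ι → F) : dotD d v (u + u') = dotD d v u + dotD d v u' := by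
  rw [dotD_comm, dotD_add_left, dotD_comm d u, dotD_comm d u']

theorem dotD_smul_right (d : ι → F) (a : F) (u v : ι → F) : dotD d v (a • u) = a * dotD d v u := by
  rw [dotD_comm, dotD_smul_left, dotD_comm]

theorem dotD_isom {d : ι → F} {X : Matrix ι ι F} (hX : Xᵀ * Matrix.diagonal d * X = Matrix.diagonal d)
    (u v : ι → F) : dotD d (X *ᵥ u) (X *ᵥ v) = dotD d u v := by
  rw [dotD, CfsgLib.ReflectionsSpinor.dot_congr_mulVec, hX]; rfl

theorem refl_mul_self {d w : ι → F} (hw : dotD d w w ≠ 0) : refl d w * refl d w = 1 := by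
  refine Matrix.ext_of_mulVec_single fun k => ?_
  rw [← Matrix.mulVec_mulVec, refl_mulVec, refl_mulVec, Matrix.one_mulVec, dotD_sub_left, dotD_smul_left]
  set t := dotD d (Pi.single k 1) w
  rw [sub_sub, ← add_smul,
    show 2 / dotD d w w * t + 2 / dotD d w w * (t - 2 / dotD d w w * t * dotD d w w) = 0 by
      field_simp; ring, zero_smul, sub_zero]

theorem refl_isom {d w : ι → F} (hw : dotD d w w ≠ 0) :
    (refl d w)ᵀ * Matrix.diagonal d * refl d w = Matrix.diagonal d := by
  have h : (refl d w)ᵀ * Matrix.diagonal d = Matrix.diagonal d * refl d w := by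
    ext a b
    simp only [refl, Matrix.mul_diagonal, Matrix.diagonal_mul, Matrix.transpose_apply, Matrix.sub_apply,
      Matrix.smul_apply, Matrix.vecMulVec_apply, Matrix.mulVec_diagonal, smul_eq_mul, Matrix.one_apply]
    rcases eq_or_ne a b with rfl | hab
    · simp [mul_comm]
    · simp [hab, Ne.symm hab]; ring
  rw [h, Matrix.mul_assoc, refl_mul_self hw, Matrix.mul_one]

theorem refl_self {d w : ι → F} (hw : dotD d w w ≠ 0) : refl d w *ᵥ w = -w := by
  rw [refl_mulVec, div_mul_cancel₀ _ hw, two_smul]; abel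

theorem refl_fix {d w v : ι → F} (h : dotD d v w = 0) : refl d w *ᵥ v = v := by
  rw [refl_mulVec, h, mul_zero, zero_smul, sub_zero]

/-- Two linear conditions in dimension at least three. -/
theorem exists_perp (d a b : ι → F) (hι : 3 ≤ Fintype.card ι) :
    ∃ u : ι → F, u ≠ 0 ∧ dotD d u a = 0 ∧ dotD d u b = 0 := by
  let f : (ι → F) →ₗ[F] (Fin 2 → F) :=
    { toFun := fun u => ![dotD d u a, dotD d u b]
      map_add' := fun u v => by ext k; fin_cases k <;> simp [dotD_add_left]
      map_smul' := fun c u => by ext k; fin_cases k <;> simp [dotD_smul_left] }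
  have hk := LinearMap.ker_ne_bot_of_finrank_lt (f := f) (by
    rw [Module.finrank_fin_fun, Module.finrank_fintype_fun_eq_card]; omega)
  obtain ⟨u, hu, hu0⟩ := (Submodule.ne_bot_iff _).1 hk
  have h := LinearMap.mem_ker.1 hu
  exact ⟨u, hu0, congrFun h 0, congrFun h 1⟩

/-- A product of two different reflections has an anisotropic vector orthogonal to its image. -/
theorem exists_anisotropic_orth [Finite F] (h2 : (2 : F) ≠ 0) {d : ι → F} (hd : ∀ k, d k ≠ 0)
    (hι : 3 ≤ Fintype.card ι) {a b : ι → F} (ha : dotD d a a ≠ 0) (hb : dotD d b b = dotD d a a)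
    (hne : refl d a * refl d b ≠ 1) :
    ∃ W : ι → F, dotD d W W ≠ 0 ∧ dotD d W ((refl d a * refl d b) *ᵥ W) = 0 := by
  haveI : Fintype F := Fintype.ofFinite F
  set q := dotD d a a with hq
  obtain ⟨g, hg⟩ : ∃ g, dotD d a b = g * q := ⟨dotD d a b / q, (div_mul_cancel₀ _ ha).symm⟩
  have hg' : dotD d b a = g * q := by rw [dotD_comm, hg]
  -- the quadratic form `W ↦ (W, y W)`
  have form : ∀ W, dotD d W ((refl d a * refl d b) *ᵥ W) = dotD d W W -
      2 / q * (dotD d W a ^ 2 + dotD d W b ^ 2 - 2 * g * dotD d W a * dotD d W b) := by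
    intro W
    rw [← Matrix.mulVec_mulVec, refl_mulVec d b, refl_mulVec d a, hb, ← hq]
    simp only [dotD_sub_right, dotD_smul_right, dotD_sub_left, dotD_smul_left, hg']
    field_simp
    ring
  by_cases hgg : g * g = 1
  · set i := a - g • b with hi
    have hii : dotD d i i = 0 := by
      simp only [hi, dotD_sub_left, dotD_sub_right, dotD_smul_left, dotD_smul_right, hg, hg', hb, ← hq]
      linear_combination (-q) * hgg
    have hi0 : i ≠ 0 := by
      intro h
      refine hne ?_
      have hab : a = g • b := sub_eq_zero.1 h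
      have : refl d a = refl d b := by
        refine Matrix.ext_of_mulVec_single fun k => ?_
        rw [refl_mulVec, refl_mulVec, hb, ← hq, hab, dotD_smul_right, smul_smul]
        congr 2
        linear_combination (2 / q * dotD d (Pi.single k 1) b) * hgg
      rw [this, refl_mul_self (hb.symm ▸ ha)]
    obtain ⟨k, hk⟩ : ∃ k, i k ≠ 0 := Function.ne_iff.1 hi0
    set W0 : ι → F := Pi.single k (d k * i k)⁻¹
    have hW0 : dotD d W0 i = 1 := by
      rw [dotD_single, inv_mul_cancel₀ (mul_ne_zero (hd k) hk)]
    set l : F := (2 / q - dotD d W0 W0) / 2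
    have hQ : dotD d (W0 + l • i) (W0 + l • i) = 2 / q := by
      simp only [dotD_add_left, dotD_add_right, dotD_smul_left, dotD_smul_right, hW0, hii,
        dotD_comm d i W0, l]
      field_simp
      ring
    refine ⟨W0 + l • i, by rw [hQ]; exact div_ne_zero h2 ha, ?_⟩
    have hWi : dotD d (W0 + l • i) i = 1 := by
      rw [dotD_add_left, dotD_smul_left, hW0, hii, mul_zero, add_zero]
    rw [hi, dotD_sub_right, dotD_smul_right] at hWi
    rw [form, hQ, show dotD d (W0 + l • i) a ^ 2 + dotD d (W0 + l • i) b ^ 2 -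
      2 * g * dotD d (W0 + l • i) a * dotD d (W0 + l • i) b = 1 by
        linear_combination (dotD d (W0 + l • i) a - g * dotD d (W0 + l • i) b + 1) * hWi -
          (dotD d (W0 + l • i) b) ^ 2 * hgg, mul_one, sub_self]
  · set c : F := 2 * g * g - 1 with hc
    by_cases hc0 : c = 0
    · refine ⟨a, ha, ?_⟩
      rw [form, hg, ← hq]
      field_simp
      linear_combination q * hc0
    -- an anisotropic vector orthogonal to the plane
    obtain ⟨k, hka, hkb, hk⟩ : ∃ k, dotD d k a = 0 ∧ dotD d k b = 0 ∧ dotD d k k ≠ 0 := by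
      by_contra hno
      push_neg at hno
      obtain ⟨k0, hk0, h0a, h0b⟩ := exists_perp d a b hι
      refine hk0 (funext fun m => ?_)
      have h1g : 1 - g * g ≠ 0 := sub_ne_zero.2 (Ne.symm hgg)
      have h1g' : 1 - g ^ 2 ≠ 0 := by rwa [sq]
      set v : ι → F := Pi.single m 1
      set x := (dotD d v a - g * dotD d v b) / (q * (1 - g * g))
      set z := (dotD d v b - g * dotD d v a) / (q * (1 - g * g))
      set k1 := v - x • a - z • b with hk1
      have h1a : dotD d k1 a = 0 := by
        simp only [hk1, dotD_sub_left, dotD_smul_left, hg', ← hq, x, z]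
        field_simp
        ring
      have h1b : dotD d k1 b = 0 := by
        simp only [hk1, dotD_sub_left, dotD_smul_left, hg, hb, ← hq, x, z]
        field_simp
        ring
      have hsum := hno (k0 + k1) (by rw [dotD_add_left, h0a, h1a, add_zero])
        (by rw [dotD_add_left, h0b, h1b, add_zero])
      rw [dotD_add_left, dotD_add_right, dotD_add_right, hno k0 h0a h0b, hno k1 h1a h1b,
        dotD_comm d k1 k0, zero_add, add_zero, ← two_mul, mul_eq_zero, or_iff_right h2] at hsum
      rw [hk1, dotD_sub_right, dotD_sub_right, dotD_smul_right, dotD_smul_right, h0a, h0b, mul_zero,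
        mul_zero, sub_zero, sub_zero, dotD_comm, dotD_single, one_mul] at hsum
      exact (mul_eq_zero.1 hsum).resolve_left (hd m)
    obtain ⟨s, z, hsz⟩ : ∃ s z : F, s ^ 2 + (1 - g * g) * z ^ 2 = -(dotD d k k / (c * q)) := by
      have h1g : 1 - g * g ≠ 0 := sub_ne_zero.2 (Ne.symm hgg)
      obtain ⟨s, z, h⟩ := FiniteField.exists_root_sum_quadratic
        (f := Polynomial.X ^ 2) (g := Polynomial.C (1 - g * g) * Polynomial.X ^ 2 +
          Polynomial.C (dotD d k k / (c * q))) (by simp)
        (by
          rw [Polynomial.degree_add_eq_left_of_degree_lt]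
          · rw [Polynomial.degree_C_mul_X_pow 2 h1g]; rfl
          · rw [Polynomial.degree_C_mul_X_pow 2 h1g]
            exact lt_of_le_of_lt Polynomial.degree_C_le (by norm_num))
        (FiniteField.odd_card_of_char_ne_two fun hc2 => h2 (by
          haveI : CharP F 2 := ringChar.of_eq hc2
          exact CharTwo.two_eq_zero))
      refine ⟨s, z, ?_⟩
      simp only [Polynomial.eval_pow, Polynomial.eval_X, Polynomial.eval_add, Polynomial.eval_mul,
        Polynomial.eval_C] at h
      linear_combination h
    set W := (s - g * z) • a + z • b + k with hW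
    have hQW : dotD d W W = q * (s ^ 2 + (1 - g * g) * z ^ 2) + dotD d k k := by
      simp only [hW, dotD_add_left, dotD_add_right, dotD_smul_left, dotD_smul_right, hka, hkb,
        dotD_comm d a k, dotD_comm d b k, hg, hg', hb, ← hq]
      ring
    refine ⟨W, ?_, ?_⟩
    · rw [hQW, hsz]
      have : q * -(dotD d k k / (c * q)) + dotD d k k = (c - 1) / c * dotD d k k := by
        field_simp; ring
      rw [this]
      refine mul_ne_zero (div_ne_zero ?_ hc0) hk
      intro h
      exact hgg (mul_left_cancel₀ h2 (by linear_combination h + (hc.symm.trans hc)))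
    · rw [form, hQW, hW]
      simp only [dotD_add_left, dotD_smul_left, hka, hkb, hg, hg', hb, ← hq]
      have h3 := mul_div_cancel₀ (dotD d k k) (mul_ne_zero hc0 ha)
      field_simp at hsz ⊢
      linear_combination q * hsz

/-- `SO` of a diagonal form has no odd normal subgroup modulo scalars. -/
theorem coreless_orth [Finite F] (h2 : (2 : F) ≠ 0) {d : ι → F} (hd : ∀ k, d k ≠ 0)
    (hι : 3 ≤ Fintype.card ι) :
    Coreless 2 ((Subgroup.center (Matrix.SpecialLinearGroup ι F)).subgroupOf (isomSL (Matrix.diagonal d))) := by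
  set SO := isomSL (Matrix.diagonal d) with hSO
  set Z := (Subgroup.center (Matrix.SpecialLinearGroup ι F)).subgroupOf SO with hZ
  haveI : Z.Normal := inferInstanceAs ((Subgroup.center _).subgroupOf SO).Normal
  intro M hM hcop
  set M₀ := (Cfsg.pPrimeCore 2 (↥SO ⧸ Z)).comap (QuotientGroup.mk' Z) with hM₀
  haveI := Subgroup.Normal.map hM (QuotientGroup.mk' Z) (QuotientGroup.mk'_surjective Z)
  have hMle : M ≤ M₀ := Subgroup.map_le_iff_le_comap.1 (CfsgLib.Cores.le_pPrimeCore (by
    rwa [← Subgroup.relIndex_ker, QuotientGroup.ker_mk']))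
  refine hMle.trans fun x hx => ?_
  -- the matrices of `M₀`
  let mat : SO → Matrix ι ι F := fun s => (s.1 : Matrix ι ι F)
  have hiso : ∀ s : SO, (mat s)ᵀ * Matrix.diagonal d * mat s = Matrix.diagonal d := fun s => s.2
  have hinvol : ∀ t ∈ M₀, mat t * mat t = 1 → t ∈ Z := by
    intro t ht htt
    have h1 : t * t = 1 := Subtype.ext (Subtype.ext htt)
    rw [← QuotientGroup.eq_one_iff]
    have h3 := Subgroup.orderOf_dvd_natCard (s := Cfsg.pPrimeCore 2 (↥SO ⧸ Z)) ht
    have h4 : orderOf ((QuotientGroup.mk' Z) t) ∣ 2 := by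
      rw [orderOf_dvd_iff_pow_eq_one, ← map_pow, sq, h1, map_one]
    have h5 := Nat.dvd_gcd h3 h4
    rw [(CfsgLib.Cores.card_pPrimeCore_coprime 2).gcd_eq_one, Nat.dvd_one, orderOf_eq_one_iff] at h5
    exact h5
  -- conjugation by a reflection
  have hrefl : ∀ w, dotD d w w ≠ 0 → ∀ s : SO, ∃ s' : SO, mat s' = refl d w * mat s * refl d w ∧
      (s ∈ M₀ → s' ∈ M₀) := by
    intro w hw s
    let R : GL ι F := ⟨refl d w, refl d w, refl_mul_self hw, refl_mul_self hw⟩
    have hdet : ∀ X : Matrix ι ι F, (refl d w * X * refl d w).det = X.det := fun X =>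
      Matrix.det_units_conj R X
    have hmem : ∀ t : SO, (⟨refl d w * mat t * refl d w, by rw [hdet]; exact t.1.2⟩ :
        Matrix.SpecialLinearGroup ι F) ∈ SO := by
      intro t
      show (refl d w * mat t * refl d w)ᵀ * Matrix.diagonal d * (refl d w * mat t * refl d w) =
        Matrix.diagonal d
      rw [Matrix.transpose_mul, Matrix.transpose_mul]
      calc (refl d w)ᵀ * ((mat t)ᵀ * (refl d w)ᵀ) * Matrix.diagonal d * (refl d w * mat t * refl d w)
          = (refl d w)ᵀ * ((mat t)ᵀ * ((refl d w)ᵀ * Matrix.diagonal d * refl d w) * mat t) * refl d w := by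
            simp only [Matrix.mul_assoc]
        _ = _ := by rw [refl_isom hw, hiso t, refl_isom hw]
    let φ : SO →* SO := MonoidHom.mk' (fun t => ⟨_, hmem t⟩) fun t t' => Subtype.ext (Subtype.ext (by
      show refl d w * (mat t * mat t') * refl d w =
        (refl d w * mat t * refl d w) * (refl d w * mat t' * refl d w)
      conv_rhs => rw [Matrix.mul_assoc (refl d w * mat t), Matrix.mul_assoc (refl d w) (mat t') (refl d w),
        ← Matrix.mul_assoc (refl d w) (refl d w), refl_mul_self hw, Matrix.one_mul]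
      simp only [Matrix.mul_assoc]))
    have hφφ : φ.comp φ = MonoidHom.id SO := MonoidHom.ext fun t => Subtype.ext (Subtype.ext (by
      show refl d w * (refl d w * mat t * refl d w) * refl d w = mat t
      rw [Matrix.mul_assoc (refl d w) (mat t), ← Matrix.mul_assoc (refl d w) (refl d w), refl_mul_self hw,
        Matrix.one_mul, Matrix.mul_assoc, refl_mul_self hw, Matrix.mul_one]))
    let α : SO ≃* SO := MonoidHom.toMulEquiv φ φ hφφ hφφ
    have hαZ : Z.map α.toMonoidHom = Z := by
      have hle : Z.map α.toMonoidHom ≤ Z := by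
        rintro _ ⟨t, ht, rfl⟩
        obtain ⟨c, -, hc⟩ := Matrix.SpecialLinearGroup.mem_center_iff.1 (Subgroup.mem_subgroupOf.1 ht)
        refine Subgroup.mem_subgroupOf.2 (Subgroup.mem_center_iff.2 fun g => Subtype.ext ?_)
        show g.1 * (refl d w * mat t * refl d w) = (refl d w * mat t * refl d w) * g.1
        rw [show mat t = c • (1 : Matrix ι ι F) by
          rw [show mat t = t.1.1 from rfl, ← hc, Matrix.scalar_apply, Matrix.smul_one_eq_diagonal],
          Matrix.mul_smul, Matrix.mul_one, Matrix.smul_mul, refl_mul_self hw, Matrix.mul_smul,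
          Matrix.mul_one, Matrix.smul_mul, Matrix.one_mul]
      refine le_antisymm hle fun t ht => ⟨α t, hle ⟨t, ht, rfl⟩, ?_⟩
      exact DFunLike.congr_fun hφφ t
    refine ⟨φ s, rfl, fun hs => ?_⟩
    show QuotientGroup.mk' Z (φ s) ∈ Cfsg.pPrimeCore 2 (↥SO ⧸ Z)
    rw [← CfsgLib.Cores.map_pPrimeCore_equiv (QuotientGroup.congr Z Z α hαZ)]
    exact ⟨_, hs, rfl⟩
  -- no anisotropic vector is orthogonal to its image under an element of `M₀`
  have keyB : ∀ s ∈ M₀, ∀ W, dotD d W W ≠ 0 → dotD d W (mat s *ᵥ W) ≠ 0 := by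
    intro s hs W hW hWs
    obtain ⟨s', hs', hs'M⟩ := hrefl W hW s⁻¹
    have ht : s * s' ∈ M₀ := mul_mem hs (hs'M (inv_mem hs))
    set W' := mat s *ᵥ W with hW'
    have hW'q : dotD d W' W' = dotD d W W := dotD_isom (hiso s) W W
    have hinv : mat s * mat s⁻¹ = 1 :=
      congrArg (fun t : SO => mat t) (mul_inv_cancel s)
    have heq : mat (s * s') = refl d W' * refl d W := by
      show mat s * mat s' = _
      rw [hs', ← Matrix.mul_assoc, ← Matrix.mul_assoc]
      congr 1
      refine Matrix.ext_of_mulVec_single fun k => ?_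
      obtain ⟨v, hv⟩ : ∃ v, (Pi.single k 1 : ι → F) = mat s *ᵥ v :=
        ⟨mat s⁻¹ *ᵥ Pi.single k 1, by rw [Matrix.mulVec_mulVec, hinv, Matrix.one_mulVec]⟩
      rw [hv, ← Matrix.mulVec_mulVec, Matrix.mulVec_mulVec v (mat s⁻¹),
        mul_eq_one_comm.1 hinv, Matrix.one_mulVec, ← Matrix.mulVec_mulVec, refl_mulVec, refl_mulVec, hW'q,
        hW', dotD_isom (hiso s), Matrix.mulVec_sub, Matrix.mulVec_smul]
    have hcomm : refl d W * refl d W' = refl d W' * refl d W := by
      refine Matrix.ext_of_mulVec_single fun k => ?_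
      have hWs' : dotD d W' W = 0 := by rw [dotD_comm, hWs]
      simp only [← Matrix.mulVec_mulVec, refl_mulVec, dotD_sub_left, dotD_smul_left, hWs', hWs, mul_zero,
        sub_zero]
      abel
    have htt : mat (s * s') * mat (s * s') = 1 := by
      rw [heq]
      calc refl d W' * refl d W * (refl d W' * refl d W)
          = refl d W' * (refl d W * refl d W') * refl d W := by simp only [Matrix.mul_assoc]
        _ = (refl d W' * refl d W') * (refl d W * refl d W) := by rw [hcomm]; simp only [Matrix.mul_assoc]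
        _ = 1 := by rw [refl_mul_self hW, refl_mul_self (hW'q.symm ▸ hW), Matrix.one_mul]
    obtain ⟨c, -, hc⟩ := Matrix.SpecialLinearGroup.mem_center_iff.1
      (Subgroup.mem_subgroupOf.1 (hinvol _ ht htt))
    have hcv : ∀ v, (refl d W' * refl d W) *ᵥ v = c • v := fun v => by
      rw [← heq, show mat (s * s') = (s * s').1.1 from rfl, ← hc, Matrix.scalar_apply,
        ← Matrix.smul_one_eq_diagonal, Matrix.smul_mulVec, Matrix.one_mulVec]
    obtain ⟨u, hu, huW, huW'⟩ := exists_perp d W W' hι
    have h1 := hcv u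
    rw [← Matrix.mulVec_mulVec, refl_fix huW, refl_fix huW'] at h1
    have hc1 : c = 1 := by
      obtain ⟨k, hk⟩ : ∃ k, u k ≠ 0 := Function.ne_iff.1 hu
      have := congrFun h1 k
      rw [Pi.smul_apply, smul_eq_mul] at this
      exact mul_right_cancel₀ hk (by rw [one_mul, ← this])
    have h2' := hcv W
    rw [← Matrix.mulVec_mulVec, refl_self hW, Matrix.mulVec_neg,
      refl_fix (show dotD d W W' = 0 from hWs), hc1, one_smul] at h2'
    refine hW ?_
    have hW0 : W = 0 := funext fun k => by
      have := congrFun h2' k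
      simp only [Pi.neg_apply] at this
      exact (mul_eq_zero.1 (show (2 : F) * W k = 0 by linear_combination -this)).resolve_left h2
    rw [hW0]; simp [dotD]
  -- anisotropic vectors are eigenvectors of `x`
  have heig : ∀ w, dotD d w w ≠ 0 → mat x *ᵥ w = w ∨ mat x *ᵥ w = -w := by
    intro w hw
    obtain ⟨x', hx', hx'M⟩ := hrefl w hw x⁻¹
    set a := mat x *ᵥ w with haw
    have haq : dotD d a a = dotD d w w := dotD_isom (hiso x) w w
    have hinv : mat x * mat x⁻¹ = 1 := congrArg (fun t : SO => mat t) (mul_inv_cancel x)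
    have heq : mat (x * x') = refl d a * refl d w := by
      show mat x * mat x' = _
      rw [hx', ← Matrix.mul_assoc, ← Matrix.mul_assoc]
      congr 1
      refine Matrix.ext_of_mulVec_single fun k => ?_
      obtain ⟨v, hv⟩ : ∃ v, (Pi.single k 1 : ι → F) = mat x *ᵥ v :=
        ⟨mat x⁻¹ *ᵥ Pi.single k 1, by rw [Matrix.mulVec_mulVec, hinv, Matrix.one_mulVec]⟩
      rw [hv, ← Matrix.mulVec_mulVec, Matrix.mulVec_mulVec v (mat x⁻¹),
        mul_eq_one_comm.1 hinv, Matrix.one_mulVec, ← Matrix.mulVec_mulVec, refl_mulVec, refl_mulVec, haq,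
        haw, dotD_isom (hiso x), Matrix.mulVec_sub, Matrix.mulVec_smul]
    have h1 : refl d a * refl d w = 1 := by
      by_contra hne
      obtain ⟨W, hW, hW0⟩ := exists_anisotropic_orth h2 hd hι (haq.symm ▸ hw) haq.symm hne
      exact keyB _ (mul_mem hx (hx'M (inv_mem hx))) W hW (by rw [heq]; exact hW0)
    have h3 := congrArg (· *ᵥ w) h1
    simp only [← Matrix.mulVec_mulVec, refl_self hw, Matrix.one_mulVec, Matrix.mulVec_neg] at h3
    rw [refl_mulVec, haq, neg_sub] at h3
    set g := dotD d w a / dotD d w w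
    have h4 : w = g • a := by
      have h5 : (2 : F) • w = (2 : F) • (g • a) := by
        rw [smul_smul, two_smul]
        nth_rw 1 [← h3]
        rw [sub_add_cancel]
        congr 1
        simp only [g]
        field_simp
      exact smul_right_injective _ h2 h5
    have hgg : g * g = 1 := by
      have h5 := congrArg (fun v => dotD d v v) h4
      simp only [dotD_smul_left, dotD_smul_right, haq] at h5
      exact mul_right_cancel₀ hw (by linear_combination -h5)
    rcases mul_self_eq_one_iff.1 hgg with hg | hg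
    · left; rw [hg, one_smul] at h4; exact h4.symm
    · right; rw [hg, neg_one_smul] at h4; rw [h4, neg_neg]
  refine hinvol x hx (Matrix.ext_of_mulVec_single fun k => ?_)
  have hk : dotD d (Pi.single k 1) (Pi.single k 1) ≠ 0 := by
    rw [dotD_single, Pi.single_eq_same, one_mul, mul_one]; exact hd k
  rw [← Matrix.mulVec_mulVec, Matrix.one_mulVec]
  rcases heig _ hk with h | h
  · rw [h, h]
  · rw [h, Matrix.mulVec_neg, h, neg_neg]

end CfsgLib.LocalBalance
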