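import Cfsg.Agent.Lib.LocalBalance.Rigid

/-!
# Rigidity of unitary, orthogonal and symplectic groups
-/

set_option autoImplicit false
set_option linter.unusedSectionVars false
set_option linter.style.haveILetI false

open Matrix

universe u v

namespace CfsgLib.LocalBalance

variable {F₀ : Type v} [Field F₀] {F : Type u} [Field F]

theorem exists_third {n : ℕ} (hn : 3 ≤ n) (k l : Fin n) : ∃ m : Fin n, m ≠ k ∧ m ≠ l := by
  have h : (({k, l} : Finset (Fin n))ᶜ).Nonempty := by
    rw [← Finset.card_pos, Finset.card_compl, Fintype.card_fin]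
    have := Finset.card_le_two (a := k) (b := l)
    omega
  obtain ⟨m, hm⟩ := h
  simp only [Finset.mem_compl, Finset.mem_insert, Finset.mem_singleton, not_or] at hm
  exact ⟨m, hm.1, hm.2⟩

/-- The special unitary group is rigid. -/
theorem rigid_unitary {n : ℕ} (hn : 3 ≤ n) (i : F₀ →+* F) (σ : F₀ →+* F₀) (hσ : ∀ x, σ (σ x) = x)
    (hnorm : ∀ y, σ y = y → ∃ x, x * σ x = y) {u : F₀} (hu : u * σ u = 1) (hu1 : u ≠ 1)
    (S : Set (Matrix (Fin n) (Fin n) F₀))
    (hS : ∀ X : Matrix (Fin n) (Fin n) F₀, Xᵀ * X.map σ = 1 → X.det = 1 → X ∈ S) : Rigid i S := by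
  intro h j hh hX
  have hu0 : u ≠ 0 := left_ne_zero_of_mul_eq_one hu
  obtain ⟨hzero, hjoin⟩ := diag_of_torus hh hX Set.univ (fun k l => by
    obtain ⟨m, hm⟩ := exists_third hn k l
    exact ⟨m, Set.mem_univ _, hm⟩) hu0 hu1
    (fun k _ l _ hkl => hS _ (torus_unitary hu k l) (det_torus hu0 hkl))
    (fun k _ l _ hkl => hS _ (swap_unitary σ hkl) (det_swap hkl))
  have hd : ∀ a b, a ≠ b → h a b = 0 := fun a b hab => hzero a b hab (Or.inl (Set.mem_univ a))
  have heq : ∀ k l : Fin n, h k k = h l l := fun k l => by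
    rcases eq_or_ne k l with rfl | hkl
    · rfl
    · exact hjoin k (Set.mem_univ _) l (Set.mem_univ _) hkl hd
  let k₀ : Fin n := ⟨0, by omega⟩
  let l₀ : Fin n := ⟨1, by omega⟩
  let m₀ : Fin n := ⟨2, by omega⟩
  have hkl : k₀ ≠ l₀ := by simp [k₀, l₀, Fin.ext_iff]
  refine ⟨⟨h k₀ k₀, eq_smul_one_of_diag hd fun m => heq m k₀⟩, RingHom.ext fun a => ?_⟩
  obtain ⟨b, hb⟩ := hnorm (1 - a * σ a) (by rw [map_sub, map_one, map_mul, hσ, mul_comm])
  have hU : (blockTwo k₀ l₀ a (-σ b) b (σ a))ᵀ * (blockTwo k₀ l₀ a (-σ b) b (σ a)).map σ = 1 := by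
    rw [transpose_blockTwo hkl, map_blockTwo, blockTwo_mul hkl, map_neg, hσ, hσ, ← blockTwo_one hkl]
    congr 1
    · linear_combination hb
    · ring
    · ring
    · linear_combination hb
  have hdet : (blockTwo k₀ l₀ a (-σ b) b (σ a)).det = 1 := by
    rw [det_blockTwo hkl]; linear_combination hb
  obtain ⟨c, hc⟩ := hX _ (hS _ hU hdet)
  have h1 := hc.entry_diag hd m₀ m₀
  have h2 := hc.entry_diag hd k₀ k₀
  have hm : blockTwo k₀ l₀ a (-σ b) b (σ a) m₀ m₀ = 1 := by simp [blockTwo, k₀, l₀, m₀, Fin.ext_iff]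
  have hk : blockTwo k₀ l₀ a (-σ b) b (σ a) k₀ k₀ = a := by simp [blockTwo]
  rw [hm, map_one, map_one, mul_one, one_mul] at h1
  rw [hk] at h2
  have hc1 : c = 1 := by
    have h0 : (c - 1) * h m₀ m₀ = 0 := by rw [sub_mul, one_mul, ← h1, sub_self]
    exact sub_eq_zero.1 ((mul_eq_zero.1 h0).resolve_right (diag_ne_zero hh hd m₀))
  rw [hc1, one_mul, mul_comm (i a)] at h2
  exact mul_left_cancel₀ (diag_ne_zero hh hd k₀) h2

/-- The diagonal form `diag (1, …, 1, d)`. -/
def diagForm (n : ℕ) (d : F₀) : Matrix (Fin (n + 1)) (Fin (n + 1)) F₀ :=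
  Matrix.diagonal fun a => if a = Fin.last n then d else 1

theorem torus_mem_orth {n : ℕ} (d : F₀) (k l : Fin (n + 1)) :
    (torus (-1 : F₀) k l)ᵀ * diagForm n d * torus (-1 : F₀) k l = diagForm n d := by
  rw [torus, diagForm, Matrix.diagonal_transpose, Matrix.diagonal_mul_diagonal, Matrix.diagonal_mul_diagonal]
  congr 1
  funext x
  split_ifs <;> simp

theorem blockTwo_mem_orth {n : ℕ} (d : F₀) {k l : Fin (n + 1)} (hkl : k ≠ l) (hk : k ≠ Fin.last n)
    (hl : l ≠ Fin.last n) {p q r s : F₀} (h1 : p * p + r * r = 1) (h2 : p * q + r * s = 0)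
    (h3 : q * q + s * s = 1) :
    (blockTwo k l p q r s)ᵀ * diagForm n d * blockTwo k l p q r s = diagForm n d := by
  have e : diagForm n d * blockTwo k l p q r s = blockTwo k l p q r s * diagForm n d := by
    ext a b
    rw [diagForm, Matrix.diagonal_mul, Matrix.mul_diagonal]
    simp only [blockTwo]
    grind
  rw [Matrix.mul_assoc, e, ← Matrix.mul_assoc, transpose_blockTwo hkl, blockTwo_mul hkl, h1, h2,
    show q * p + s * r = 0 by linear_combination h2, h3, blockTwo_one hkl, Matrix.one_mul]

/-- An isometry of `diag (1, …, 1, d)` moving the last basis vector. -/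
def moveLast {n : ℕ} (k l : Fin (n + 1)) (a b d : F₀) : Matrix (Fin (n + 1)) (Fin (n + 1)) F₀ :=
  fun x y =>
    if x = k ∧ y = k then -(b * b / d) else if x = k ∧ y = l then -(a * b / d)
    else if x = k ∧ y = Fin.last n then a
    else if x = l ∧ y = k then a * b / d else if x = l ∧ y = l then a * a / d
    else if x = l ∧ y = Fin.last n then b
    else if x = Fin.last n ∧ y = k then -(a / d) else if x = Fin.last n ∧ y = l then b / d
    else if x = Fin.last n ∧ y = Fin.last n then 0 else if x = y then 1 else 0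

theorem moveLast_mem_orth {n : ℕ} {k l : Fin (n + 1)} (hkl : k ≠ l) (hk : k ≠ Fin.last n)
    (hl : l ≠ Fin.last n) {a b d : F₀} (hd : d ≠ 0) (hab : a * a + b * b = d) :
    (moveLast k l a b d)ᵀ * diagForm n d * moveLast k l a b d = diagForm n d := by
  ext x y
  have hsub : ∀ (f : Fin (n + 1) → F₀), (∀ z, z ≠ k → z ≠ l → z ≠ Fin.last n → z ≠ x → f z = 0) →
      ∑ z, f z = f k + f l + f (Fin.last n) +
        (if x ≠ k ∧ x ≠ l ∧ x ≠ Fin.last n then f x else 0) := by
    intro f hf
    by_cases hx : x ≠ k ∧ x ≠ l ∧ x ≠ Fin.last n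
    · rw [if_pos hx, ← Finset.sum_subset (Finset.subset_univ {k, l, Fin.last n, x}) (fun z _ hz => by
        simp only [Finset.mem_insert, Finset.mem_singleton, not_or] at hz
        exact hf z hz.1 hz.2.1 hz.2.2.1 hz.2.2.2)]
      rw [Finset.sum_insert (by simp [hkl, hk, Ne.symm hx.1]), Finset.sum_insert (by simp [hl, Ne.symm hx.2.1]),
        Finset.sum_pair (Ne.symm hx.2.2)]
      ring
    · rw [if_neg hx, add_zero, ← Finset.sum_subset (Finset.subset_univ {k, l, Fin.last n}) (fun z _ hz => by
        simp only [Finset.mem_insert, Finset.mem_singleton, not_or] at hz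
        refine hf z hz.1 hz.2.1 hz.2.2 fun hzx => ?_
        subst hzx
        exact hx ⟨hz.1, hz.2.1, hz.2.2⟩)]
      rw [Finset.sum_insert (by simp [hkl, hk]), Finset.sum_pair hl]
      ring
  rw [Matrix.mul_assoc, diagForm, Matrix.mul_apply, hsub _ (fun z hz1 hz2 hz3 hz4 => by
    simp [moveLast, hz1, hz2, hz3, hz4])]
  simp only [Matrix.transpose_apply, Matrix.diagonal_mul, Matrix.diagonal_apply, moveLast]
  grind

theorem det_moveLast {n : ℕ} {k l : Fin (n + 1)} (hkl : k ≠ l) (hk : k ≠ Fin.last n)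
    (hl : l ≠ Fin.last n) {a b d : F₀} (hd : d ≠ 0) (hab : a * a + b * b = d) :
    (moveLast k l a b d).det = 1 := by
  let U : Matrix (Fin (n + 1)) (Fin 3) F₀ := Matrix.of fun x c => if x = ![k, l, Fin.last n] c then 1 else 0
  let V : Matrix (Fin 3) (Fin (n + 1)) F₀ := Matrix.of fun c y =>
    if y = k then ![-(b * b / d) - 1, a * b / d, -(a / d)] c
    else if y = l then ![-(a * b / d), a * a / d - 1, b / d] c
    else if y = Fin.last n then ![a, b, -1] c else 0
  have e : moveLast k l a b d = 1 + U * V := by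
    ext x y
    simp only [Matrix.add_apply, Matrix.one_apply, Matrix.mul_apply, Fin.sum_univ_three, U, V, moveLast,
      Matrix.of_apply, Matrix.cons_val_zero, Matrix.cons_val_one, Matrix.cons_val]
    grind
  have eV : ∀ c c' : Fin 3, (V * U) c c' = V c (![k, l, Fin.last n] c') := fun c c' => by
    simp only [Matrix.mul_apply, U, Matrix.of_apply, mul_ite, mul_one, mul_zero]
    simp
  rw [e, Matrix.det_one_add_mul_comm, Matrix.det_fin_three]
  simp only [Matrix.add_apply, eV]
  simp [V, hkl.symm, hk.symm, hl.symm, Matrix.one_apply]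
  field_simp
  linear_combination (a * a + b * b + d) * hab

/-- The special orthogonal group of `diag (1, …, 1, d)` is rigid. -/
theorem rigid_orth {n : ℕ} (hn : 2 ≤ n) (h2 : (2 : F₀) ≠ 0) (i : F₀ →+* F) {a b d : F₀} (hd : d ≠ 0)
    (hab : a * a + b * b = d) (ha : a ≠ 0) (S : Set (Matrix (Fin (n + 1)) (Fin (n + 1)) F₀))
    (hS : ∀ X : Matrix (Fin (n + 1)) (Fin (n + 1)) F₀, Xᵀ * diagForm n d * X = diagForm n d →
      X.det = 1 → X ∈ S) : Rigid i S := by
  intro h j hh hX
  have h2i : (2 : F) ≠ 0 := by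
    have := (map_ne_zero i).2 h2
    rwa [show (2 : F₀) = 1 + 1 by norm_num, map_add, map_one, one_add_one_eq_two] at this
  have hm1 : (-1 : F₀) ≠ 1 := fun e => h2 (by linear_combination -e)
  have htor : ∀ k l : Fin (n + 1), k ≠ l → torus (-1 : F₀) k l ∈ S := fun k l hkl =>
    hS _ (torus_mem_orth d k l) (det_torus (neg_ne_zero.2 one_ne_zero) hkl)
  have hswap : ∀ k l : Fin (n + 1), k ≠ l → k ≠ Fin.last n → l ≠ Fin.last n → swap k l ∈ S :=
    fun k l hkl hk hl => hS (swap k l) (by
      rw [swap_eq_blockTwo hkl]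
      exact blockTwo_mem_orth d hkl hk hl (by ring) (by ring) (by ring)) (det_swap hkl)
  have hdg : ∀ x y, x ≠ y → h x y = 0 := by
    rcases Nat.lt_or_ge n 3 with hlt | h3
    · -- `n = 2`: a scalar `-1` would send a plane into a line
      obtain rfl : n = 2 := by omega
      have key : ∀ k l : Fin 3, k ≠ l → Inter i j h (torus (-1 : F₀) k l) 1 := by
        intro k l hkl
        obtain ⟨c, hc⟩ := hX _ (htor k l hkl)
        obtain ⟨m, hmk, hml⟩ := exists_third le_rfl k l
        have hent : ∀ x y, h x y * (if y = k ∨ y = l then (-1 : F) else 1) =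
            c * ((if x = k ∨ x = l then (-1 : F) else 1) * h x y) := by
          intro x y
          have := congrFun (congrFun hc x) y
          simp only [torus, Matrix.diagonal_map (map_zero _), Matrix.mul_diagonal, Matrix.smul_apply,
            Matrix.diagonal_mul, smul_eq_mul] at this
          convert this using 3 <;> (split_ifs <;> simp_all)
        by_cases hc1 : c = 1
        · rwa [hc1] at hc
        exfalso
        -- the rows `k, l` live in the column `m`
        have hrow : ∀ x, (x = k ∨ x = l) → ∀ y, (y = k ∨ y = l) → h x y = 0 := by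
          intro x hx y hy
          have e := hent x y
          rw [if_pos hx, if_pos hy] at e
          have : (c - 1) * h x y = 0 := by linear_combination e
          exact (mul_eq_zero.1 this).resolve_left (sub_ne_zero.2 hc1)
        have hall : ∀ z : Fin 3, z = k ∨ z = l ∨ z = m := by
          intro z
          simp only [ne_eq, Fin.ext_iff] at hkl hmk hml ⊢
          omega
        have hdet : h.det = 0 := by
          by_cases hkm : h k m = 0
          · refine Matrix.det_eq_zero_of_row_eq_zero k fun z => ?_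
            rcases hall z with hz | hz | hz
            · exact hrow k (Or.inl rfl) z (Or.inl hz)
            · exact hrow k (Or.inl rfl) z (Or.inr hz)
            · rwa [hz]
          · rw [← Matrix.det_updateRow_add_smul_self h hkl.symm (-(h l m / h k m))]
            refine Matrix.det_eq_zero_of_row_eq_zero l fun z => ?_
            rw [Matrix.updateRow_self, Pi.add_apply, Pi.smul_apply, smul_eq_mul]
            rcases hall z with hz | hz | hz
            · rw [hrow l (Or.inr rfl) z (Or.inl hz), hrow k (Or.inl rfl) z (Or.inl hz)]; ring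
            · rw [hrow l (Or.inr rfl) z (Or.inr hz), hrow k (Or.inl rfl) z (Or.inr hz)]; ring
            · rw [hz]; field_simp; ring
        exact ((Matrix.isUnit_iff_isUnit_det _).1 hh).ne_zero hdet
      intro x y hxy
      obtain ⟨m, hmx, hmy⟩ := exists_third le_rfl x y
      refine (key x m hmx.symm).entry_zero ?_
      simp [hxy.symm, hmy.symm]
      intro e
      exact h2i (by linear_combination e)
    · have hT : ∀ k l : Fin (n + 1), ∃ m ∈ ({x | x ≠ Fin.last n} : Set (Fin (n + 1))), m ≠ k ∧ m ≠ l := by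
        intro k l
        have hne : (({k, l, Fin.last n} : Finset (Fin (n + 1)))ᶜ).Nonempty := by
          rw [← Finset.card_pos, Finset.card_compl, Fintype.card_fin]
          have := Finset.card_le_three (a := k) (b := l) (c := Fin.last n)
          omega
        obtain ⟨m, hm⟩ := hne
        simp only [Finset.mem_compl, Finset.mem_insert, Finset.mem_singleton, not_or] at hm
        exact ⟨m, hm.2.2, hm.1, hm.2.1⟩
      obtain ⟨hzero, -⟩ := diag_of_torus hh hX {x | x ≠ Fin.last n} hT (neg_ne_zero.2 one_ne_zero) hm1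
        (fun k _ l _ hkl => htor k l hkl) (fun k hk l hl hkl => hswap k l hkl hk hl)
      intro x y hxy
      refine hzero x y hxy ?_
      by_contra hcon
      simp only [Set.mem_setOf_eq, not_or, not_not] at hcon
      exact hxy (hcon.1.trans hcon.2.symm)
  -- the diagonal entries agree off the last coordinate
  have hne : ∀ x : Fin (n + 1), h x x ≠ 0 := diag_ne_zero hh hdg
  have hlam : ∀ k l : Fin (n + 1), k ≠ Fin.last n → l ≠ Fin.last n → h k k = h l l := by
    intro k l hk hl
    rcases eq_or_ne k l with rfl | hkl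
    · rfl
    obtain ⟨c, hc⟩ := hX _ (hswap k l hkl hk hl)
    obtain ⟨m, hmk, hml⟩ := exists_third (by omega) k l
    have h1 := hc.entry_diag hdg m m
    have h3 := hc.entry_diag hdg k l
    simp [swap, hmk, hml] at h1
    simp [swap] at h3
    have h0 : (c - 1) * h m m = 0 := by rw [sub_mul, one_mul, ← h1, sub_self]
    rw [h3, sub_eq_zero.1 ((mul_eq_zero.1 h0).resolve_right (hne m)), one_mul]
  let k₀ : Fin (n + 1) := ⟨0, by omega⟩
  let l₀ : Fin (n + 1) := ⟨1, by omega⟩
  have hkl : k₀ ≠ l₀ := by simp [k₀, l₀, Fin.ext_iff]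
  have hk₀ : k₀ ≠ Fin.last n := by simp [k₀, Fin.ext_iff]; omega
  have hl₀ : l₀ ≠ Fin.last n := by simp [l₀, Fin.ext_iff]; omega
  -- rotations
  have hgood : ∀ t : F₀, 1 + t * t ≠ 0 → j t = i t := by
    intro t ht
    set A := (1 - t * t) / (1 + t * t) with hA
    set B := 2 * t / (1 + t * t) with hB
    have hA' : A * (1 + t * t) = 1 - t * t := div_mul_cancel₀ _ ht
    have hB' : B * (1 + t * t) = 2 * t := div_mul_cancel₀ _ ht
    have hAB : A * A + B * B = 1 := by
      refine mul_right_cancel₀ (mul_ne_zero ht ht) ?_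
      linear_combination (A * (1 + t * t) + (1 - t * t)) * hA' + (B * (1 + t * t) + 2 * t) * hB'
    obtain ⟨c, hc⟩ := hX _ (hS _ (blockTwo_mem_orth d hkl hk₀ hl₀ (p := A) (q := -B) (r := B) (s := A)
      hAB (by ring) (by linear_combination hAB)) (by rw [det_blockTwo hkl]; linear_combination hAB))
    have h1 := hc.entry_diag hdg (Fin.last n) (Fin.last n)
    have h3 := hc.entry_diag hdg k₀ k₀
    have h4 := hc.entry_diag hdg l₀ k₀
    simp [blockTwo, hk₀.symm, hl₀.symm] at h1
    simp [blockTwo] at h3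
    simp [blockTwo, hkl.symm] at h4
    have h0 : (c - 1) * h (Fin.last n) (Fin.last n) = 0 := by rw [sub_mul, one_mul, ← h1, sub_self]
    have hc1 := sub_eq_zero.1 ((mul_eq_zero.1 h0).resolve_right (hne _))
    rw [hc1, one_mul, mul_comm (i A)] at h3
    rw [hc1, one_mul, hlam l₀ k₀ hl₀ hk₀, mul_comm (i B)] at h4
    have eA := mul_left_cancel₀ (hne k₀) h3
    have eB := mul_left_cancel₀ (hne k₀) h4
    have hA1 : (1 + A) * t = B := mul_right_cancel₀ ht (by linear_combination t * hA' - hB')
    have hA2 : 1 + A ≠ 0 := by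
      have : (1 + A) * (1 + t * t) = 2 := by linear_combination hA'
      exact left_ne_zero_of_mul (this ▸ h2)
    have hj : j (1 + A) * j t = j B := by rw [← map_mul, hA1]
    have hi : i (1 + A) * i t = i B := by rw [← map_mul, hA1]
    have e1 : j (1 + A) = i (1 + A) := by rw [map_add, map_add, map_one, map_one, eA]
    refine mul_left_cancel₀ ((map_ne_zero i).2 hA2) ?_
    rw [hi, ← eB, ← hj, e1]
  have hji : j = i := RingHom.ext fun t => by
    by_cases ht : 1 + t * t = 0
    · by_cases h1 : 1 + (t + 1) * (t + 1) = 0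
      · have h3 : 1 + (t - 1) * (t - 1) ≠ 0 := fun e => h2 (by linear_combination e + h1 - 2 * ht)
        have := hgood _ h3
        rw [map_sub, map_sub, map_one, map_one, sub_left_inj] at this
        exact this
      · have := hgood _ h1
        rw [map_add, map_add, map_one, map_one, add_left_inj] at this
        exact this
    · exact hgood t ht
  subst hji
  refine ⟨⟨h k₀ k₀, eq_smul_one_of_diag hdg fun x => ?_⟩, rfl⟩
  rcases eq_or_ne x (Fin.last n) with rfl | hx
  swap
  · exact hlam x k₀ hx hk₀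
  obtain ⟨c, hc⟩ := hX _ (hS _ (moveLast_mem_orth hkl hk₀ hl₀ hd hab) (det_moveLast hkl hk₀ hl₀ hd hab))
  have h1 := hc.entry_diag hdg l₀ l₀
  have h3 := hc.entry_diag hdg k₀ (Fin.last n)
  simp [moveLast, hkl, hkl.symm, hl₀] at h1
  simp [moveLast, hkl, hk₀, hk₀.symm, hl₀.symm] at h3
  have hia : j a ≠ 0 := (map_ne_zero j).2 ha
  have hc1 : c = 1 := by
    have e : j (a * a / d) ≠ 0 := (map_ne_zero j).2 (div_ne_zero (mul_ne_zero ha ha) hd)
    have h0 : (c - 1) * (j (a * a / d) * h l₀ l₀) = 0 := by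
      simp only [map_div₀, map_mul] at h1 ⊢
      linear_combination -h1
    exact sub_eq_zero.1 ((mul_eq_zero.1 h0).resolve_right (mul_ne_zero e (hne l₀)))
  rw [hc1, one_mul] at h3
  exact mul_left_cancel₀ hia (by linear_combination -h3)

/-- The symplectic group is rigid. -/
theorem rigid_symp {m : ℕ} (hm : 2 ≤ m) (i : F₀ →+* F) (S : Set (Matrix (Fin m ⊕ Fin m) (Fin m ⊕ Fin m) F₀))
    (hS : ∀ X : Matrix (Fin m ⊕ Fin m) (Fin m ⊕ Fin m) F₀,
      X * Matrix.J (Fin m) F₀ * Xᵀ = Matrix.J (Fin m) F₀ → X.det = 1 → X ∈ S) : Rigid i S := by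
  intro h j hh hX
  have : Nonempty (Fin m ⊕ Fin m) := ⟨Sum.inl ⟨0, by omega⟩⟩
  let bar : Fin m ⊕ Fin m → Fin m ⊕ Fin m := Sum.swap
  have hbar : ∀ x, x ≠ bar x := fun x => by cases x <;> simp [bar]
  have hlong : ∀ (x : Fin m ⊕ Fin m) (a : F₀), 1 + Matrix.single x (bar x) a ∈ S := by
    intro x a
    refine hS _ ?_ (by
      show (Matrix.transvection x (bar x) a).det = 1
      exact Matrix.det_transvection_of_ne _ _ (hbar x) a)
    rcases x with k | k
    · rw [show 1 + Matrix.single (Sum.inl k) (bar (Sum.inl k)) a =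
          Matrix.fromBlocks 1 (Matrix.single k k a) 0 1 by
        ext (p | p) (q | q) <;> simp [bar, Matrix.one_apply, Matrix.single_apply]]
      simp only [Matrix.J, Matrix.fromBlocks_transpose, Matrix.fromBlocks_multiply]
      simp
    · rw [show 1 + Matrix.single (Sum.inr k) (bar (Sum.inr k)) a =
          Matrix.fromBlocks 1 0 (Matrix.single k k a) 1 by
        ext (p | p) (q | q) <;> simp [bar, Matrix.one_apply, Matrix.single_apply]]
      simp only [Matrix.J, Matrix.fromBlocks_transpose, Matrix.fromBlocks_multiply]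
      simp
  have key : ∀ (x : Fin m ⊕ Fin m) (a : F₀),
      h x x * j a = i a * h (bar x) (bar x) ∧ ∀ b, b ≠ x → h b x * j a = 0 := fun x a => by
    obtain ⟨c, hc⟩ := hX _ (hlong x a)
    exact entries_of_single (hc.single_eq hh (hbar x))
  have hd : ∀ b x, b ≠ x → h b x = 0 := fun b x hbx => by
    have := (key x 1).2 b hbx
    rwa [map_one, mul_one] at this
  have hpair : ∀ x, h x x = h (bar x) (bar x) := fun x => by simpa using (key x 1).1
  have hlev : ∀ k l : Fin m, h (Sum.inl k) (Sum.inl k) = h (Sum.inl l) (Sum.inl l) := by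
    intro k l
    rcases eq_or_ne k l with rfl | hkl
    · rfl
    let X : Matrix (Fin m ⊕ Fin m) (Fin m ⊕ Fin m) F₀ :=
      Matrix.fromBlocks (1 + Matrix.single k l 1) 0 0 (1 + Matrix.single l k (-1))
    have hXJ : X * Matrix.J (Fin m) F₀ * Xᵀ = Matrix.J (Fin m) F₀ := by
      simp only [X, Matrix.J, Matrix.fromBlocks_transpose, Matrix.fromBlocks_multiply]
      have e1 : (1 + Matrix.single k l (1 : F₀)) * (1 + Matrix.single l k (-1))ᵀ = 1 := by
        rw [Matrix.transpose_add, Matrix.transpose_one, Matrix.transpose_single]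
        simp [Matrix.add_mul, Matrix.mul_add, Matrix.single_mul_single_of_ne _ _ _ _ hkl.symm,
          add_assoc, ← Matrix.single_add]
      have e2 : (1 + Matrix.single l k (-1 : F₀)) * (1 + Matrix.single k l 1)ᵀ = 1 := by
        rw [Matrix.transpose_add, Matrix.transpose_one, Matrix.transpose_single]
        simp [Matrix.add_mul, Matrix.mul_add, Matrix.single_mul_single_of_ne _ _ _ _ hkl,
          add_assoc, ← Matrix.single_add]
      have e3 : (-Matrix.single k l (1 : F₀) + -1) * (1 + Matrix.single k l (-1)) = -1 := by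
        rw [← neg_add, add_comm, Matrix.neg_mul]
        simp [Matrix.add_mul, Matrix.mul_add, Matrix.single_mul_single_of_ne _ _ _ _ hkl.symm,
          add_assoc, ← Matrix.single_add]
      have e4 : (1 + Matrix.single l k (-1 : F₀)) * (1 + Matrix.single l k 1) = 1 := by
        simp [Matrix.add_mul, Matrix.mul_add, Matrix.single_mul_single_of_ne _ _ _ _ hkl,
          add_assoc, ← Matrix.single_add]
      simp [e1, e2, e3, e4]
    have hXd : X.det = 1 := by
      rw [Matrix.det_fromBlocks_zero₂₁]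
      show (Matrix.transvection k l 1).det * (Matrix.transvection l k (-1)).det = 1
      rw [Matrix.det_transvection_of_ne _ _ hkl, Matrix.det_transvection_of_ne _ _ hkl.symm, one_mul]
    obtain ⟨c, hc⟩ := hX _ (hS X hXJ hXd)
    have h1 := hc.entry_diag hd (Sum.inl l) (Sum.inl l)
    have h2 := hc.entry_diag hd (Sum.inl k) (Sum.inl l)
    simp [X, hkl, hkl.symm] at h1 h2
    have h0 : (c - 1) * h (Sum.inl l) (Sum.inl l) = 0 := by rw [sub_mul, one_mul, ← h1, sub_self]
    rw [h2, sub_eq_zero.1 ((mul_eq_zero.1 h0).resolve_right (diag_ne_zero hh hd _)), one_mul]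
  let k₀ : Fin m := ⟨0, by omega⟩
  refine ⟨⟨h (Sum.inl k₀) (Sum.inl k₀), eq_smul_one_of_diag hd fun x => ?_⟩, RingHom.ext fun a => ?_⟩
  · rcases x with k | k
    · exact hlev k k₀
    · rw [hpair, ← hlev k k₀]; rfl
  · have := (key (Sum.inl k₀) a).1
    rw [← hpair, mul_comm (i a)] at this
    exact mul_left_cancel₀ (diag_ne_zero hh hd _) this

end CfsgLib.LocalBalance
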