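import Cfsg.Agent.Lib.LocalBalance.Lift
import Cfsg.Agent.Lib.LocalBalance.RigidForms
import Cfsg.Agent.Lib.LocalBalance.NoCoreClassical
import Cfsg.Agent.Lib.LocalBalance.NoCoreOrth
import Cfsg.Agent.Lib.ReflectionsSpinor.PSLAutMain
import Cfsg.Agent.Lib.ReflectionsSpinor.PSLFieldAut
import Cfsg.Agent.Lib.ReflectionsSpinor.GraphOdd

/-!
# Good automorphisms of `PSL_n(F)`: field, graph-field and graph automorphisms
-/

set_option autoImplicit false
set_option linter.unusedSectionVars false
set_option linter.style.haveILetI false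

open Matrix
open CfsgLib.ReflectionsSpinor CfsgLib.ReflectionsSpinor.PSL

universe u v

namespace CfsgLib.LocalBalance

theorem card_fix_conj {K : Type u} [Group K] (α β : MulAut K) :
    Nat.card (fix (α * β * α⁻¹)) = Nat.card (fix β) := by
  refine (Nat.card_congr (α.toEquiv.subtypeEquiv fun k => ?_)).symm
  show k ∈ fix β ↔ α k ∈ fix (α * β * α⁻¹)
  rw [mem_fix, mem_fix, MulAut.mul_apply, MulAut.mul_apply, MulAut.inv_apply_self]
  exact α.injective.eq_iff.symm

theorem two_dvd_index {H : Type u} [Group H] [Finite H] (Z : Subgroup H) [Z.Normal] {t : H}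
    (ht : t ∉ Z) (htt : t * t ∈ Z) : 2 ∣ Z.index := by
  rw [Subgroup.index_eq_card]
  have ho : orderOf (QuotientGroup.mk' Z t) = 2 := orderOf_eq_prime
    (by rw [sq, ← map_mul]; exact (QuotientGroup.eq_one_iff _).2 htt)
    (fun h => ht ((QuotientGroup.eq_one_iff _).1 h))
  exact ho ▸ orderOf_dvd_natCard _

theorem Rigid.reindex {F₀ : Type v} [Field F₀] {F : Type u} [Field F] {ι κ : Type} [Fintype ι]
    [DecidableEq ι] [Fintype κ] [DecidableEq κ] {i : F₀ →+* F} {S : Set (Matrix ι ι F₀)} (e : ι ≃ κ)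
    (h : Rigid i S) {T : Set (Matrix κ κ F₀)} (hT : ∀ X ∈ S, Matrix.reindex e e X ∈ T) : Rigid i T := by
  intro g j hg hX
  have hu : IsUnit (g.submatrix e e) := by
    rw [Matrix.isUnit_iff_isUnit_det, Matrix.det_submatrix_equiv_self]
    exact (Matrix.isUnit_iff_isUnit_det _).1 hg
  obtain ⟨⟨a, ha⟩, hj⟩ := h (g.submatrix e e) j hu fun X hXS => by
    obtain ⟨c, hc⟩ := hX _ (hT X hXS)
    refine ⟨c, ?_⟩
    have h1 := congrArg (fun Y : Matrix κ κ F => Y.submatrix e e) hc
    simp only [Matrix.reindex_apply, ← Matrix.submatrix_map, Matrix.submatrix_smul, Pi.smul_apply] at h1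
    rw [← Matrix.submatrix_mul_equiv _ _ e e e, ← Matrix.submatrix_mul_equiv _ _ e e e,
      Matrix.submatrix_submatrix, Equiv.symm_comp_self, Matrix.submatrix_id_id,
      Matrix.submatrix_submatrix, Equiv.symm_comp_self, Matrix.submatrix_id_id] at h1
    exact h1
  refine ⟨⟨a, ?_⟩, hj⟩
  have h1 := congrArg (fun Y : Matrix ι ι F => Y.submatrix e.symm e.symm) ha
  simp only [Matrix.submatrix_submatrix, Equiv.self_comp_symm, Matrix.submatrix_id_id,
    Matrix.submatrix_smul, Pi.smul_apply, Matrix.submatrix_one_equiv] at h1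
  exact h1

/-- Every non-zero element is a sum of two squares, the first non-zero. -/
theorem exists_sum_sq {F : Type u} [Field F] [Finite F] (h2 : (2 : F) ≠ 0) {d : F} (hd : d ≠ 0) :
    ∃ a b : F, a ≠ 0 ∧ a * a + b * b = d := by
  haveI : Fintype F := Fintype.ofFinite F
  obtain ⟨a, b, h⟩ := FiniteField.exists_root_sum_quadratic (f := Polynomial.X ^ 2)
    (g := Polynomial.X ^ 2 - Polynomial.C d) (by simp) (Polynomial.degree_X_pow_sub_C (by norm_num) d)
    (FiniteField.odd_card_of_char_ne_two fun hc2 => h2 (by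
      haveI : CharP F 2 := ringChar.of_eq hc2
      exact CharTwo.two_eq_zero))
  simp only [Polynomial.eval_pow, Polynomial.eval_X, Polynomial.eval_sub, Polynomial.eval_C] at h
  by_cases ha : a = 0
  · refine ⟨b, a, fun hb => hd ?_, by linear_combination h⟩
    subst hb; subst ha
    linear_combination -h
  · exact ⟨a, b, ha, by linear_combination h⟩

/-- An automorphism of odd order is a power of its square. -/
theorem exists_sq_pow_eq {G : Type u} [Group G] (φ : G) (h : (orderOf φ).Coprime 2) :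
    ∃ k : ℕ, (φ ^ 2) ^ k = φ := by
  obtain ⟨k, hk⟩ := (Nat.coprime_two_right.1 h)
  exact ⟨k + 1, by rw [← pow_mul, show 2 * (k + 1) = orderOf φ + 1 by omega, pow_succ, pow_orderOf_eq_one,
    one_mul]⟩

variable {n : ℕ} {F : Type u} [Field F] [Finite F]

local notation "M" => Matrix (Fin n) (Fin n) F
local notation "SLn" => Matrix.SpecialLinearGroup (Fin n) F
local notation "PSLn" => Matrix.ProjectiveSpecialLinearGroup (Fin n) F

/-- The quotient map onto `PSL`. -/
def toPSL : SLn →* PSLn := QuotientGroup.mk' _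

theorem toPSL_apply (s : SLn) : toPSL s = cl s := rfl

theorem toPSL_surjective : Function.Surjective (toPSL : SLn → PSLn) := cl_surjective

theorem ker_toPSL : (toPSL : SLn →* PSLn).ker = Subgroup.center SLn := QuotientGroup.ker_mk' _

theorem ne_zero_of_eq_smul {X Y : M} (hn : 1 ≤ n) (hX : IsUnit X) {c : F} (h : X = c • Y) : c ≠ 0 := by
  haveI : Nonempty (Fin n) := ⟨⟨0, hn⟩⟩
  rintro rfl
  rw [zero_smul] at h
  exact hX.ne_zero h

/-- A semilinear automorphism fixing the class of `s` intertwines `s` and its image. -/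
theorem inter_of_fixed {h : GL (Fin n) F} {τ : F ≃+* F} {s : SLn} (hs : semiAut h τ (cl s) = cl s) :
    ∃ c : F, (h : M) * (s : M).map τ = c • ((s : M) * (h : M)) := by
  rw [semiAut_cl, eq_comm, cl_eq_cl_iff] at hs
  obtain ⟨c, hc⟩ := hs
  rw [coe_semiSLHom] at hc
  refine ⟨c, ?_⟩
  have h1 := congrArg (· * (h : M)) hc
  simpa [Matrix.mul_assoc, Matrix.smul_mul] using h1

/-- No automorphism with inverse transpose fixes all transvections `1 + E_kl`. -/
theorem not_fix_graph (hn : 3 ≤ n) (h : GL (Fin n) F) (τ : F ≃+* F)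
    (hfix : ∀ (k l : Fin n) (hkl : k ≠ l),
      (semiAut h τ * invTr : MulAut PSLn) (cl (SpecialLinearGroup.transvection hkl (1 : F))) =
        cl (SpecialLinearGroup.transvection hkl (1 : F))) : False := by
  have key : ∀ (k l : Fin n), k ≠ l → ∃ c : F,
      (h : M) * (1 + Matrix.single l k (-1 : F)) = c • ((1 + Matrix.single k l (1 : F)) * (h : M)) := by
    intro k l hkl
    have h0 := hfix k l hkl
    rw [MulAut.mul_apply, invTr_cl, semiAut_cl, eq_comm, cl_eq_cl_iff] at h0
    obtain ⟨c, hc⟩ := h0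
    rw [coe_semiSLHom] at hc
    refine ⟨c, ?_⟩
    have h1 := congrArg (· * (h : M)) hc
    simp only [Matrix.mul_assoc, Units.inv_mul, Matrix.mul_one, Matrix.smul_mul] at h1
    have hinv : ((SpecialLinearGroup.transvection hkl (1 : F))⁻¹ : SLn) =
        SpecialLinearGroup.transvection hkl (-1) := inv_eq_of_mul_eq_one_right (Subtype.ext (by
      show Matrix.transvection k l (1 : F) * Matrix.transvection k l (-1) = 1
      rw [Matrix.transvection_mul_transvection_same _ _ hkl, add_neg_cancel, Matrix.transvection_zero]))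
    rw [coe_invTrSL, hinv] at h1
    have e : ((Matrix.transvection k l (-1 : F))ᵀ).map τ = 1 + Matrix.single l k (-1) := by
      rw [Matrix.transvection, Matrix.transpose_add, Matrix.transpose_one, Matrix.transpose_single,
        Matrix.map_add _ (map_add τ), Matrix.map_one _ (map_zero τ) (map_one τ), Matrix.map_single, map_neg,
        map_one]
    change (h : M) * ((Matrix.transvection k l (-1 : F))ᵀ).map τ = _ at h1
    rw [e] at h1
    exact h1
  have ent : ∀ (k l : Fin n) (c : F),
      (h : M) * (1 + Matrix.single l k (-1 : F)) = c • ((1 + Matrix.single k l (1 : F)) * (h : M)) →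
      ∀ b m, m ≠ k → (h : M) b m = c * ((h : M) b m + if b = k then (h : M) l m else 0) := by
    intro k l c hc b m hm
    have := congrFun (congrFun hc b) m
    rw [Matrix.mul_add, Matrix.mul_one, Matrix.add_mul, Matrix.one_mul, Matrix.smul_apply, smul_eq_mul,
      Matrix.add_apply, Matrix.add_apply, Matrix.mul_single_apply_of_ne (hbj := hm), add_zero] at this
    rw [this]
    congr 2
    by_cases hb : b = k
    · subst hb; simp
    · simp [hb]
  have hgh : ∀ a, ∑ b, (Units.val h⁻¹ : M) a b * (h : M) b a = 1 := fun a => by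
    rw [← Matrix.mul_apply, Units.inv_mul, Matrix.one_apply_eq]
  have hhg : ∀ a, ∑ b, (h : M) a b * (Units.val h⁻¹ : M) b a = 1 := fun a => by
    rw [← Matrix.mul_apply, Units.mul_inv, Matrix.one_apply_eq]
  by_cases hall : ∀ (k l : Fin n), k ≠ l →
      (h : M) * (1 + Matrix.single l k (-1 : F)) = (1 : F) • ((1 + Matrix.single k l (1 : F)) * (h : M))
  · let l : Fin n := ⟨0, by omega⟩
    have hrow : ∀ m, (h : M) l m = 0 := by
      intro m
      obtain ⟨k, hkl, hkm⟩ := exists_third hn l m
      have := ent k l 1 (hall k l hkl) k m (Ne.symm hkm)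
      simpa using this
    exact one_ne_zero ((hhg l).symm.trans (Finset.sum_eq_zero fun b _ => by rw [hrow, zero_mul]))
  · push Not at hall
    obtain ⟨k, l, hkl, hne⟩ := hall
    obtain ⟨c, hc⟩ := key k l hkl
    have hc1 : c ≠ 1 := fun h1 => hne (h1 ▸ hc)
    have hzero : ∀ b m, b ≠ k → m ≠ k → (h : M) b m = 0 := by
      intro b m hb hm
      have := ent k l c hc b m hm
      rw [if_neg hb, add_zero] at this
      have h0 : (1 - c) * (h : M) b m = 0 := by linear_combination this
      exact (mul_eq_zero.1 h0).resolve_left (sub_ne_zero.2 (Ne.symm hc1))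
    obtain ⟨m, hml, hmk⟩ := exists_third hn l k
    have hcol : ∀ a m', m' ≠ k →
        ∑ b, (Units.val h⁻¹ : M) a b * (h : M) b m' = (Units.val h⁻¹ : M) a k * (h : M) k m' :=
      fun a m' hm' => Finset.sum_eq_single k (fun b _ hb => by rw [hzero b m' hb hm', mul_zero]) (by simp)
    have e1 : (Units.val h⁻¹ : M) m k * (h : M) k m = 1 := by rw [← hcol m m hmk, hgh]
    have e2 : (Units.val h⁻¹ : M) m k * (h : M) k l = 0 := by
      rw [← hcol m l hkl.symm, ← Matrix.mul_apply, Units.inv_mul, Matrix.one_apply_ne hml]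
    have e3 : (Units.val h⁻¹ : M) l k * (h : M) k l = 1 := by rw [← hcol l l hkl.symm, hgh]
    rcases mul_eq_zero.1 e2 with e | e
    · rw [e, zero_mul] at e1; exact zero_ne_one e1
    · rw [e, mul_zero] at e3; exact zero_ne_one e3

/-- Automorphisms of odd order are semilinear. -/
theorem semilinear_of_odd (hn : 2 ≤ n) {φ : MulAut PSLn} (h : (orderOf φ).Coprime 2) :
    ∃ (g : GL (Fin n) F) (τ : F ≃+* F), φ = semiAut g τ := by
  obtain ⟨k, hk⟩ := exists_sq_pow_eq φ h
  obtain ⟨g, τ, hg | ⟨-, hg⟩⟩ := exists_semiAut hn φ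
  · exact ⟨g, τ, hg⟩
  · rw [← hk]
    rw [hg, gfAut_sq hn, semiAut_pow]
    exact ⟨_, _, rfl⟩

/-- The field automorphisms are good if `p` divides the number of their fixed points. -/
theorem good_field {r : ℕ} [Fact r.Prime] [CharP F r] (hn : 2 ≤ n) {p : ℕ} (hp : p.Prime) (hpr : p ≠ r)
    {σ : F ≃+* F} (hσ : orderOf σ = p) (hdvd : p ∣ Nat.card (fix (semiAut (n := n) 1 σ))) :
    Good p (semiAut (n := n) 1 σ) := by
  haveI : NeZero n := ⟨by omega⟩
  let i : fixedField σ →+* F := (fixedField σ).subtype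
  haveI : CharP (fixedField σ) r := (RingHom.charP_iff_charP i r).2 inferInstance
  let f : Matrix.SpecialLinearGroup (Fin n) (fixedField σ) →* SLn := Matrix.SpecialLinearGroup.map i
  have hcoe : ∀ x, (f x : M) = (x : Matrix (Fin n) (Fin n) (fixedField σ)).map i := fun x => rfl
  have hfinj : Function.Injective f := fun x y h =>
    Subtype.ext (Matrix.map_injective i.injective (congrArg Subtype.val h))
  have hker : (toPSL.comp f).ker = Subgroup.center _ := by
    ext x
    rw [MonoidHom.mem_ker, MonoidHom.comp_apply, ← MonoidHom.mem_ker, ker_toPSL]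
    constructor
    · intro h
      refine Subgroup.mem_center_iff.2 fun y => hfinj ?_
      rw [map_mul, map_mul]
      exact Subgroup.mem_center_iff.1 h (f y)
    · intro h
      obtain ⟨c, hc⟩ := mem_center_iff_smul.1 h
      refine mem_center_iff_smul.2 ⟨i c, ?_⟩
      rw [hcoe, hc]
      ext a b
      by_cases hab : a = b <;> simp [hab]
  have hf : ∀ x, semiSLHom (1 : GL (Fin n) F) σ (f x) = f x := fun x => Subtype.ext (by
    rw [coe_semiSLHom, inv_one, Units.val_one, Matrix.one_mul, Matrix.mul_one]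
    exact Matrix.ext fun a b => ((x : Matrix (Fin n) (Fin n) (fixedField σ)) a b).2)
  have hf' : ∀ s, semiSLHom (1 : GL (Fin n) F) σ s = s → ∃ x, f x = s := by
    intro s hs
    have hs' : (s : M).map σ = (s : M) := by
      have := congrArg Subtype.val hs
      change (semiSLHom (1 : GL (Fin n) F) σ s : M) = (s : M) at this
      rwa [coe_semiSLHom, inv_one, Units.val_one, Matrix.one_mul, Matrix.mul_one] at this
    let X : Matrix (Fin n) (Fin n) (fixedField σ) := Matrix.of fun a b =>
      ⟨(s : M) a b, mem_fixedField.2 (congrFun (congrFun hs' a) b)⟩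
    have hX : X.map i = (s : M) := rfl
    refine ⟨⟨X, i.injective ?_⟩, Subtype.ext hX⟩
    rw [map_one, RingHom.map_det, RingHom.mapMatrix_apply, hX]
    exact s.2
  have hσp : σ ^ p = 1 := hσ ▸ pow_orderOf_eq_one σ
  have hidx : p ∣ (toPSL.comp f).ker.index := by
    refine dvd_index toPSL toPSL_surjective ker_toPSL.le (semiSLHom 1 σ) (fun s => semiAut_cl 1 σ s) hp f hf'
      hdvd fun hd => ?_
    rw [ker_toPSL] at hd
    haveI : Fact p.Prime := ⟨hp⟩
    obtain ⟨z, hz⟩ := exists_prime_orderOf_dvd_card' p hd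
    obtain ⟨c, hc⟩ := mem_center_iff_smul.1 z.2
    have hzp : (z : SLn) ^ p = 1 := by
      rw [← SubgroupClass.coe_pow, ← hz, pow_orderOf_eq_one, OneMemClass.coe_one]
    have hcp : c ^ p = 1 := by
      have h1 := congrArg (Subtype.val : SLn → M) hzp
      rw [Matrix.SpecialLinearGroup.coe_pow, hc, smul_pow, one_pow, Matrix.SpecialLinearGroup.coe_one] at h1
      simpa using congrFun (congrFun h1 0) 0
    have hcne : c ≠ 1 := by
      rintro rfl
      have : z = 1 := Subtype.ext (Subtype.ext (by rw [hc, one_smul]; rfl))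
      rw [this, orderOf_one] at hz
      exact hp.ne_one hz.symm
    have hc0 : c ≠ 0 := fun h => by rw [h, zero_pow hp.ne_zero] at hcp; exact zero_ne_one hcp
    let c₀ : fixedField σ := ⟨c, fix_root_of_unity hp hσp hcp⟩
    have hc₀ : c₀ ≠ 0 := fun h => hc0 (congrArg Subtype.val h)
    have hnot : ∀ x, (∃ a b, a ≠ b ∧ (f x : M) a b ≠ 0) ∨ (∃ a b, (f x : M) a a ≠ (f x : M) b b) →
        toPSL (f x) ≠ 1 := by
      intro x hx h1
      have h2 : f x ∈ Subgroup.center SLn := by rw [← ker_toPSL]; exact h1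
      obtain ⟨a, ha⟩ := mem_center_iff_smul.1 h2
      rcases hx with ⟨k, l, hkl, h⟩ | ⟨k, l, h⟩
      · exact h (by rw [ha]; simp [hkl])
      · exact h (by rw [ha]; simp)
    let k₀ : Fin n := ⟨0, by omega⟩
    let l₀ : Fin n := ⟨1, by omega⟩
    have hkl : k₀ ≠ l₀ := by simp [k₀, l₀, Fin.ext_iff]
    by_cases hn3 : 3 ≤ n
    · let m₀ : Fin n := ⟨2, by omega⟩
      let T : Matrix.SpecialLinearGroup (Fin n) (fixedField σ) := ⟨torus c₀ k₀ l₀, det_torus hc₀ hkl⟩
      refine ⟨T, hnot T (Or.inr ⟨k₀, m₀, ?_⟩), ?_⟩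
      · show (torus c₀ k₀ l₀).map i k₀ k₀ ≠ (torus c₀ k₀ l₀).map i m₀ m₀
        have h1 : m₀ ≠ k₀ := by simp [k₀, m₀, Fin.ext_iff]
        have h2 : m₀ ≠ l₀ := by simp [l₀, m₀, Fin.ext_iff]
        simp only [Matrix.map_apply, torus, Matrix.diagonal_apply_eq, if_true, if_neg h1, if_neg h2, map_one]
        exact hcne
      · have e : T ^ p = 1 := by
          refine Subtype.ext ?_
          rw [Matrix.SpecialLinearGroup.coe_pow]
          show torus c₀ k₀ l₀ ^ p = 1
          rw [torus, Matrix.diagonal_pow, ← Matrix.diagonal_one]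
          congr 1
          funext a
          have hc₀p : c₀ ^ p = 1 := Subtype.ext (by rw [SubmonoidClass.coe_pow]; exact hcp)
          rw [Pi.pow_apply]
          split_ifs <;> simp [hc₀p]
        rw [← map_pow, ← map_pow, e, map_one, map_one]
    · obtain rfl : n = 2 := by omega
      have hp2 : p = 2 := by
        have h2 : c ^ 2 = 1 := by
          have := z.1.2
          rw [hc, Matrix.det_smul, Matrix.det_one, mul_one, Fintype.card_fin] at this
          exact this
        have hord : orderOf c = p := haveI := Fact.mk hp; orderOf_eq_prime hcp hcne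
        exact (Nat.prime_dvd_prime_iff_eq hp Nat.prime_two).1 (hord ▸ orderOf_dvd_of_pow_eq_one h2)
      subst hp2
      let T : Matrix.SpecialLinearGroup (Fin 2) (fixedField σ) := ⟨swap k₀ l₀, det_swap hkl⟩
      refine ⟨T, hnot T (Or.inl ⟨k₀, l₀, hkl, ?_⟩), ?_⟩
      · show (swap k₀ l₀ : Matrix (Fin 2) (Fin 2) (fixedField σ)).map i k₀ l₀ ≠ 0
        simp [swap]
      · rw [← map_pow, ← map_pow, ← MonoidHom.mem_ker, ker_toPSL]
        refine mem_center_iff_smul.2 ⟨-1, ?_⟩
        rw [hcoe, Matrix.SpecialLinearGroup.coe_pow, sq]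
        show (swap k₀ l₀ * swap k₀ l₀ : Matrix (Fin 2) (Fin 2) (fixedField σ)).map i = _
        rw [swap_eq_blockTwo hkl, blockTwo_mul hkl]
        ext a b
        fin_cases a <;> fin_cases b <;> simp [blockTwo, k₀, l₀]
  refine Good.of_lift toPSL toPSL_surjective ker_toPSL.le (semiSLHom 1 σ) (fun s => semiAut_cl 1 σ s) f hf hf'
    ?_ ?_
  · rw [hker] at hidx ⊢
    exact coreless_sl (r := r) hn hp hpr hidx
  intro φ _ hcop hfix
  obtain ⟨h, τ, hφ⟩ : ∃ (h : GL (Fin n) F) (τ : F ≃+* F), φ = semiAut h τ := by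
    obtain ⟨h, τ, hg | ⟨h3, hg⟩⟩ := exists_semiAut hn φ
    · exact ⟨h, τ, hg⟩
    refine (not_fix_graph h3 h τ fun k l hkl => ?_).elim
    have e : f (SpecialLinearGroup.transvection hkl 1) = SpecialLinearGroup.transvection hkl (1 : F) :=
      Subtype.ext (by
        show (Matrix.transvection k l (1 : fixedField σ)).map i = Matrix.transvection k l 1
        rw [Matrix.transvection, Matrix.map_add _ (map_add i), Matrix.map_one _ (map_zero i) (map_one i),
          Matrix.map_single, map_one]
        rfl)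
    rw [← e, ← hg]
    exact hfix _
  haveI : Nontrivial (Fin n) := Fin.nontrivial_iff_two_le.2 hn
  obtain ⟨⟨a, ha⟩, hj⟩ := rigid_of_transvections i
    (Set.range fun x : Matrix.SpecialLinearGroup (Fin n) (fixedField σ) =>
      (x : Matrix (Fin n) (Fin n) (fixedField σ)))
    (fun k l hkl a => ⟨SpecialLinearGroup.transvection hkl a, rfl⟩)
    (h : M) (τ.toRingHom.comp i) h.isUnit (by
      rintro _ ⟨x, rfl⟩
      have h1 := hfix x
      rw [hφ, toPSL_apply] at h1
      obtain ⟨c, hc⟩ := inter_of_fixed h1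
      exact ⟨c, by rwa [hcoe, Matrix.map_map] at hc⟩)
  have hτ : τ ^ p = 1 := pow_eq_one_of_fix hσ fun x hx => DFunLike.congr_fun hj ⟨x, hx⟩
  have hh : h ∈ Cfsg.Geo.scalars (Fin n) F := by
    refine (Cfsg.Geo.mem_scalars_iff _).2 ⟨Units.mk0 a ?_, ha⟩
    exact ne_zero_of_eq_smul (by omega) h.isUnit ha
  have hφ' : φ = semiAut 1 τ := hφ.trans ((semiAut_eq_semiAut_iff hn).2 ⟨rfl, by simpa using inv_mem hh⟩)
  have hpow : φ ^ p = 1 := by
    rw [hφ', ← orderOf_dvd_iff_pow_eq_one, orderOf_semiAut_one hn, orderOf_dvd_iff_pow_eq_one]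
    exact hτ
  have h2 := Nat.dvd_gcd (dvd_refl (orderOf φ)) (orderOf_dvd_of_pow_eq_one hpow)
  rw [hcop.gcd_eq_one, Nat.dvd_one, orderOf_eq_one_iff] at h2
  exact h2

end CfsgLib.LocalBalance
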