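import Cfsg.Agent.Lib.LocalBalance.LinearCases

/-!
# Good automorphisms of `PSL_n(F)`: graph-field and graph involutions
-/

set_option autoImplicit false
set_option linter.unusedSectionVars false
set_option linter.style.haveILetI false

open Matrix
open CfsgLib.ReflectionsSpinor CfsgLib.ReflectionsSpinor.PSL

universe u v

namespace CfsgLib.LocalBalance

variable {n : ℕ} {F : Type u} [Field F] [Finite F]

local notation "M" => Matrix (Fin n) (Fin n) F
local notation "SLn" => Matrix.SpecialLinearGroup (Fin n) F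
local notation "PSLn" => Matrix.ProjectiveSpecialLinearGroup (Fin n) F

/-- The lift of `semiAut g σ * invTr`. -/
noncomputable def graphLift (g : GL (Fin n) F) (σ : F ≃+* F) : SLn →* SLn :=
  (semiSLHom g σ).comp invTrSL.toMonoidHom

theorem coe_graphLift (g : GL (Fin n) F) (σ : F ≃+* F) (s : SLn) :
    (graphLift g σ s : M) = (g : M) * (((s⁻¹ : SLn) : M)ᵀ).map σ * (Units.val g⁻¹ : M) := rfl

theorem graphLift_comp (g : GL (Fin n) F) (σ : F ≃+* F) (s : SLn) :
    (semiAut g σ * invTr : MulAut PSLn) (toPSL s) = toPSL (graphLift g σ s) := rfl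

theorem inv_transpose_eq {s : SLn} {Y : M} : ((s⁻¹ : SLn) : M)ᵀ = Y ↔ (s : M)ᵀ * Y = 1 := by
  have h1 : (s : M)ᵀ * ((s⁻¹ : SLn) : M)ᵀ = 1 := by
    rw [← Matrix.transpose_mul, ← Matrix.SpecialLinearGroup.coe_mul, inv_mul_cancel,
      Matrix.SpecialLinearGroup.coe_one, Matrix.transpose_one]
  refine ⟨fun h => h ▸ h1, fun h => ?_⟩
  calc ((s⁻¹ : SLn) : M)ᵀ = ((s⁻¹ : SLn) : M)ᵀ * ((s : M)ᵀ * Y) := by rw [h, Matrix.mul_one]
    _ = Y := by rw [← Matrix.mul_assoc, mul_eq_one_comm.1 h1, Matrix.one_mul]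

theorem sl_eq_iff {s t : SLn} : s = t ↔ (s : M) = (t : M) := ⟨congrArg _, Subtype.ext⟩

/-- The rigid part of goodness, for a group of matrices over the whole field. -/
theorem eq_one_of_rigid {H : Type v} [Group H] (hn : 2 ≤ n) (f : H →* SLn)
    (hrigid : Rigid (RingHom.id F) (Set.range fun x => (f x : M))) {φ : MulAut PSLn}
    (hcop : (orderOf φ).Coprime 2) (hfix : ∀ x, φ (toPSL (f x)) = toPSL (f x)) : φ = 1 := by
  obtain ⟨h, τ, rfl⟩ := semilinear_of_odd hn hcop
  obtain ⟨⟨a, ha⟩, hj⟩ := hrigid (h : M) τ.toRingHom h.isUnit (by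
    rintro _ ⟨x, rfl⟩
    have h1 := hfix x
    rw [toPSL_apply] at h1
    obtain ⟨c, hc⟩ := inter_of_fixed h1
    refine ⟨c, ?_⟩
    show (h : M) * (f x : M).map τ = c • ((f x : M).map id * (h : M))
    rwa [Matrix.map_id])
  refine (semiAut_eq_one_iff hn).2 ⟨RingEquiv.ext fun x => DFunLike.congr_fun hj x, ?_⟩
  exact (Cfsg.Geo.mem_scalars_iff _).2 ⟨Units.mk0 a (ne_zero_of_eq_smul (by omega) h.isUnit ha), ha⟩

/-- The graph-field involutions are good. -/
theorem good_gf {r : ℕ} [Fact r.Prime] [CharP F r] (hn : 3 ≤ n) (hr : (2 : ℕ) ≠ r) {σ : F ≃+* F}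
    (hσ : σ ≠ 1) (hσ2 : σ * σ = 1) : Good 2 (semiAut (n := n) 1 σ * invTr) := by
  haveI : NeZero n := ⟨by omega⟩
  have hord : orderOf σ = 2 := orderOf_eq_prime (by rw [sq]; exact hσ2) hσ
  set q₀ := Nat.card (fixedField σ) with hq₀
  have hF : Nat.card F = q₀ ^ 2 := card_eq_fixedField_pow σ hord
  let c : CfsgLib.ClassicalForms.Conj F q₀ :=
    { σ := σ.toRingHom
      apply := fun x => involution_eq_pow hord hq₀.symm x
      invol := fun x => DFunLike.congr_fun hσ2 x
      ne := fun h => hσ (RingEquiv.ext fun x => DFunLike.congr_fun h x) }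
  have hmem : ∀ s : SLn, graphLift 1 σ s = s ↔ s ∈ Cfsg.SU n F q₀ := by
    intro s
    rw [mem_su_iff c, ← inv_transpose_eq, sl_eq_iff]
    change (graphLift 1 σ s : M) = (s : M) ↔ _
    rw [coe_graphLift, inv_one, Units.val_one, Matrix.one_mul, Matrix.mul_one]
    have hinv : ∀ X : M, (X.map σ).map σ = X := fun X => Matrix.ext fun a b => DFunLike.congr_fun hσ2 _
    constructor
    · intro h
      conv_rhs => rw [← h]
      exact (hinv _).symm
    · intro h
      show (((s⁻¹ : SLn) : M)ᵀ).map σ = (s : M)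
      rw [h]
      exact hinv _
  have hker : (toPSL.comp (Cfsg.SU n F q₀).subtype).ker = Subgroup.center (Cfsg.SU n F q₀) := by
    rw [center_su hF (by omega), ← MonoidHom.comap_ker, ker_toPSL]
    rfl
  refine Good.of_lift toPSL toPSL_surjective ker_toPSL.le (graphLift 1 σ) (graphLift_comp 1 σ)
    (Cfsg.SU n F q₀).subtype (fun x => (hmem _).2 x.2) (fun s hs => ⟨⟨s, (hmem s).1 hs⟩, rfl⟩) ?_ ?_
  · rw [hker]
    have hm1 : (-1 : F) ≠ 1 := fun e => by
      have h2 : ((2 : ℕ) : F) = 0 := by push_cast; linear_combination -e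
      exact hr ((Nat.prime_dvd_prime_iff_eq Fact.out Nat.prime_two).1 ((CharP.cast_eq_zero_iff F r 2).1 h2)).symm
    let k₀ : Fin n := ⟨0, by omega⟩
    let l₀ : Fin n := ⟨1, by omega⟩
    let m₀ : Fin n := ⟨2, by omega⟩
    have hkl : k₀ ≠ l₀ := by simp [k₀, l₀, Fin.ext_iff]
    let T : Cfsg.SU n F q₀ := ⟨⟨torus (-1 : F) k₀ l₀, det_torus (neg_ne_zero.2 one_ne_zero) hkl⟩,
      (mem_su_iff c _).2 (torus_unitary (by simp) k₀ l₀)⟩
    refine coreless_su (r := r) hF hn Nat.prime_two hr (two_dvd_index _ (t := T) ?_ ?_)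
    · rw [center_su hF (by omega), Subgroup.mem_subgroupOf, mem_center_iff_smul]
      rintro ⟨a, ha⟩
      have e1 : torus (-1 : F) k₀ l₀ k₀ k₀ = (a • (1 : M)) k₀ k₀ := congrFun (congrFun ha k₀) k₀
      have e2 : torus (-1 : F) k₀ l₀ m₀ m₀ = (a • (1 : M)) m₀ m₀ := congrFun (congrFun ha m₀) m₀
      have h1 : m₀ ≠ k₀ := by simp [k₀, m₀, Fin.ext_iff]
      have h2 : m₀ ≠ l₀ := by simp [l₀, m₀, Fin.ext_iff]
      simp only [torus, Matrix.diagonal_apply_eq, if_true, if_neg h1, if_neg h2, Matrix.smul_apply,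
        Matrix.one_apply_eq, smul_eq_mul, mul_one] at e1 e2
      exact hm1 (e1.trans e2.symm)
    · rw [show T * T = 1 from Subtype.ext (Subtype.ext (by
        show torus (-1 : F) k₀ l₀ * torus (-1 : F) k₀ l₀ = 1
        rw [torus, Matrix.diagonal_mul_diagonal, ← Matrix.diagonal_one]
        congr 1; funext a; split_ifs <;> simp))]
      exact one_mem _
  intro φ _ hcop hfix
  obtain ⟨u, hu, hu1, -⟩ := CfsgLib.ClassicalForms.exists_norm_one_ne hF c
  refine eq_one_of_rigid (by omega) (Cfsg.SU n F q₀).subtype ?_ hcop hfix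
  refine rigid_unitary hn (RingHom.id F) c.σ c.invol (fun y hy => c.exists_norm hy) hu hu1 _
    fun X hX hdet => ?_
  exact ⟨⟨⟨X, hdet⟩, (mem_su_iff c _).2 hX⟩, rfl⟩

/-- A graph involution is good, given the structure of the isometry group of its form. -/
theorem good_gr {H : Type v} [Group H] (hn : 3 ≤ n) (A : GL (Fin n) F) (f : H →* SLn)
    (hf : ∀ x, (f x : M)ᵀ * (A : M) * (f x : M) = (A : M))
    (hf' : ∀ s : SLn, (s : M)ᵀ * (A : M) * (s : M) = (A : M) → ∃ x, f x = s)
    (hcore : Coreless 2 (toPSL.comp f).ker)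
    (hrigid : Rigid (RingHom.id F) (Set.range fun x => (f x : M))) : Good 2 (gr A) := by
  have hfixed : ∀ s : SLn, graphLift A⁻¹ 1 s = s ↔ (s : M)ᵀ * (A : M) * (s : M) = (A : M) := by
    intro s
    rw [sl_eq_iff]
    change (graphLift A⁻¹ 1 s : M) = (s : M) ↔ _
    rw [coe_graphLift, inv_inv, show (((s⁻¹ : SLn) : M)ᵀ).map (⇑(1 : F ≃+* F)) = ((s⁻¹ : SLn) : M)ᵀ by
      ext a b; rfl]
    have h1 : (s : M)ᵀ * ((s⁻¹ : SLn) : M)ᵀ = 1 := inv_transpose_eq.1 rfl
    constructor
    · intro h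
      conv_lhs => arg 2; rw [← h]
      rw [← Matrix.mul_assoc, ← Matrix.mul_assoc, Matrix.mul_assoc (s : M)ᵀ (A : M), Units.mul_inv,
        Matrix.mul_one, h1, Matrix.one_mul]
    · intro h
      calc (Units.val A⁻¹ : M) * ((s⁻¹ : SLn) : M)ᵀ * (A : M)
          = (Units.val A⁻¹ : M) * ((s⁻¹ : SLn) : M)ᵀ * ((s : M)ᵀ * (A : M) * (s : M)) := by rw [h]
        _ = (Units.val A⁻¹ : M) * (((s⁻¹ : SLn) : M)ᵀ * (s : M)ᵀ) * (A : M) * (s : M) := by
          simp only [Matrix.mul_assoc]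
        _ = _ := by rw [mul_eq_one_comm.1 h1, Matrix.mul_one, Units.inv_mul, Matrix.one_mul]
  refine Good.of_lift toPSL toPSL_surjective ker_toPSL.le (graphLift A⁻¹ 1) (graphLift_comp A⁻¹ 1)
    f (fun x => (hfixed _).2 (hf x)) (fun s hs => hf' s ((hfixed s).1 hs)) hcore ?_
  exact fun φ _ hcop hfix => eq_one_of_rigid (by omega) f hrigid hcop hfix

/-- The orthogonal graph involutions are good. -/
theorem good_gr_orth {k : ℕ} (hk : 2 ≤ k) (h2 : (2 : F) ≠ 0) (D : GL (Fin (k + 1)) F) {d : F} (hd : d ≠ 0)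
    (hD : (D : Matrix (Fin (k + 1)) (Fin (k + 1)) F) = diagForm k d) : Good 2 (gr D) := by
  have hdne : ∀ a : Fin (k + 1), (if a = Fin.last k then d else 1) ≠ (0 : F) := fun a => by
    split_ifs <;> simp [hd]
  refine good_gr (by omega) D (isomSL (diagForm k d)).subtype (fun x => by rw [hD]; exact x.2)
    (fun s hs => ⟨⟨s, by rw [hD] at hs; exact hs⟩, rfl⟩) ?_ ?_
  · rw [← MonoidHom.comap_ker, ker_toPSL]
    exact coreless_orth h2 hdne (by rw [Fintype.card_fin]; omega)
  · obtain ⟨a, b, ha, hab⟩ := exists_sum_sq h2 hd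
    exact rigid_orth hk h2 (RingHom.id F) hd hab ha _ fun X hX hdet => ⟨⟨⟨X, hdet⟩, hX⟩, rfl⟩

/-- The symplectic graph involutions are good. -/
theorem good_gr_symp {m : ℕ} (hm : 2 ≤ m) (h2 : (2 : F) ≠ 0) (e : Fin m ⊕ Fin m ≃ Fin n) (A : GL (Fin n) F)
    (hA : (A : M) = Matrix.reindex e e (Matrix.J (Fin m) F)) : Good 2 (gr A) := by
  have hn : 3 ≤ n := by
    have := Fintype.card_congr e
    simp at this
    omega
  let f : Matrix.symplecticGroup (Fin m) F →* SLn :=
    { toFun := fun X => ⟨Matrix.reindex e e X.1, by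
        rw [Matrix.det_reindex_self]; exact SymplecticGroup.det_eq_one X.2⟩
      map_one' := Subtype.ext (by simp [Matrix.reindex_apply])
      map_mul' := fun X Y => Subtype.ext (by
        show Matrix.reindex e e (X.1 * Y.1) = Matrix.reindex e e X.1 * Matrix.reindex e e Y.1
        rw [Matrix.reindex_apply, Matrix.reindex_apply, Matrix.reindex_apply, Matrix.submatrix_mul_equiv]) }
  have hfinj : Function.Injective f := fun X Y h =>
    Subtype.ext ((Matrix.reindex e e).injective (congrArg (Subtype.val : SLn → M) h))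
  have hcoe : ∀ X, (f X : M) = Matrix.reindex e e X.1 := fun X => rfl
  refine good_gr hn A f (fun X => ?_) (fun s hs => ?_) ?_ ?_
  · rw [hcoe, hA, Matrix.reindex_apply, Matrix.reindex_apply, Matrix.transpose_submatrix,
      Matrix.submatrix_mul_equiv, Matrix.submatrix_mul_equiv, SymplecticGroup.mem_iff'.1 X.2]
  · rw [hA, Matrix.reindex_apply] at hs
    refine ⟨⟨(s : M).submatrix e e, SymplecticGroup.mem_iff'.2 ?_⟩, Subtype.ext ?_⟩
    · have h1 := congrArg (fun Y : M => Y.submatrix e e) hs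
      beta_reduce at h1
      rw [← Matrix.submatrix_mul_equiv _ _ e e e, ← Matrix.submatrix_mul_equiv _ _ e e e,
        Matrix.submatrix_submatrix, Equiv.symm_comp_self, Matrix.submatrix_id_id,
        ← Matrix.transpose_submatrix] at h1
      exact h1
    · rw [hcoe, Matrix.reindex_apply, Matrix.submatrix_submatrix, Equiv.self_comp_symm, Matrix.submatrix_id_id]
  · have hker : (toPSL.comp f).ker = Subgroup.center (Matrix.symplecticGroup (Fin m) F) := by
      ext X
      rw [MonoidHom.mem_ker, MonoidHom.comp_apply, ← MonoidHom.mem_ker, ker_toPSL]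
      constructor
      · intro h
        refine Subgroup.mem_center_iff.2 fun Y => hfinj ?_
        rw [map_mul, map_mul]
        exact Subgroup.mem_center_iff.1 h (f Y)
      · intro h
        rcases (CfsgLib.ClassicalLinear.mem_center_sp_iff (by omega)).1 h with h | h
        · exact mem_center_iff_smul.2 ⟨1, by rw [hcoe, h, Matrix.reindex_apply]; simp⟩
        · exact mem_center_iff_smul.2 ⟨-1, by rw [hcoe, h, Matrix.reindex_apply]; simp [Matrix.submatrix_neg]⟩
    rw [hker]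
    exact coreless_sp hm h2
  · refine Rigid.reindex e (rigid_symp hm (RingHom.id F)
      (Set.range fun X : Matrix.symplecticGroup (Fin m) F => X.1)
      (fun X hX _ => ⟨⟨X, SymplecticGroup.mem_iff.2 hX⟩, rfl⟩)) ?_
    rintro _ ⟨X, rfl⟩
    exact ⟨X, rfl⟩

end CfsgLib.LocalBalance
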