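import Cfsg.Agent.Lib.LocalBalance.UnitaryCases
import Cfsg.Agent.S0282

/-!
# Failure of local balance in almost simple groups with socle `PSU_n(q)`
-/

set_option autoImplicit false
set_option linter.unusedSectionVars false
set_option linter.style.haveILetI false

open Matrix
open CfsgLib.ReflectionsSpinor CfsgLib.ReflectionsSpinor.PSUAut CfsgLib.ClassicalForms

universe u

namespace CfsgLib.LocalBalance

variable {n q : ℕ} {F : Type u} [Field F] [Fintype F]

local notation "M" => Matrix (Fin n) (Fin n) F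
local notation "GUn" => Cfsg.GU n F q
local notation "PU" => Cfsg.PSU n F q

theorem not_isMulCommutative_psu (hF : Fintype.card F = q ^ 2) (hn : 3 ≤ n) (hs : ¬ (n = 3 ∧ q = 2)) :
    ¬ IsMulCommutative PU := by
  intro h
  obtain ⟨c⟩ := exists_conj (show Nat.card F = q ^ 2 by rw [Nat.card_eq_fintype_card, hF])
  let k₀ : Fin n := ⟨0, by omega⟩
  let l₀ : Fin n := ⟨1, by omega⟩
  have hkl : k₀ ≠ l₀ := by simp [k₀, l₀, Fin.ext_iff]
  let s : Cfsg.SU n F q := ⟨⟨swap k₀ l₀, det_swap hkl⟩, (mem_su_iff c _).2 (swap_unitary c.σ hkl)⟩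
  have h1 : MulAut.conj (PSUAut.cl s) = 1 := MulEquiv.ext fun x => by
    rw [MulAut.conj_apply, h.is_comm.comm (PSUAut.cl s) x, mul_inv_cancel_right, MulAut.one_apply]
  rw [PSUAut.inner_eq_semiAut, PSUAut.semiAut_eq_one_iff hF hn hs] at h1
  obtain ⟨a, ha⟩ := (Cfsg.Geo.mem_scalars_iff _).1 h1.2
  have h2 : (swap k₀ l₀ : M) k₀ l₀ = ((a : F) • (1 : M)) k₀ l₀ := congrFun (congrFun ha k₀) l₀
  simp [swap, hkl] at h2

theorem not_three_two (hF : Fintype.card F = q ^ 2) [IsSimpleGroup PU] : ¬ (n = 3 ∧ q = 2) := by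
  rintro ⟨rfl, rfl⟩
  obtain ⟨h72, hsol⟩ := Cfsg.Agent.S0282.result (F := F) (by rw [hF]; norm_num)
  letI : CommGroup (Cfsg.PSU 3 F 2) :=
    { (inferInstance : Group (Cfsg.PSU 3 F 2)) with
      mul_comm := IsSimpleGroup.comm_iff_isSolvable.2 hsol }
  have hp := IsSimpleGroup.prime_card (α := Cfsg.PSU 3 F 2)
  rw [h72] at hp
  norm_num at hp

/-- The orthogonal and symplectic graph involutions are good. -/
theorem good_graph_psu (hF : Fintype.card F = q ^ 2) (hn : 3 ≤ n) (hs : ¬ (n = 3 ∧ q = 2)) (c : Conj F q)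
    (h2 : (2 : F) ≠ 0) (γ : MulAut PU) (hγ : Cfsg.IsGraphAutClassPSU γ) (hγ2 : orderOf γ = 2) :
    Good 2 γ := by
  set F₀ := fixedField (conjE c) with hF₀
  let i : F₀ →+* F := F₀.subtype
  have h20 : (2 : F₀) ≠ 0 := fun e => h2 (by
    have := congrArg i e
    rwa [map_ofNat, map_zero] at this)
  obtain ⟨g, B, rfl, hB, hM⟩ :=
    exists_model c hF hn hs i (fun y hy => ⟨⟨y, hy⟩, rfl⟩) hγ hγ2
  have hi : ∀ x, conjE c (i x) = i x := fun x => x.2
  rcases hB with hsym | halt
  · obtain ⟨k, rfl⟩ : ∃ k, n = k + 1 := ⟨n - 1, by omega⟩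
    obtain ⟨α, hα⟩ := CfsgLib.ReflectionsSpinor.exists_nonsquare h20
    obtain ⟨P, d, hd, hP⟩ := exists_congr_diagonal h20 α hα B hsym
    have hd0 : d ≠ 0 := by
      rcases hd with rfl | rfl
      · exact one_ne_zero
      · exact fun h => hα (h ▸ IsSquare.zero)
    have hdne : ∀ a : Fin (k + 1), (if a = Fin.last k then d else 1) ≠ (0 : F₀) := fun a => by
      split_ifs <;> simp [hd0]
    have hM' := isModel_congr hi hM P 1 (B' := diagForm k d) (by rw [Units.val_one, one_smul]; exact hP)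
    refine good_model hF hn hs c hM' (isomSL (diagForm k d)).subtype (fun x => x.2)
      (fun X hX => ⟨⟨X, hX⟩, rfl⟩) (coreless_orth h20 hdne (by rw [Fintype.card_fin]; omega)) ?_
    obtain ⟨a, b, ha, hab⟩ := exists_sum_sq h20 hd0
    exact rigid_orth (by omega) h20 _ hd0 hab ha _ fun X hX hdet => ⟨⟨⟨X, hdet⟩, hX⟩, rfl⟩
  · have hdiag : ∀ a, (Units.val B : Matrix (Fin n) (Fin n) F₀) a a = 0 := fun a => by
      have := congrFun (congrFun halt a) a
      rw [Matrix.transpose_apply, Matrix.neg_apply] at this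
      exact (mul_eq_zero.1 (show (2 : F₀) * (Units.val B : Matrix (Fin n) (Fin n) F₀) a a = 0 by
        linear_combination this)).resolve_left h20
    obtain ⟨m, hm⟩ : Even n := by
      by_contra hodd
      rw [Nat.not_even_iff_odd] at hodd
      have h1 := congrArg Matrix.det halt
      rw [Matrix.det_transpose, Matrix.det_neg, Fintype.card_fin, hodd.neg_one_pow] at h1
      exact ((Matrix.isUnit_iff_isUnit_det _).1 B.isUnit).ne_zero ((mul_eq_zero.1
        (show (2 : F₀) * (Units.val B : Matrix (Fin n) (Fin n) F₀).det = 0 by linear_combination h1)).resolve_left h20)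
    have hm2 : 2 ≤ m := by omega
    let e : Fin m ⊕ Fin m ≃ Fin n := finSumFinEquiv.trans (finCongr hm.symm)
    obtain ⟨P, d, hP⟩ := (scalCong_J e B halt hdiag).symm
    have hM' := isModel_congr hi hM P d hP
    let f₀ : Matrix.symplecticGroup (Fin m) F₀ →* Matrix.SpecialLinearGroup (Fin n) F₀ :=
      { toFun := fun X => ⟨Matrix.reindex e e X.1, by
          rw [Matrix.det_reindex_self]; exact SymplecticGroup.det_eq_one X.2⟩
        map_one' := Subtype.ext (by simp [Matrix.reindex_apply])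
        map_mul' := fun X Y => Subtype.ext (by
          show Matrix.reindex e e (X.1 * Y.1) = Matrix.reindex e e X.1 * Matrix.reindex e e Y.1
          rw [Matrix.reindex_apply, Matrix.reindex_apply, Matrix.reindex_apply, Matrix.submatrix_mul_equiv]) }
    have hcoe : ∀ X, (f₀ X : Matrix (Fin n) (Fin n) F₀) = Matrix.reindex e e X.1 := fun X => rfl
    have hinj : Function.Injective f₀ := fun X Y h => Subtype.ext ((Matrix.reindex e e).injective
      (congrArg (Subtype.val : Matrix.SpecialLinearGroup (Fin n) F₀ → Matrix (Fin n) (Fin n) F₀) h))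
    refine good_model hF hn hs c hM' f₀ (fun X => ?_) (fun X hX => ?_) ?_ ?_
    · rw [hcoe, Matrix.reindex_apply, Matrix.reindex_apply, Matrix.transpose_submatrix,
        Matrix.submatrix_mul_equiv, Matrix.submatrix_mul_equiv, SymplecticGroup.mem_iff'.1 X.2]
    · rw [Matrix.reindex_apply] at hX
      refine ⟨⟨(X : Matrix (Fin n) (Fin n) F₀).submatrix e e, SymplecticGroup.mem_iff'.2 ?_⟩, Subtype.ext ?_⟩
      · have h1 := congrArg (fun Y : Matrix (Fin n) (Fin n) F₀ => Y.submatrix e e) hX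
        beta_reduce at h1
        rw [← Matrix.submatrix_mul_equiv _ _ e e e, ← Matrix.submatrix_mul_equiv _ _ e e e,
          Matrix.submatrix_submatrix, Equiv.symm_comp_self, Matrix.submatrix_id_id,
          ← Matrix.transpose_submatrix] at h1
        exact h1
      · rw [hcoe, Matrix.reindex_apply, Matrix.submatrix_submatrix, Equiv.self_comp_symm, Matrix.submatrix_id_id]
    · convert coreless_sp (m := m) hm2 h20
      ext X
      rw [Subgroup.mem_comap]
      constructor
      · intro h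
        refine Subgroup.mem_center_iff.2 fun Y => hinj ?_
        rw [map_mul, map_mul]
        exact Subgroup.mem_center_iff.1 h (f₀ Y)
      · intro h
        rcases (CfsgLib.ClassicalLinear.mem_center_sp_iff (by omega)).1 h with h | h
        · exact PSL.mem_center_iff_smul.2 ⟨1, by rw [hcoe, h, Matrix.reindex_apply]; simp⟩
        · exact PSL.mem_center_iff_smul.2 ⟨-1, by rw [hcoe, h, Matrix.reindex_apply]; simp [Matrix.submatrix_neg]⟩
    · refine Rigid.reindex e (rigid_symp hm2 i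
        (Set.range fun X : Matrix.symplecticGroup (Fin m) F₀ => X.1)
        (fun X hX _ => ⟨⟨X, SymplecticGroup.mem_iff.2 hX⟩, rfl⟩)) ?_
      rintro _ ⟨X, rfl⟩
      exact ⟨X, rfl⟩

/-- Failure of local balance for socle `PSU_n(q)`. -/
theorem unitary_criterion {r : ℕ} [Fact r.Prime] [CharP F r] (hF : Fintype.card F = q ^ 2) (hn : 3 ≤ n)
    [IsSimpleGroup PU] (𝒢 : Subgroup (MulAut PU)) (hinn : ∀ k : PU, MulAut.conj k ∈ 𝒢) {p : ℕ}
    [Fact p.Prime] (hpr : p ≠ r) (β : MulAut PU) (hord : orderOf β = p)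
    (hnot : ¬ Cfsg.IsInnerDiagonalAutPSU β) :
    Cfsg.pPrimeCore p ↥(𝒢 ⊓ Subgroup.centralizer {β}) ≠ ⊥ ↔
      ((∃ γ φ : MulAut PU, Cfsg.IsInnerDiagonalAutPSU γ ∧ (∃ σ : F ≃+* F, Cfsg.IsFieldAutPSUOf σ φ) ∧
        β = φ.trans γ) ∧ Nat.Coprime p (Nat.card (fix β))) := by
  have hp : p.Prime := Fact.out
  have hs := not_three_two (n := n) hF
  have hna := not_isMulCommutative_psu hF hn hs
  have hF' : Nat.card F = q ^ 2 := by rw [Nat.card_eq_fintype_card, hF]
  obtain ⟨g, σ, rfl⟩ := CfsgLib.ClassicalAut.Unitary.exists_semiAut_psu hF hn hs β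
  have hfield : ∃ γ φ : MulAut PU, Cfsg.IsInnerDiagonalAutPSU γ ∧ (∃ τ : F ≃+* F, Cfsg.IsFieldAutPSUOf τ φ) ∧
      PSUAut.semiAut g σ = φ.trans γ :=
    ⟨PSUAut.semiAut g 1, PSUAut.semiAut 1 σ, PSUAut.isInnerDiagonal_iff.2 ⟨g, rfl⟩,
      ⟨σ, PSUAut.isFieldAutOf_iff.2 rfl⟩, by
        show _ = PSUAut.semiAut g 1 * PSUAut.semiAut 1 σ
        rw [PSUAut.semiAut_mul, map_one, mul_one, one_mul]⟩
  have hσ1 : σ ≠ 1 := fun h => hnot (PSUAut.isInnerDiagonal_iff.2 ⟨g, by rw [h]⟩)
  have hpow : PSUAut.semiAut g σ ^ p = 1 := hord ▸ pow_orderOf_eq_one _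
  have hσp : orderOf σ = p := by
    have h1 := hpow
    rw [PSUAut.semiAut_pow, PSUAut.semiAut_eq_one_iff hF hn hs] at h1
    exact orderOf_eq_prime h1.1 hσ1
  refine ⟨fun hne => ⟨hfield, ?_⟩, fun h => core_ne_bot hna hinn hp hord h.2⟩
  rw [hp.coprime_iff_not_dvd]
  intro hdvd
  refine hne (core_eq_bot (center_eq_bot hna) ?_ hinn)
  rcases hp.eq_two_or_odd' with rfl | hodd
  · obtain ⟨c⟩ := exists_conj hF'
    have h2 : (2 : F) ≠ 0 := fun e => by
      have h0 : ((2 : ℕ) : F) = 0 := by push_cast; exact e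
      exact hpr ((Nat.prime_dvd_prime_iff_eq Fact.out Nat.prime_two).1 ((CharP.cast_eq_zero_iff F r 2).1 h0)).symm
    refine good_graph_psu hF hn hs c h2 _ ?_ hord
    exact ⟨hn, PSUAut.semiAut g 1, PSUAut.semiAut 1 σ, σ, by rw [hσp]; exact even_two,
      PSUAut.isInnerDiagonal_iff.2 ⟨g, rfl⟩, PSUAut.isFieldAutOf_iff.2 rfl,
      by rw [PSUAut.semiAut_mul, map_one, mul_one, one_mul]⟩
  · obtain ⟨q₀, hK, hq⟩ : ∃ q₀, Nat.card (fixedField σ) = q₀ ^ 2 ∧ q = q₀ ^ p := by
      have hrp : r.Prime := Fact.out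
      haveI : Fintype (fixedField σ) := Fintype.ofFinite _
      haveI : CharP (fixedField σ) r := (RingHom.charP_iff_charP (fixedField σ).subtype r).2 inferInstance
      obtain ⟨a, -, ha⟩ := FiniteField.card (fixedField σ) r
      have h1 := card_eq_fixedField_pow σ hσp
      rw [hF', Nat.card_eq_fintype_card, ha, ← pow_mul] at h1
      obtain ⟨b, -, hb⟩ := (Nat.dvd_prime_pow hrp).1 (show q ∣ r ^ ((a : ℕ) * p) from h1 ▸ dvd_pow_self q two_ne_zero)
      rw [hb, ← pow_mul] at h1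
      have h2 := Nat.pow_right_injective hrp.two_le h1
      obtain ⟨j, hj⟩ : 2 ∣ (a : ℕ) := by
        have : 2 ∣ (a : ℕ) * p := ⟨b, by rw [← h2, mul_comm]⟩
        exact (Nat.prime_two.dvd_mul.1 this).resolve_right fun h => by
          obtain ⟨k, hk⟩ := hodd; omega
      refine ⟨r ^ j, by rw [Nat.card_eq_fintype_card, ha, hj, ← pow_mul, mul_comm], ?_⟩
      rw [hb, ← pow_mul]
      congr 1
      rw [hj, mul_assoc] at h2
      omega
    obtain ⟨d, -, hd⟩ := PSUAut.isConjUnder_of_pow_eq_one hF hn hs g hσp hodd hq hpow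
    rw [hd] at hdvd ⊢
    rw [card_fix_conj] at hdvd
    exact (good_field_psu (r := r) hF hn hs hp hpr hodd hσp hK hq hdvd).conj d

end CfsgLib.LocalBalance
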