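import Cfsg.Agent.Lib.LocalBalance.LinearCases
import Cfsg.Agent.Lib.ReflectionsSpinor.PSUGraphBasic
import Cfsg.Agent.Lib.ClassicalAut.UnitaryGamma

/-!
# Good automorphisms of `PSU_n(q)`: field automorphisms and graph involutions
-/

set_option autoImplicit false
set_option linter.unusedSectionVars false
set_option linter.style.haveILetI false

open Matrix
open CfsgLib.ReflectionsSpinor CfsgLib.ReflectionsSpinor.PSUAut CfsgLib.ClassicalForms

universe u v

namespace CfsgLib.LocalBalance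

variable {n q : ℕ} {F : Type u} [Field F] [Fintype F]

local notation "M" => Matrix (Fin n) (Fin n) F
local notation "SUn" => Cfsg.SU n F q
local notation "GUn" => Cfsg.GU n F q
local notation "PU" => Cfsg.PSU n F q

/-- The quotient map onto `PSU`. -/
def toPSU : SUn →* PU := QuotientGroup.mk' _

theorem toPSU_apply (s : SUn) : toPSU s = PSUAut.cl s := rfl

theorem toPSU_surjective : Function.Surjective (toPSU : SUn → PU) := PSUAut.cl_surjective

theorem ker_toPSU : (toPSU : SUn →* PU).ker = Subgroup.center SUn := QuotientGroup.ker_mk' _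

theorem su_eq_iff {s t : SUn} : s = t ↔ mat s = mat t :=
  ⟨congrArg _, fun h => Subtype.ext (Subtype.ext h)⟩

theorem mem_center_su_iff (hF : Fintype.card F = q ^ 2) (hn : 2 ≤ n) {s : SUn} :
    s ∈ Subgroup.center SUn ↔ ∃ a : F, mat s = a • (1 : M) := by
  rw [center_su (by rw [Nat.card_eq_fintype_card, hF]) hn, Subgroup.mem_subgroupOf,
    PSL.mem_center_iff_smul]

/-- A semilinear automorphism fixing the class of `s` intertwines `s` and its image. -/
theorem inter_of_fixed_psu (hF : Fintype.card F = q ^ 2) (hn : 2 ≤ n) {g : ↥GUn} {τ : F ≃+* F} {s : SUn}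
    (hs : PSUAut.semiAut g τ (toPSU s) = toPSU s) :
    ∃ a : F, (Units.val g.1 : M) * (mat s).map τ = a • (mat s * (Units.val g.1 : M)) := by
  rw [toPSU_apply, PSUAut.semiAut_cl, eq_comm, QuotientGroup.eq, mem_center_su_iff hF hn] at hs
  obtain ⟨a, ha⟩ := hs
  have h1 : mat (semiHom g τ s) = a • mat s := by
    have h2 : mat (semiHom g τ s) = mat s * mat (s⁻¹ * semiHom g τ s) :=
      congrArg mat (mul_inv_cancel_left s (semiHom g τ s)).symm
    rw [h2, ha, Matrix.mul_smul, Matrix.mul_one]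
  rw [coe_semiHom] at h1
  refine ⟨a, ?_⟩
  have h3 := congrArg (· * (Units.val g.1 : M)) h1
  simpa [Matrix.mul_assoc, Matrix.smul_mul] using h3

theorem mem_SU_matrix (c : Conj F q) (s : SUn) : (mat s)ᵀ * (mat s).map c.σ = 1 :=
  (mem_su_iff c s.1).1 s.2

/-- The field automorphisms are good if `p` divides the number of their fixed points. -/
theorem good_field_psu {r : ℕ} [Fact r.Prime] [CharP F r] (hF : Fintype.card F = q ^ 2) (hn : 3 ≤ n)
    (hs : ¬ (n = 3 ∧ q = 2)) {p : ℕ} (hp : p.Prime) (hpr : p ≠ r) (hodd : Odd p) {σ : F ≃+* F}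
    (hσ : orderOf σ = p) {q₀ : ℕ} (hK : Nat.card (fixedField σ) = q₀ ^ 2) (hq : q = q₀ ^ p)
    (hdvd : p ∣ Nat.card (fix (PSUAut.semiAut (n := n) (q := q) 1 σ))) :
    Good p (PSUAut.semiAut (n := n) (q := q) 1 σ) := by
  haveI : NeZero n := ⟨by omega⟩
  have hF' : Nat.card F = q ^ 2 := by rw [Nat.card_eq_fintype_card, hF]
  obtain ⟨c⟩ := exists_conj hF'
  let i : fixedField σ →+* F := (fixedField σ).subtype
  haveI : CharP (fixedField σ) r := (RingHom.charP_iff_charP i r).2 inferInstance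
  obtain ⟨c₀, hcomp⟩ := exists_conj_compat c i hK hq hodd
  have hmem : ∀ X : Matrix (Fin n) (Fin n) (fixedField σ),
      (X.map i)ᵀ * (X.map i).map c.σ = (Xᵀ * X.map c₀.σ).map i := fun X => by
    rw [Matrix.map_mul, Matrix.map_map, show (⇑c.σ ∘ ⇑i) = (⇑i ∘ ⇑c₀.σ) from funext hcomp,
      ← Matrix.map_map, Matrix.transpose_map]
  let f : Cfsg.SU n (fixedField σ) q₀ →* SUn :=
    ((Matrix.SpecialLinearGroup.map i).comp (Cfsg.SU n (fixedField σ) q₀).subtype).codRestrict _ fun x =>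
      (mem_su_iff c _).2 (by
        show ((x.1 : Matrix (Fin n) (Fin n) (fixedField σ)).map i)ᵀ *
          ((x.1 : Matrix (Fin n) (Fin n) (fixedField σ)).map i).map c.σ = 1
        rw [hmem, (mem_su_iff c₀ x.1).1 x.2, Matrix.map_one _ (map_zero i) (map_one i)])
  have hcoe : ∀ x, mat (f x) = (x.1 : Matrix (Fin n) (Fin n) (fixedField σ)).map i := fun x => rfl
  have hfinj : Function.Injective f := fun x y h =>
    Subtype.ext (Subtype.ext (Matrix.map_injective i.injective ((hcoe x).symm.trans ((congrArg mat h).trans (hcoe y)))))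
  have hcard0 : Nat.card (fixedField σ) = q₀ ^ 2 := hK
  have hker : (toPSU.comp f).ker = Subgroup.center _ := by
    ext x
    rw [MonoidHom.mem_ker, MonoidHom.comp_apply, ← MonoidHom.mem_ker, ker_toPSU]
    constructor
    · intro h
      refine Subgroup.mem_center_iff.2 fun y => hfinj ?_
      rw [map_mul, map_mul]
      exact Subgroup.mem_center_iff.1 h (f y)
    · intro h
      rw [center_su hcard0 (by omega), Subgroup.mem_subgroupOf, PSL.mem_center_iff_smul] at h
      obtain ⟨a, ha⟩ := h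
      refine (mem_center_su_iff hF (by omega)).2 ⟨i a, ?_⟩
      rw [hcoe, ha]
      ext k l
      by_cases hkl : k = l <;> simp [hkl]
  have hf : ∀ x, semiHom (1 : ↥GUn) σ (f x) = f x := fun x => su_eq_iff.2 (by
    rw [coe_semiHom, OneMemClass.coe_one, inv_one, Units.val_one, Matrix.one_mul, Matrix.mul_one, hcoe]
    exact Matrix.ext fun a b => ((x.1 : Matrix (Fin n) (Fin n) (fixedField σ)) a b).2)
  have hf' : ∀ s, semiHom (1 : ↥GUn) σ s = s → ∃ x, f x = s := by
    intro s hs'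
    rw [su_eq_iff, coe_semiHom, OneMemClass.coe_one, inv_one, Units.val_one, Matrix.one_mul,
      Matrix.mul_one] at hs'
    let X : Matrix (Fin n) (Fin n) (fixedField σ) := Matrix.of fun a b =>
      ⟨mat s a b, mem_fixedField.2 (congrFun (congrFun hs' a) b)⟩
    have hX : X.map i = mat s := rfl
    have hdet : X.det = 1 := i.injective (by
      rw [map_one, RingHom.map_det, RingHom.mapMatrix_apply, hX]; exact s.1.2)
    refine ⟨⟨⟨X, hdet⟩, (mem_su_iff c₀ _).2 (Matrix.map_injective i.injective ?_)⟩, su_eq_iff.2 hX⟩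
    show (Xᵀ * X.map c₀.σ).map i = (1 : Matrix (Fin n) (Fin n) (fixedField σ)).map i
    rw [← hmem, hX, mem_SU_matrix c s, Matrix.map_one _ (map_zero i) (map_one i)]
  have hσp : σ ^ p = 1 := hσ ▸ pow_orderOf_eq_one σ
  have hidx : p ∣ (toPSU.comp f).ker.index := by
    refine dvd_index toPSU toPSU_surjective ker_toPSU.le (semiHom 1 σ) (fun s => PSUAut.semiAut_cl 1 σ s) hp f
      hf' hdvd fun hd => ?_
    rw [ker_toPSU] at hd
    haveI : Fact p.Prime := ⟨hp⟩
    obtain ⟨z, hz⟩ := exists_prime_orderOf_dvd_card' p hd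
    obtain ⟨a, ha⟩ := (mem_center_su_iff hF (by omega)).1 z.2
    have hzp : (z : SUn) ^ p = 1 := by
      rw [← SubgroupClass.coe_pow, ← hz, pow_orderOf_eq_one, OneMemClass.coe_one]
    have hap : a ^ p = 1 := by
      have h1 : mat (z : SUn) ^ p = 1 :=
        (Matrix.SpecialLinearGroup.coe_pow _ p).symm.trans (congrArg mat hzp)
      rw [ha, smul_pow, one_pow] at h1
      simpa using congrFun (congrFun h1 0) 0
    have hane : a ≠ 1 := by
      rintro rfl
      have : z = 1 := Subtype.ext (su_eq_iff.2 (by rw [ha, one_smul]; rfl))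
      rw [this, orderOf_one] at hz
      exact hp.ne_one hz.symm
    have hnorm : a * c.σ a = 1 := by
      have h1 := mem_SU_matrix c (z : SUn)
      rw [ha] at h1
      simpa [Matrix.mul_apply, Matrix.one_apply] using congrFun (congrFun h1 0) 0
    let a₀ : fixedField σ := ⟨a, fix_root_of_unity hp hσp hap⟩
    have ha₀ : a₀ * c₀.σ a₀ = 1 := i.injective (by rw [map_mul, map_one, ← hcomp]; exact hnorm)
    have ha₀0 : a₀ ≠ 0 := left_ne_zero_of_mul_eq_one ha₀
    let k₀ : Fin n := ⟨0, by omega⟩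
    let l₀ : Fin n := ⟨1, by omega⟩
    let m₀ : Fin n := ⟨2, by omega⟩
    have hkl : k₀ ≠ l₀ := by simp [k₀, l₀, Fin.ext_iff]
    have hmk : m₀ ≠ k₀ := by simp [k₀, m₀, Fin.ext_iff]
    have hml : m₀ ≠ l₀ := by simp [l₀, m₀, Fin.ext_iff]
    let T : Cfsg.SU n (fixedField σ) q₀ :=
      ⟨⟨torus a₀ k₀ l₀, det_torus ha₀0 hkl⟩, (mem_su_iff c₀ _).2 (torus_unitary ha₀ k₀ l₀)⟩
    refine ⟨T, fun h1 => ?_, ?_⟩
    · obtain ⟨b, hb⟩ := (mem_center_su_iff hF (by omega)).1 (show f T ∈ Subgroup.center SUn by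
        rw [← ker_toPSU]; exact h1)
      have e1 : (torus a₀ k₀ l₀).map i k₀ k₀ = (b • (1 : M)) k₀ k₀ := congrFun (congrFun hb k₀) k₀
      have e2 : (torus a₀ k₀ l₀).map i m₀ m₀ = (b • (1 : M)) m₀ m₀ := congrFun (congrFun hb m₀) m₀
      simp only [Matrix.map_apply, torus, Matrix.diagonal_apply_eq, if_true, if_neg hmk, if_neg hml,
        map_one, Matrix.smul_apply, Matrix.one_apply_eq, smul_eq_mul, mul_one] at e1 e2
      exact hane (e1.trans e2.symm)
    · have e : T ^ p = 1 := by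
        refine Subtype.ext (Subtype.ext ?_)
        show ((T.1 ^ p : Matrix.SpecialLinearGroup (Fin n) (fixedField σ)) :
          Matrix (Fin n) (Fin n) (fixedField σ)) = 1
        rw [Matrix.SpecialLinearGroup.coe_pow]
        show torus a₀ k₀ l₀ ^ p = 1
        rw [torus, Matrix.diagonal_pow, ← Matrix.diagonal_one]
        congr 1
        funext k
        have ha₀p : a₀ ^ p = 1 := Subtype.ext (by rw [SubmonoidClass.coe_pow]; exact hap)
        rw [Pi.pow_apply]
        split_ifs <;> simp [ha₀p]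
      rw [← map_pow, ← map_pow, e, map_one, map_one]
  refine Good.of_lift toPSU toPSU_surjective ker_toPSU.le (semiHom 1 σ) (fun s => PSUAut.semiAut_cl 1 σ s) f
    hf hf' ?_ ?_
  · rw [hker] at hidx ⊢
    exact coreless_su (r := r) hcard0 hn hp hpr hidx
  intro φ _ hcop hfix
  obtain ⟨h, τ, hφ⟩ := CfsgLib.ClassicalAut.Unitary.exists_semiAut_psu hF hn hs φ
  obtain ⟨w, hw, hw1, -⟩ := exists_norm_one_ne hcard0 c₀
  obtain ⟨⟨a, ha⟩, hj⟩ := rigid_unitary hn i c₀.σ c₀.invol (fun y hy => c₀.exists_norm hy) hw hw1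
    (Set.range fun x : Cfsg.SU n (fixedField σ) q₀ => (x.1 : Matrix (Fin n) (Fin n) (fixedField σ)))
    (fun X hX hdet => ⟨⟨⟨X, hdet⟩, (mem_su_iff c₀ _).2 hX⟩, rfl⟩)
    (Units.val h.1 : M) (τ.toRingHom.comp i) h.1.isUnit (by
      rintro _ ⟨x, rfl⟩
      obtain ⟨b, hb⟩ := inter_of_fixed_psu hF (by omega) (hφ ▸ hfix x)
      exact ⟨b, by rwa [hcoe, Matrix.map_map] at hb⟩)
  have hτ : τ ^ p = 1 := pow_eq_one_of_fix hσ fun x hx => DFunLike.congr_fun hj ⟨x, hx⟩
  have hh : h.1 ∈ Cfsg.Geo.scalars (Fin n) F :=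
    (Cfsg.Geo.mem_scalars_iff _).2 ⟨Units.mk0 a (ne_zero_of_eq_smul (by omega) h.1.isUnit ha), ha⟩
  have hφ' : φ = PSUAut.semiAut 1 τ := by
    rw [hφ, show PSUAut.semiAut h τ = PSUAut.semiAut h 1 * PSUAut.semiAut 1 τ by
      rw [PSUAut.semiAut_mul, map_one, mul_one, one_mul], semiAut_scalar hh, one_mul]
  have hpow : φ ^ p = 1 := by
    rw [hφ', ← orderOf_dvd_iff_pow_eq_one, PSUAut.orderOf_semiAut_one hF hn hs, orderOf_dvd_iff_pow_eq_one]
    exact hτ
  have h2 := Nat.dvd_gcd (dvd_refl (orderOf φ)) (orderOf_dvd_of_pow_eq_one hpow)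
  rw [hcop.gcd_eq_one, Nat.dvd_one, orderOf_eq_one_iff] at h2
  exact h2

/-- A graph involution attached to a form `B` over the fixed field is good, given the structure of the
isometry group of `B`. -/
theorem good_model (hF : Fintype.card F = q ^ 2) (hn : 3 ≤ n) (hs : ¬ (n = 3 ∧ q = 2)) (c : Conj F q)
    {g : ↥GUn} {B : Matrix (Fin n) (Fin n) (fixedField (conjE c))}
    (hg : IsModel c (fixedField (conjE c)).subtype g B) {H₀ : Type v} [Group H₀] [Finite H₀]
    (f₀ : H₀ →* Matrix.SpecialLinearGroup (Fin n) (fixedField (conjE c)))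
    (hf₀ : ∀ x, (f₀ x : Matrix (Fin n) (Fin n) (fixedField (conjE c)))ᵀ * B * (f₀ x) = B)
    (hf₀' : ∀ X : Matrix.SpecialLinearGroup (Fin n) (fixedField (conjE c)),
      (X : Matrix (Fin n) (Fin n) (fixedField (conjE c)))ᵀ * B * X = B → ∃ x, f₀ x = X)
    (hcore : Coreless 2 ((Subgroup.center _).comap f₀))
    (hrigid : Rigid (fixedField (conjE c)).subtype
      (Set.range fun x => (f₀ x : Matrix (Fin n) (Fin n) (fixedField (conjE c))))) :
    Good 2 (PSUAut.semiAut g (conjE c)) := by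
  haveI : NeZero n := ⟨by omega⟩
  let i : fixedField (conjE c) →+* F := (fixedField (conjE c)).subtype
  obtain ⟨H, a, μ, hA, hgH⟩ := hg
  set HM : M := Units.val H with hHM
  set Hi : M := Units.val H⁻¹ with hHi
  have hH1 : HM * Hi = 1 := Units.mul_inv H
  have hH2 : Hi * HM = 1 := Units.inv_mul H
  have hHt1 : HM.map (conjE c) * Hi.map (conjE c) = 1 := by
    rw [← Matrix.map_mul, hH1, Matrix.map_one _ (map_zero (conjE c)) (map_one (conjE c))]
  have hHt2 : Hi.map (conjE c) * HM.map (conjE c) = 1 := by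
    rw [← Matrix.map_mul, hH2, Matrix.map_one _ (map_zero (conjE c)) (map_one (conjE c))]
  set G : M := Units.val g.1
  have hG : G = (μ : F) • (HM * Hi.map (conjE c)) := by
    rw [← Matrix.smul_mul, ← hgH, Matrix.mul_assoc, hHt1, Matrix.mul_one]
  have hfixi : ∀ X : Matrix (Fin n) (Fin n) (fixedField (conjE c)), (X.map i).map (conjE c) = X.map i := fun X =>
    Matrix.ext fun a b => (X a b).2
  -- `X ↦ H X H⁻¹`
  have hsu : ∀ X : Matrix (Fin n) (Fin n) (fixedField (conjE c)), Xᵀ * B * X = B →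
      (HM * X.map i * Hi)ᵀ * (HM * X.map i * Hi).map c.σ = 1 := by
    intro X hX
    change (HM * X.map i * Hi)ᵀ * (HM * X.map i * Hi).map (conjE c) = 1
    rw [Matrix.map_mul, Matrix.map_mul, hfixi, Matrix.transpose_mul, Matrix.transpose_mul]
    calc Hiᵀ * ((X.map i)ᵀ * HMᵀ) * (HM.map (conjE c) * X.map i * Hi.map (conjE c))
        = Hiᵀ * ((X.map i)ᵀ * (HMᵀ * HM.map (conjE c)) * X.map i) * Hi.map (conjE c) := by simp only [Matrix.mul_assoc]
      _ = Hiᵀ * (HMᵀ * HM.map (conjE c)) * Hi.map (conjE c) := by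
          rw [hA, Matrix.mul_smul, Matrix.smul_mul, ← Matrix.transpose_map, ← Matrix.map_mul, ← Matrix.map_mul, hX]
      _ = (HM * Hi)ᵀ * (HM.map (conjE c) * Hi.map (conjE c)) := by rw [Matrix.transpose_mul]; simp only [Matrix.mul_assoc]
      _ = 1 := by rw [hH1, hHt1, Matrix.transpose_one, Matrix.one_mul]
  have hdetH : ∀ X : M, (HM * X * Hi).det = X.det := fun X => Matrix.det_units_conj H X
  let f : H₀ →* SUn := MonoidHom.mk' (fun x =>
    ⟨⟨HM * (f₀ x : Matrix (Fin n) (Fin n) (fixedField (conjE c))).map i * Hi, by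
      rw [hdetH, ← RingHom.mapMatrix_apply, ← RingHom.map_det, (f₀ x).2, map_one]⟩,
      (mem_su_iff c _).2 (hsu _ (hf₀ x))⟩) fun x y => su_eq_iff.2 (by
    show HM * (f₀ (x * y) : Matrix (Fin n) (Fin n) (fixedField (conjE c))).map i * Hi =
      (HM * (f₀ x : Matrix (Fin n) (Fin n) (fixedField (conjE c))).map i * Hi) *
      (HM * (f₀ y : Matrix (Fin n) (Fin n) (fixedField (conjE c))).map i * Hi)
    rw [map_mul, Matrix.SpecialLinearGroup.coe_mul, Matrix.map_mul]
    simp only [Matrix.mul_assoc]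
    rw [← Matrix.mul_assoc Hi HM, hH2, Matrix.one_mul])
  have hcoe : ∀ x, mat (f x) = HM * (f₀ x : Matrix (Fin n) (Fin n) (fixedField (conjE c))).map i * Hi := fun x => rfl
  have hfixed : ∀ s : SUn, semiHom g (conjE c) s = s ↔ G * (mat s).map (conjE c) = mat s * G := by
    intro s
    rw [su_eq_iff, coe_semiHom]
    constructor
    · intro h
      conv_rhs => rw [← h]
      rw [Matrix.mul_assoc, Units.inv_mul, Matrix.mul_one]
    · intro h
      show G * (mat s).map (conjE c) * Units.val g.1⁻¹ = mat s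
      rw [h, Matrix.mul_assoc, Units.mul_inv, Matrix.mul_one]
  have hf : ∀ x, semiHom g (conjE c) (f x) = f x := fun x => (hfixed _).2 (by
    rw [hcoe, Matrix.map_mul, Matrix.map_mul, hfixi, hG, Matrix.smul_mul, Matrix.mul_smul]
    congr 1
    simp only [Matrix.mul_assoc]
    rw [← Matrix.mul_assoc (Hi.map (conjE c)) (HM.map (conjE c)), hHt2, Matrix.one_mul, ← Matrix.mul_assoc Hi HM, hH2,
      Matrix.one_mul])
  have hf' : ∀ s, semiHom g (conjE c) s = s → ∃ x, f x = s := by
    intro s hs'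
    rw [hfixed, hG, Matrix.smul_mul, Matrix.mul_smul] at hs'
    have h1 := smul_right_injective M μ.ne_zero hs'
    set X : M := Hi * mat s * HM with hXdef
    have hXτ : X.map (conjE c) = X := by
      have h2 := congrArg (fun Y : M => Hi * Y * HM.map (conjE c)) h1
      simp only [Matrix.mul_assoc] at h2
      rw [← Matrix.mul_assoc Hi HM, hH2, Matrix.one_mul, hHt2, Matrix.mul_one] at h2
      rw [hXdef, Matrix.map_mul, Matrix.map_mul, Matrix.mul_assoc, h2, Matrix.mul_assoc]
    let X₀ : Matrix (Fin n) (Fin n) (fixedField (conjE c)) := Matrix.of fun a b =>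
      ⟨X a b, mem_fixedField.2 (congrFun (congrFun hXτ a) b)⟩
    have hX₀ : X₀.map i = X := rfl
    clear_value X
    have hsX : HM * X = mat s * HM := by
      rw [hXdef, ← Matrix.mul_assoc, ← Matrix.mul_assoc, hH1, Matrix.one_mul]
    have hiso : X₀ᵀ * B * X₀ = B := by
      refine Matrix.map_injective i.injective (smul_right_injective M a.ne_zero ?_)
      show (a : F) • (X₀ᵀ * B * X₀).map i = (a : F) • B.map i
      calc (a : F) • (X₀ᵀ * B * X₀).map i = Xᵀ * ((a : F) • B.map i) * X := by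
            rw [Matrix.map_mul, Matrix.map_mul, Matrix.transpose_map, hX₀, Matrix.mul_smul, Matrix.smul_mul]
        _ = Xᵀ * (HMᵀ * HM.map (conjE c)) * X.map (conjE c) := by rw [hA, hXτ]
        _ = (HM * X)ᵀ * (HM * X).map (conjE c) := by
            rw [Matrix.transpose_mul, Matrix.map_mul]; simp only [Matrix.mul_assoc]
        _ = HMᵀ * ((mat s)ᵀ * (mat s).map (conjE c)) * HM.map (conjE c) := by
            rw [hsX, Matrix.transpose_mul, Matrix.map_mul]; simp only [Matrix.mul_assoc]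
        _ = _ := by rw [show (mat s)ᵀ * (mat s).map (conjE c) = 1 from mem_SU_matrix c s, Matrix.mul_one, hA]
    have hdet : X₀.det = 1 := i.injective (by
      rw [map_one, RingHom.map_det, RingHom.mapMatrix_apply, hX₀, hXdef, Matrix.det_units_conj' H]
      exact s.1.2)
    obtain ⟨x, hx⟩ := hf₀' ⟨X₀, hdet⟩ hiso
    refine ⟨x, su_eq_iff.2 ?_⟩
    rw [hcoe, hx]
    show HM * X * Hi = mat s
    rw [hsX, Matrix.mul_assoc, hH1, Matrix.mul_one]
  refine Good.of_lift toPSU toPSU_surjective ker_toPSU.le (semiHom g (conjE c)) (fun s => PSUAut.semiAut_cl g (conjE c) s) f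
    hf hf' ?_ ?_
  · convert hcore
    ext x
    rw [MonoidHom.mem_ker, MonoidHom.comp_apply, ← MonoidHom.mem_ker, ker_toPSU, Subgroup.mem_comap,
      mem_center_su_iff hF (by omega), PSL.mem_center_iff_smul, hcoe]
    constructor
    · rintro ⟨b, hb⟩
      have h1 : (f₀ x : Matrix (Fin n) (Fin n) (fixedField (conjE c))).map i = b • (1 : M) := by
        have := congrArg (fun Y : M => Hi * Y * HM) hb
        simp only [Matrix.mul_smul, Matrix.smul_mul, Matrix.mul_one, hH2, Matrix.mul_assoc] at this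
        rwa [← Matrix.mul_assoc Hi HM, hH2, Matrix.one_mul] at this
      refine ⟨(f₀ x : Matrix (Fin n) (Fin n) (fixedField (conjE c))) 0 0, Matrix.map_injective i.injective ?_⟩
      have hb0 : i ((f₀ x : Matrix (Fin n) (Fin n) (fixedField (conjE c))) 0 0) = b := by
        simpa using congrFun (congrFun h1 0) 0
      show (f₀ x : Matrix (Fin n) (Fin n) (fixedField (conjE c))).map i =
        ((f₀ x : Matrix (Fin n) (Fin n) (fixedField (conjE c))) 0 0 • (1 : Matrix (Fin n) (Fin n) _)).map i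
      rw [h1, map_smul_matrix₀, hb0, Matrix.map_one _ (map_zero i) (map_one i)]
    · rintro ⟨b, hb⟩
      refine ⟨i b, ?_⟩
      rw [hb, map_smul_matrix₀, Matrix.map_one _ (map_zero i) (map_one i), Matrix.mul_smul, Matrix.mul_one,
        Matrix.smul_mul, hH1]
  intro φ _ hcop hfix
  obtain ⟨h, τ', hφ⟩ := CfsgLib.ClassicalAut.Unitary.exists_semiAut_psu hF hn hs φ
  set h' : M := Hi * (Units.val h.1 : M) * HM.map τ' with hh'
  have hh'u : IsUnit h' :=
    ((Units.isUnit H⁻¹).mul h.1.isUnit).mul ((PSL.gmap τ' H).isUnit)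
  obtain ⟨⟨b, hb⟩, hj⟩ := hrigid h' (τ'.toRingHom.comp i) hh'u (by
    rintro _ ⟨x, rfl⟩
    obtain ⟨d, hd⟩ := inter_of_fixed_psu hF (by omega) (hφ ▸ hfix x)
    refine ⟨d, ?_⟩
    show h' * (f₀ x : Matrix (Fin n) (Fin n) (fixedField (conjE c))).map (τ'.toRingHom.comp i) =
      d • ((f₀ x : Matrix (Fin n) (Fin n) (fixedField (conjE c))).map i * h')
    have h2 := congrArg (fun Y : M => Hi * Y * HM.map τ') hd
    rw [hcoe, Matrix.map_mul, Matrix.map_mul] at h2
    simp only [Matrix.mul_smul, Matrix.smul_mul, Matrix.mul_assoc] at h2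
    rw [← Matrix.map_mul, hH2, Matrix.map_one _ (map_zero τ') (map_one τ'), Matrix.mul_one,
      ← Matrix.mul_assoc Hi HM, hH2, Matrix.one_mul] at h2
    rw [show (f₀ x : Matrix (Fin n) (Fin n) (fixedField (conjE c))).map (τ'.toRingHom.comp i) =
      ((f₀ x : Matrix (Fin n) (Fin n) (fixedField (conjE c))).map i).map τ' by rw [Matrix.map_map]; rfl, hh']
    simp only [Matrix.mul_assoc]
    exact h2)
  have hτ'2 : τ' ^ 2 = 1 :=
    pow_eq_one_of_fix (orderOf_conjE c) fun x hx => DFunLike.congr_fun hj ⟨x, hx⟩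
  have hτ'1 : τ' = 1 := by
    have h1 : φ ^ orderOf φ = 1 := pow_orderOf_eq_one φ
    conv at h1 => lhs; arg 1; rw [hφ]
    rw [PSUAut.semiAut_pow, PSUAut.semiAut_eq_one_iff hF hn hs] at h1
    have h2 := Nat.dvd_gcd (orderOf_dvd_of_pow_eq_one h1.1) (orderOf_dvd_of_pow_eq_one hτ'2)
    rw [hcop.gcd_eq_one, Nat.dvd_one, orderOf_eq_one_iff] at h2
    exact h2
  subst hτ'1
  rw [hφ]
  refine (PSUAut.semiAut_eq_one_iff hF hn hs).2 ⟨rfl,
    (Cfsg.Geo.mem_scalars_iff _).2 ⟨Units.mk0 b (ne_zero_of_eq_smul (by omega) hh'u hb), ?_⟩⟩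
  have h3 := congrArg (fun Y : M => HM * Y * Hi) hb
  rw [hh', show HM.map (⇑(1 : F ≃+* F)) = HM by ext k l; rfl] at h3
  simp only [Matrix.mul_smul, Matrix.smul_mul, Matrix.mul_one, Matrix.mul_assoc, hH1] at h3
  rw [← Matrix.mul_assoc HM Hi, hH1, Matrix.one_mul] at h3
  exact h3

/-- A congruent form is a model of the same automorphism. -/
theorem isModel_congr {F₀ : Type v} [Field F₀] {c : Conj F q} {i : F₀ →+* F}
    (hi : ∀ x, conjE c (i x) = i x) {g : ↥GUn} {B B' : Matrix (Fin n) (Fin n) F₀} (hg : IsModel c i g B)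
    (P : GL (Fin n) F₀) (d : F₀ˣ)
    (hP : (Units.val P : Matrix (Fin n) (Fin n) F₀)ᵀ * B * (Units.val P : Matrix (Fin n) (Fin n) F₀) =
      (d : F₀) • B') : IsModel c i g B' := by
  obtain ⟨H, a, μ, hA, hgH⟩ := hg
  refine ⟨H * Matrix.GeneralLinearGroup.map i P, a * Units.map (i : F₀ →* F) d, μ, ?_, ?_⟩
  · show (Units.val H * (Units.val P : Matrix (Fin n) (Fin n) F₀).map i : M)ᵀ *
      (Units.val H * (Units.val P : Matrix (Fin n) (Fin n) F₀).map i : M).map (conjE c) =
        ((a : F) * i (d : F₀)) • B'.map i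
    rw [Matrix.map_mul, show ((Units.val P : Matrix (Fin n) (Fin n) F₀).map i).map (conjE c) =
      (Units.val P : Matrix (Fin n) (Fin n) F₀).map i from Matrix.ext fun _ _ => hi _, Matrix.transpose_mul,
      show ∀ X Y : M, Xᵀ * (Units.val H : M)ᵀ * ((Units.val H : M).map (conjE c) * Y) =
        Xᵀ * ((Units.val H : M)ᵀ * (Units.val H : M).map (conjE c)) * Y from
        fun X Y => by simp only [Matrix.mul_assoc], hA, Matrix.mul_smul, Matrix.smul_mul,
      ← Matrix.transpose_map, ← Matrix.map_mul, ← Matrix.map_mul, hP, map_smul_matrix₀, smul_smul]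
  · show (Units.val g.1 : M) * (Units.val H * (Units.val P : Matrix (Fin n) (Fin n) F₀).map i : M).map (conjE c) =
      (μ : F) • (Units.val H * (Units.val P : Matrix (Fin n) (Fin n) F₀).map i : M)
    rw [Matrix.map_mul, show ((Units.val P : Matrix (Fin n) (Fin n) F₀).map i).map (conjE c) =
      (Units.val P : Matrix (Fin n) (Fin n) F₀).map i from Matrix.ext fun _ _ => hi _, ← Matrix.mul_assoc, hgH,
      Matrix.smul_mul]

end CfsgLib.LocalBalance
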